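import Cfsg.Agent.H8.Values

/-!
The two families of maximal totally singular subspaces of a space of plus type, and the
non-maximality of some subspace stabilisers.
-/

set_option autoImplicit false
set_option linter.unusedSectionVars false

namespace Cfsg.Agent.H8

open QuadraticMap Module

variable {F V : Type*} [Field F] [AddCommGroup V] [Module F V]

/-- A totally singular subspace of half the dimension. -/
def MaxTS (Q : QuadraticForm F V) (U : Submodule F V) : Prop :=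
  (∀ x ∈ U, Q x = 0) ∧ 2 * finrank F U = finrank F V

variable {Q : QuadraticForm F V}

theorem MaxTS.map {U : Submodule F V} (hU : MaxTS Q U) {g : V ≃ₗ[F] V} (hg : g ∈ OG Q) :
    MaxTS Q (U.map (g : V →ₗ[F] V)) := by
  refine ⟨?_, by rw [LinearEquiv.finrank_map_eq]; exact hU.2⟩
  rintro _ ⟨x, hx, rfl⟩
  exact (hg x).trans (hU.1 x hx)

variable [FiniteDimensional F V]

theorem MaxTS.perp_eq (hN : ND Q) {U : Submodule F V} (hU : MaxTS Q U) : perp Q U = U := by
  symm
  apply Submodule.eq_of_le_of_finrank_eq (le_perp_of_sing hU.1)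
  have := hN.finrank_perp U
  have := hU.2
  omega

theorem two_max (hN : ND Q) {U U₁ U₂ : Submodule F V} (hU : MaxTS Q U) (h1 : MaxTS Q U₁)
    (h2 : MaxTS Q U₂) (h : finrank F (U₁ ⊓ U₂ : Submodule F V) + 1 = finrank F U₁) :
    Odd (finrank F (U ⊓ U₁ : Submodule F V) + finrank F (U ⊓ U₂ : Submodule F V)) := by
  have e1 := h1.2
  have e2 := h2.2
  have e := hU.2
  set H := U₁ ⊓ U₂ with hH
  obtain ⟨a, ha, haH⟩ := exists_not_mem (T := U₁) (S := H) (by omega)
  obtain ⟨b, hb, hbH⟩ := exists_not_mem (T := U₂) (S := H) (by omega)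
  have k1 : U₁ = H ⊔ sp F [a] := by
    symm
    apply Submodule.eq_of_le_of_finrank_eq (sup_le inf_le_left (sp_le.2 (by simpa using ha)))
    rw [finrank_sup_sp_one haH]; omega
  have k2 : U₂ = H ⊔ sp F [b] := by
    symm
    apply Submodule.eq_of_le_of_finrank_eq (sup_le inf_le_right (sp_le.2 (by simpa using hb)))
    rw [finrank_sup_sp_one hbH]; omega
  have hab : polar Q a b ≠ 0 := by
    intro h0
    apply hbH
    refine ⟨?_, hb⟩
    rw [← h1.perp_eq hN, k1, perp_sup]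
    refine ⟨perp_anti inf_le_right (le_perp_of_sing h2.1 hb), mem_perp_sp.2 (by simpa using h0)⟩
  have hpH : perp Q H = U₁ ⊔ U₂ := by rw [hH, hN.perp_inf, h1.perp_eq hN, h2.perp_eq hN]
  have hun : ∀ x ∈ U ⊓ perp Q H, x ∈ U₁ ∨ x ∈ U₂ := by
    intro x hx
    have hx2 := hx.2
    rw [hpH] at hx2
    obtain ⟨y, hy, z, hz, rfl⟩ := Submodule.mem_sup.1 hx2
    have hQ := hU.1 _ hx.1
    rw [Q_add, h1.1 y hy, h2.1 z hz, zero_add, zero_add] at hQ
    have hy' := hy
    have hz' := hz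
    rw [k1] at hy'
    rw [k2] at hz'
    obtain ⟨y1, hy1, y2, hy2, rfl⟩ := Submodule.mem_sup.1 hy'
    obtain ⟨z1, hz1, z2, hz2, rfl⟩ := Submodule.mem_sup.1 hz'
    obtain ⟨c, rfl⟩ := mem_sp_one.1 hy2
    obtain ⟨d, rfl⟩ := mem_sp_one.1 hz2
    have q1 : polar Q y1 (z1 + d • b) = 0 := mem_perp'.1 (le_perp_of_sing h2.1 hy1.2) _ hz
    have q2 : polar Q a z1 = 0 := mem_perp'.1 (le_perp_of_sing h1.1 ha) _ hz1.1
    rw [polar_add_left, q1, pol_smul_left, polar_add_right, q2, pol_smul_right, zero_add,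
      zero_add] at hQ
    rcases mul_eq_zero.1 hQ with h3 | h3
    · right
      rw [h3, zero_smul, add_zero]
      exact U₂.add_mem hy1.2 hz
    · left
      rw [(mul_eq_zero.1 h3).resolve_right hab, zero_smul, add_zero]
      exact U₁.add_mem hy hz1.1
  have hd : finrank F (U ⊓ perp Q H : Submodule F V) = finrank F (U ⊓ H : Submodule F V) + 1 := by
    have q1 : U ⊓ perp Q H = perp Q (U ⊔ H) := by rw [perp_sup, hU.perp_eq hN]
    have q2 := hN.finrank_perp (U ⊔ H)
    have q3 := Submodule.finrank_sup_add_finrank_inf_eq U H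
    rw [q1]; omega
  have hle1 : U₁ ≤ perp Q H := by rw [hpH]; exact le_sup_left
  have hle2 : U₂ ≤ perp Q H := by rw [hpH]; exact le_sup_right
  rcases le_or_le_of_union hun with h3 | h3
  · have q1 : U ⊓ U₁ = U ⊓ perp Q H :=
      le_antisymm (inf_le_inf_left _ hle1) (le_inf inf_le_left h3)
    have q2 : U ⊓ U₂ = U ⊓ H := le_antisymm
      (le_inf inf_le_left (le_inf ((inf_le_inf_left _ hle2).trans h3) inf_le_right))
      (inf_le_inf_left _ inf_le_right)
    rw [q1, q2, hd]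
    exact ⟨finrank F (U ⊓ H : Submodule F V), by omega⟩
  · have q1 : U ⊓ U₂ = U ⊓ perp Q H :=
      le_antisymm (inf_le_inf_left _ hle2) (le_inf inf_le_left h3)
    have q2 : U ⊓ U₁ = U ⊓ H := le_antisymm
      (le_inf inf_le_left (le_inf inf_le_right ((inf_le_inf_left _ hle1).trans h3)))
      (inf_le_inf_left _ inf_le_left)
    rw [q1, q2, hd]
    exact ⟨finrank F (U ⊓ H : Submodule F V), by omega⟩

theorem refl_parity (hN : ND Q) {U U₁ : Submodule F V} (hU : MaxTS Q U) (h1 : MaxTS Q U₁) {a : V}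
    (ha : Q a ≠ 0) : Odd (finrank F (U ⊓ U₁ : Submodule F V) +
      finrank F (U ⊓ U₁.map (refl Q a : V →ₗ[F] V) : Submodule F V)) := by
  refine two_max hN hU h1 (h1.map (refl_mem_OG a)) ?_
  have haU : a ∉ U₁ := fun h => ha (h1.1 a h)
  have h2 : U₁ ⊓ U₁.map (refl Q a : V →ₗ[F] V) = perp Q (U₁ ⊔ sp F [a]) := by
    rw [perp_sup, h1.perp_eq hN]
    ext x
    constructor
    · rintro ⟨hx, y, hy, rfl⟩
      refine ⟨hx, mem_perp_sp.2 ?_⟩
      have h3 := U₁.sub_mem hy hx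
      change y - refl Q a y ∈ U₁ at h3
      rw [refl_apply, sub_sub_cancel] at h3
      have h4 : polar Q y a = 0 := by
        by_contra h4
        exact haU ((U₁.smul_mem_iff (div_ne_zero h4 ha)).1 h3)
      change ∀ w ∈ [a], polar Q w (refl Q a y) = 0
      simp [refl_of_perp h4, pol_comm Q a y, h4]
    · rintro ⟨hx, hx2⟩
      exact ⟨hx, x, hx, refl_of_perp (by rw [pol_comm]; exact mem_perp_sp.1 hx2 a (by simp))⟩
  have h3 := hN.finrank_perp (U₁ ⊔ sp F [a])
  rw [finrank_sup_sp_one haU] at h3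
  have := h1.2
  rw [h2]; omega

/-- The commutator subgroup preserves the two families of maximal totally singular subspaces. -/
theorem Om_parity [Finite F] (hN : ND Q) (h5 : 5 ≤ finrank F V) {g : V ≃ₗ[F] V} (hg : g ∈ Om Q)
    {U U₁ : Submodule F V} (hU : MaxTS Q U) (h1 : MaxTS Q U₁) :
    Even (finrank F (U ⊓ U₁.map (g : V →ₗ[F] V) : Submodule F V) +
      finrank F (U ⊓ U₁ : Submodule F V)) := by
  have hcomp : ∀ (a b : V ≃ₗ[F] V) (W : Submodule F V),
      W.map ((a * b : V ≃ₗ[F] V) : V →ₗ[F] V) = (W.map (b : V →ₗ[F] V)).map (a : V →ₗ[F] V) :=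
    fun a b W => by rw [← Submodule.map_comp]; rfl
  let S : Subgroup (V ≃ₗ[F] V) :=
    { carrier := {g | g ∈ OG Q ∧ ∀ U₁, MaxTS Q U₁ →
        Even (finrank F (U ⊓ U₁.map (g : V →ₗ[F] V) : Submodule F V) +
          finrank F (U ⊓ U₁ : Submodule F V))}
      mul_mem' := fun {a b} ha hb => ⟨(OG Q).mul_mem ha.1 hb.1, fun U₁ h1 => by
        have e1 := ha.2 _ (h1.map hb.1)
        have e2 := hb.2 _ h1
        rw [hcomp]
        rw [Nat.even_iff] at e1 e2 ⊢
        omega⟩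
      one_mem' := ⟨(OG Q).one_mem, fun U₁ _ => by
        have : ((1 : V ≃ₗ[F] V) : V →ₗ[F] V) = LinearMap.id := rfl
        rw [this, Submodule.map_id]; exact ⟨_, rfl⟩⟩
      inv_mem' := fun {a} ha => ⟨(OG Q).inv_mem ha.1, fun U₁ h1 => by
        have e1 := ha.2 _ (h1.map ((OG Q).inv_mem ha.1))
        have : ((1 : V ≃ₗ[F] V) : V →ₗ[F] V) = LinearMap.id := rfl
        rw [← hcomp, mul_inv_cancel, this, Submodule.map_id, add_comm] at e1
        exact e1⟩ }
  have : Om Q ≤ S := Om_le_of_siegel hN h5 fun u v hu huv =>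
    siegel_mem_of_nonsing (K := S) hN h5 hu (fun a hua ha => ⟨siegel_mem_OG _ _, fun U₁ h1 => by
      have h3 : Q (a + Q a • u) ≠ 0 := by
        rw [Q_add, Q_smul, pol_smul_right, hu, pol_comm, hua]; simpa using ha
      have e1 := refl_parity hN hU h1 h3
      have e2 := refl_parity hN hU (h1.map (refl_mem_OG (a + Q a • u))) ha
      rw [siegel_eq_refl_mul hu hua ha, hcomp]
      rw [Nat.odd_iff] at e1 e2
      rw [Nat.even_iff]
      omega⟩) v huv
  exact (this hg).2 U₁ h1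

variable [Finite F]

/-- A totally singular subspace of codimension one in a maximal one. -/
theorem exists_maxTS_of_submax (hN : ND Q) {U₀ W : Submodule F V} (h0 : MaxTS Q U₀)
    (hW : ∀ x ∈ W, Q x = 0) (hdim : 2 * (finrank F W + 1) = finrank F V) :
    ∃ u, u ∉ W ∧ MaxTS Q (W ⊔ sp F [u]) := by
  have q1 : U₀ ⊓ perp Q W = perp Q (U₀ ⊔ W) := by rw [perp_sup, h0.perp_eq hN]
  have q2 := hN.finrank_perp (U₀ ⊔ W)
  have q3 := Submodule.finrank_sup_add_finrank_inf_eq U₀ W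
  have q4 := h0.2
  obtain ⟨u, hu, huW⟩ := exists_not_mem (T := U₀ ⊓ perp Q W) (S := U₀ ⊓ W) (by rw [q1]; omega)
  have huW' : u ∉ W := fun h => huW ⟨hu.1, h⟩
  refine ⟨u, huW', fun x hx => ?_, by rw [finrank_sup_sp_one huW', hdim]⟩
  obtain ⟨a, ha, b, hb, rfl⟩ := Submodule.mem_sup.1 hx
  obtain ⟨c, rfl⟩ := mem_sp_one.1 hb
  rw [Q_add, Q_smul, pol_smul_right, hW a ha, h0.1 u hu.1, mem_perp.1 hu.2 a ha]; ring

theorem Stab_submax_le (hN : ND Q) (h5 : 5 ≤ finrank F V) {W U : Submodule F V} (hU : MaxTS Q U)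
    (hWU : W ≤ U) (hdim : 2 * (finrank F W + 1) = finrank F V) : Stab W ⊓ Om Q ≤ Stab U := by
  rintro g ⟨hg, hgO⟩
  have h1 := Om_parity hN h5 hgO hU hU
  have h2 : W ≤ U ⊓ U.map (g : V →ₗ[F] V) := le_inf hWU (by
    rw [← mem_Stab_iff_map.1 hg]; exact Submodule.map_mono hWU)
  have h3 := Submodule.finrank_mono h2
  have h4 : finrank F (U ⊓ U.map (g : V →ₗ[F] V) : Submodule F V) ≤ finrank F U :=
    Submodule.finrank_mono inf_le_left
  have h6 := hU.2
  rw [inf_idem, Nat.even_iff] at h1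
  have h7 : U ⊓ U.map (g : V →ₗ[F] V) = U :=
    Submodule.eq_of_le_of_finrank_eq inf_le_left (by omega)
  rw [mem_Stab_iff_map]
  symm
  apply Submodule.eq_of_le_of_finrank_eq (h7.symm.le.trans inf_le_right)
  rw [LinearEquiv.finrank_map_eq]

theorem MaxTS.ne_bot (h5 : 5 ≤ finrank F V) {U : Submodule F V} (hU : MaxTS Q U) : U ≠ ⊥ := by
  rintro rfl; have := hU.2; rw [finrank_bot] at this; omega

theorem MaxTS.ne_top (h5 : 5 ≤ finrank F V) {U : Submodule F V} (hU : MaxTS Q U) : U ≠ ⊤ := by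
  rintro rfl; have := hU.2; rw [finrank_top] at this; omega

theorem submax_not_max (hN : ND Q) (h5 : 5 ≤ finrank F V) {U₀ W : Submodule F V} (h0 : MaxTS Q U₀)
    (hW : ∀ x ∈ W, Q x = 0) (hdim : 2 * (finrank F W + 1) = finrank F V) :
    ∃ M, Stab W ⊓ Om Q < M ∧ M < Om Q := by
  obtain ⟨u, huW, hU⟩ := exists_maxTS_of_submax hN h0 hW hdim
  have hu : u ∈ W ⊔ sp F [u] := Submodule.mem_sup_right (mem_sp_of_mem (by simp))
  refine between_of (Stab_submax_le hN h5 hU le_sup_left hdim) ?_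
    (exists_Om_not_Stab hN h5 (hU.ne_bot h5) (hU.ne_top h5))
  obtain ⟨x, hx, hx0⟩ := exists_not_mem (T := W) (S := ⊥) (by rw [finrank_bot]; omega)
  have h1 : x ∉ sp F [u] := by
    intro h
    obtain ⟨c, rfl⟩ := mem_sp_one.1 h
    have : c ≠ 0 := by rintro rfl; simp at hx0
    exact huW ((W.smul_mem_iff this).1 hx)
  obtain ⟨v, hv1, hv2⟩ := hN.exists_dual h1
  have hv3 : polar Q u v = 0 := hv2 u (mem_sp_of_mem (by simp))
  have hp := le_perp_of_sing hU.1 hu
  refine ⟨siegel Q u v, siegel_mem_Om hN h5 u v, siegel_mem_Stab_of_perp hu hp v, fun h => huW ?_⟩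
  have h2 := (h x).1 hx
  rw [siegel_apply_of_perp (hU.1 u hu) hv3 (hp x (Submodule.mem_sup_left hx)), hv1, one_smul] at h2
  simpa using W.sub_mem hx h2

theorem DStab_pair_le (hN : ND Q) (h5 : 5 ≤ finrank F V) {D : Fin 2 → Submodule F V}
    (h0 : MaxTS Q (D 0)) (hD : D 0 ⊓ D 1 = ⊥) (hodd : Odd (finrank F (D 0))) :
    DStab D ⊓ Om Q ≤ Stab (D 0) := by
  rintro g ⟨⟨σ, hσ⟩, hg⟩
  have h1 := hσ 0
  by_cases h2 : σ 0 = 0
  · rw [h2] at h1; exact mem_Stab_iff_map.2 h1
  · have h3 : σ 0 = 1 := by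
      revert h2; generalize σ 0 = j; revert j; decide
    have h4 := Om_parity hN h5 hg h0 h0
    rw [h1, h3, hD, finrank_bot, inf_idem, zero_add] at h4
    exact absurd h4 (Nat.not_even_iff_odd.2 hodd)

theorem pair_not_max (hN : ND Q) (h5 : 5 ≤ finrank F V) {D : Fin 2 → Submodule F V}
    (h0 : MaxTS Q (D 0)) (h1 : MaxTS Q (D 1)) (hD : D 0 ⊓ D 1 = ⊥)
    (hodd : Odd (finrank F (D 0))) : ∃ M, DStab D ⊓ Om Q < M ∧ M < Om Q := by
  refine between_of (DStab_pair_le hN h5 h0 hD hodd) ?_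
    (exists_Om_not_Stab hN h5 (h0.ne_bot h5) (h0.ne_top h5))
  have e0 := h0.2
  obtain ⟨v, hv, hv0⟩ := exists_not_mem (T := D 0) (S := ⊥) (by rw [finrank_bot]; omega)
  obtain ⟨u, hu, huv⟩ := exists_not_mem (T := D 0) (S := sp F [v]) (by
    have := finrank_sp_le (F := F) [v]; simp only [List.length_cons, List.length_nil] at this; omega)
  have hz : ∀ z ∈ D 0, z ∈ D 1 → z = 0 := fun z hz hz' => by
    have : z ∈ D 0 ⊓ D 1 := ⟨hz, hz'⟩
    rwa [hD] at this
  obtain ⟨x, hx, hx1, hx2⟩ := hN.exists_dual_in (X := D 1) (S := sp F [v]) (x := u) (by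
    rw [h1.perp_eq hN]
    intro h
    obtain ⟨a, ha, b, hb, rfl⟩ := Submodule.mem_sup.1 h
    have : b ∈ D 0 := by simpa using (D 0).sub_mem hu (sp_le.2 (by simpa using hv) ha)
    rw [hz b this hb, add_zero] at huv
    exact huv ha)
  have hx3 : polar Q x v = 0 := by rw [pol_comm]; exact hx2 v (mem_sp_of_mem (by simp))
  have h3 : siegel Q u v x = x + v := by
    rw [siegel_apply (h0.1 u hu) (mem_perp.1 (le_perp_of_sing h0.1 hv) u hu), pol_comm Q x u, hx1,
      hx3, h0.1 v hv]; simp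
  refine ⟨siegel Q u v, siegel_mem_Om hN h5 u v, siegel_mem_Stab hu hv, ?_⟩
  rintro ⟨σ, hσ⟩
  have h4 : x + v ∈ D (σ 1) := by rw [← hσ 1, ← h3]; exact ⟨x, hx, rfl⟩
  by_cases h2 : σ 1 = 0
  · rw [h2] at h4
    have : x = 0 := hz x (by simpa using (D 0).sub_mem h4 hv) hx
    rw [this] at hx1; simp at hx1
  · have h3 : σ 1 = 1 := by
      revert h2; generalize σ 1 = j; revert j; decide
    rw [h3] at h4
    exact hv0 (hz v hv (by simpa using (D 1).sub_mem h4 hx))

theorem sq_eq_one_of_card_le_three (hq : Nat.card F ≤ 3) {a : F} (ha : a ≠ 0) : a * a = 1 := by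
  have h1 : Nat.card Fˣ ≤ 2 := by rw [Nat.card_units]; omega
  have h2 := pow_card_eq_one' (G := Fˣ) (x := Units.mk0 a ha)
  have h3 : 0 < Nat.card Fˣ := Nat.card_pos
  have h4 : a ^ Nat.card Fˣ = 1 := by
    have := congrArg Units.val h2
    rwa [Units.val_pow_eq_pow_val] at this
  obtain h | h : Nat.card Fˣ = 1 ∨ Nat.card Fˣ = 2 := by omega
  · rw [h, pow_one] at h4; rw [h4, mul_one]
  · rw [h, pow_two] at h4; exact h4

omit [Finite F] in
theorem eq_sp_pair {W : Submodule F V} (h2 : finrank F W = 2) {x w : V} (hx : x ∈ W) (hw : w ∈ W)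
    (hQw : Q w = 0) (hxw : polar Q x w = 1) : W = sp F [x, w] := by
  symm
  apply Submodule.eq_of_le_of_finrank_eq (sp_le.2 (by simp [hx, hw]))
  rw [finrank_sp_cons, finrank_sp_one (by rintro rfl; simp at hxw), h2]
  intro h
  obtain ⟨c, rfl⟩ := mem_sp_one.1 h
  rw [pol_smul_left, pol_self, hQw] at hxw
  simp at hxw

theorem Stab_plane_le (hq : Nat.card F ≤ 3) {x w : V} (hQx : Q x = 0) (hQw : Q w = 0)
    (hxw : polar Q x w = 1) : Stab (sp F [x, w]) ⊓ OG Q ≤ Stab (sp F [x + w]) := by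
  rintro g ⟨hg, hgO⟩
  refine mem_Stab_of_maps fun y hy => ?_
  obtain ⟨c, rfl⟩ := mem_sp_one.1 hy
  rw [_root_.map_smul]
  refine Submodule.smul_mem _ _ ?_
  obtain ⟨a, b, hab⟩ := mem_sp_two.1 ((hg (x + w)).1 (mem_sp_two.2 ⟨1, 1, by simp⟩))
  have h1 := hgO (x + w)
  rw [hab] at h1
  simp only [Q_add, Q_smul, pol_smul_left, pol_smul_right, hQx, hQw, hxw] at h1
  have h2 : a * b = 1 := by linear_combination h1
  have h3 := sq_eq_one_of_card_le_three hq (left_ne_zero_of_mul_eq_one h2)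
  have h4 : b = a := by linear_combination a * h2 - b * h3
  rw [hab, h4, ← smul_add]
  exact mem_sp_one.2 ⟨a, rfl⟩

theorem plane_not_max (hN : ND Q) (h6 : 6 ≤ finrank F V) (hq : Nat.card F ≤ 3) {W : Submodule F V}
    (hW : NDOn Q W) (h2 : finrank F W = 2) (hp : ∃ x ∈ W, x ≠ 0 ∧ Q x = 0) :
    ∃ M, Stab W ⊓ Om Q < M ∧ M < Om Q := by
  have h5 : 5 ≤ finrank F V := by omega
  obtain ⟨x, hx, hx0, hQx⟩ := hp
  obtain ⟨w, hw, hQw, hxw⟩ := hW.exists_partner hx hx0 hQx
  have hWe := eq_sp_pair h2 hx hw hQw hxw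
  have hwx : polar Q w x = 1 := by rw [pol_comm, hxw]
  have ha0 : x + w ≠ 0 := by
    intro h
    have : polar Q (x + w) w = 1 := by rw [polar_add_left, pol_self, hQw, hxw]; ring
    rw [h] at this; simp at this
  refine between_of (T := Stab (sp F [x + w])) (by
    rw [hWe]; exact (inf_le_inf_left _ Om_le_OG).trans (Stab_plane_le hq hQx hQw hxw)) ?_
    (exists_Om_not_Stab hN h5 (by rw [sp_one]; simpa using ha0) fun h => by
      have := finrank_sp_one (F := F) ha0
      rw [h, finrank_top] at this; omega)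
  have hd := hN.finrank_perp W
  obtain ⟨z, hz, hQz⟩ := (hW.perp hN).exists_value_two hN (by omega) 1
  have hd2 := finrank_le_inf_perp_sp (Q := Q) (perp Q W) [z]
  have hd3 := finrank_sp_le (F := F) [z]
  simp only [List.length_cons, List.length_nil] at hd2 hd3
  obtain ⟨y, hy, hyz⟩ := exists_not_mem (T := perp Q W ⊓ perp Q (sp F [z])) (S := sp F [z])
    (by omega)
  have e1 : polar Q x z = 0 := hz x hx
  have e2 : polar Q w z = 0 := hz w hw
  have e3 : polar Q x y = 0 := hy.1 x hx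
  have e4 : polar Q w y = 0 := hy.1 w hw
  have e5 : polar Q z y = 0 := mem_perp_sp.1 hy.2 z (by simp)
  have hu : Q (x - w + z) = 0 := by
    rw [Q_add, Q_sub, polar_sub_left, hQx, hQw, hxw, hQz, e1, e2]; ring
  have huy : polar Q (x - w + z) y = 0 := by
    rw [polar_add_left, polar_sub_left, e3, e4, e5]; ring
  refine ⟨siegel Q (x - w + z) y, siegel_mem_Om hN h5 _ _, Fix_le_Stab _ (siegel_mem_Fix
    (mem_perp_sp.2 ?_) (mem_perp_sp.2 ?_)), fun h => hyz ?_⟩
  · simp only [List.mem_singleton, forall_eq, polar_add_left, polar_add_right, polar_sub_right,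
      pol_self, hQx, hQw, hxw, hwx, e1, e2]; ring
  · simp only [List.mem_singleton, forall_eq, polar_add_left, e3, e4]; ring
  · have h3 := (h x).1 hx
    rw [siegel_apply hu huy, e3] at h3
    simp only [polar_add_right, polar_sub_right, pol_self, hQx, hxw, e1] at h3
    have h4 : -y + Q y • z ∈ W := by
      have := W.sub_mem (W.sub_mem h3 hx) (W.smul_mem (Q y) (W.sub_mem hx hw))
      convert this using 1
      module
    have h6 := hW.eq_zero h4 (Submodule.add_mem _ (Submodule.neg_mem _ hy.1)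
      (Submodule.smul_mem _ _ hz))
    exact mem_sp_one.2 ⟨Q y, by rw [← neg_add_eq_zero, h6]⟩

end Cfsg.Agent.H8
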