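import Cfsg.Agent.H4.FxG

/-!
A maximal subgroup of `E₈(3)` that fixes a line of the adjoint module contains an abelian `3'`-subgroup of order at least 256.
-/

set_option autoImplicit false
set_option linter.unusedSectionVars false
set_option maxRecDepth 100000

namespace Cfsg.Agent.H8.Core

open Matrix Subgroup Cfsg.Agent.Chv Cfsg.Lie Cfsg.Agent.Chv.E8 Cfsg.Agent.H1.E8 Cfsg.Agent.H6 Cfsg.Agent.H6.Gs Cfsg.Agent.H4
open Cfsg.Agent.H4.T8 (KK h3K lfK FF FF_mem FF_inj xMat_map map_h map_Γ)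
open Cfsg.Agent.H4.Fx

attribute [local irreducible] S3 adE Fr FF ad

theorem det_ge {n : ℕ} {W : Matrix (Fin n) (Fin n) ℤ} {k : ℕ} (hk : 0 < k) (h : W ^ k = 1) :
    2 ^ n ≤ ((3 : ℤ) • W - 1).det.natAbs := by
  let A := (Int.castRingHom ℂ).mapMatrix W
  have hA : A ^ k = 1 := by rw [← map_pow, h, map_one]
  have h1 : ∀ μ ∈ ((3 : ℂ) • A - 1).charpoly.roots.map nnnorm, 2 ≤ μ := fun ν hν => by
    obtain ⟨μ, hμ, rfl⟩ := Multiset.mem_map.1 hν
    have h2 := (Polynomial.mem_roots (charpoly_monic _).ne_zero).1 hμ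
    rw [Polynomial.IsRoot, eval_charpoly, ← exists_mulVec_eq_zero_iff] at h2
    obtain ⟨v, h0, hv⟩ := h2
    have h3 : A *ᵥ v = ((μ + 1) / 3) • v := by
      rw [sub_mulVec, sub_mulVec, scalar_apply, diagonal_const_mulVec, smul_mulVec, one_mulVec] at hv
      linear_combination (norm := module) (-1 / 3 : ℂ) • hv
    have h4 : ∀ j, A ^ j *ᵥ v = ((μ + 1) / 3) ^ j • v := fun j => by
      induction j with
      | zero => simp
      | succ j ih => rw [pow_succ, ← mulVec_mulVec, h3, mulVec_smul, ih, smul_smul, pow_succ']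
    have h5 := h4 k
    rw [hA, one_mulVec, eq_comm, ← sub_eq_zero] at h5
    nth_rewrite 2 [← one_smul ℂ v] at h5
    rw [← sub_smul, smul_eq_zero_iff_left h0, sub_eq_zero] at h5
    have h6 := Complex.norm_eq_one_of_pow_eq_one h5 hk.ne'
    rw [norm_div, div_eq_one_iff_eq (by simp)] at h6
    have h7 := norm_add_le μ 1
    rw [h6] at h7
    rw [← NNReal.coe_le_coe]
    simp only [Complex.norm_ofNat, norm_one] at h7
    simpa using by linarith
  have h2 := Multiset.pow_card_le_prod h1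
  rw [Multiset.card_map, IsAlgClosed.card_roots_eq_natDegree, charpoly_natDegree_eq_dim, Fintype.card_fin,
    show (nnnorm : ℂ → NNReal) = nnnormHom from rfl, ← map_multiset_prod, ← det_eq_prod_roots_charpoly,
    show (3 : ℂ) • A - 1 = (Int.castRingHom ℂ).mapMatrix ((3 : ℤ) • W - 1) from by
      rw [map_sub, map_one, map_zsmul, ← Int.cast_smul_eq_zsmul ℂ]; rfl,
    ← RingHom.map_det, ← NNReal.coe_le_coe] at h2
  have h3 : ((2 ^ n : ℕ) : ℝ) ≤ ((3 : ℤ) • W - 1).det.natAbs := by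
    rw [Nat.cast_natAbs, Int.cast_abs, ← Complex.norm_intCast]
    rw [Nat.cast_pow]
    exact h2
  exact_mod_cast h3

theorem card_tw {w : L ≃+ L} {k : ℕ} (hk : 0 < k) (h : ∀ v, w^[k] v = v) :
    256 ≤ Nat.card {χ : Chr 8 KK // ∀ v, ev χ (3 • w v) = ev χ v} := by
  let Λ : AddSubgroup L := (3 • w.toAddMonoidHom - AddMonoidHom.id L).range
  have h1 : ∀ v, ((3 • w v : L) : L ⧸ Λ) = v := fun v => (QuotientAddGroup.eq_iff_sub_mem).2 ⟨v, rfl⟩
  have h2 : ∀ j v, (3 ^ j • (w^[j] v : L) : L ⧸ Λ) = v := fun j => by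
    induction j with
    | zero => simp
    | succ j ih => intro v; rw [Function.iterate_succ_apply', pow_succ, mul_smul, ← QuotientAddGroup.mk_nsmul _ _ 3, h1, ih]
  have h4 : 1 < 3 ^ k := Nat.one_lt_pow hk.ne' (by decide)
  have h5 : ∀ a : L ⧸ Λ, (3 ^ k - 1) • a = 0 := fun a => by
    obtain ⟨v, rfl⟩ := QuotientAddGroup.mk_surjective a
    have := h2 k v
    rwa [h, ← Nat.sub_add_cancel h4.le, succ_nsmul, add_eq_right] at this
  have : Finite (L ⧸ Λ) := AddCommGroup.finite_of_fg_isAddTorsion _ fun a => isOfFinAddOrder_iff_nsmul_eq_zero.2 ⟨_, by omega, h5 a⟩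
  have : NeZero ((3 ^ k - 1 : ℕ) : KK) := ⟨by rw [Nat.cast_sub h4.le]; simp [h3K, hk.ne']⟩
  have : NeZero (3 ^ k - 1) := ⟨by omega⟩
  have := HasEnoughRootsOfUnity.of_dvd KK (Monoid.exponent_dvd_of_forall_pow_eq_one (G := Multiplicative (L ⧸ Λ)) h5)
  have h6 : 256 ≤ Nat.card (L ⧸ Λ) := by
    let f := w.toAddMonoidHom.toIntLinearMap
    have h7 := det_ge (W := LinearMap.toMatrix' f) hk (by
      rw [← LinearMap.toMatrix'_one, show LinearMap.toMatrix' f = LinearMap.toMatrixAlgEquiv' f from rfl,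
        ← map_pow]
      exact congrArg LinearMap.toMatrix' (LinearMap.ext fun v => by rw [Module.End.pow_apply]; exact h v))
    rw [← LinearMap.toMatrix'_one, ← map_smul, ← map_sub, LinearMap.det_toMatrix'] at h7
    have h8 : Function.Injective ((3 : ℤ) • f - 1 : L →ₗ[ℤ] L) := by
      rw [← LinearMap.ker_eq_bot]
      by_contra e
      rw [LinearMap.det_eq_zero_iff_ker_ne_bot.2 e] at h7
      simp at h7
    exact h7.trans_eq (Submodule.natAbs_det_equiv _ (LinearEquiv.ofInjective _ h8))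
  refine (h6.trans_eq (CommGroup.card_monoidHom_of_hasEnoughRootsOfUnity (Multiplicative (L ⧸ Λ)) KK).symm).trans_eq
    (Nat.card_congr ⟨fun ψ => ⟨ψ.comp (AddMonoidHom.toMultiplicative (QuotientAddGroup.mk' Λ)), fun v => congrArg ψ (h1 v)⟩,
      fun χ => AddMonoidHom.toMultiplicativeLeft (QuotientAddGroup.lift Λ (MonoidHom.toAdditiveRight χ.1) ?_), fun ψ => ?_, fun χ => rfl⟩)
  · rintro _ ⟨v, rfl⟩
    exact (map_div χ.1 _ _).trans (div_eq_one.2 (χ.2 v))
  · exact MonoidHom.ext fun a => Quotient.inductionOn a fun _ => rfl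

theorem torus_card {g : GL I KK} (hg : g ∈ SK.Γ) (hn : Fr g * g⁻¹ ∈ SK.N) :
    256 ≤ Nat.card (SK.H.comap ((MulAut.conj g).toMonoidHom.comp FF)) := by
  obtain ⟨w, π, ha⟩ := Gs.Sys.exists_act hn
  obtain ⟨w', h1, h2⟩ := ha.toMon.pow (orderOf π)
  rw [pow_orderOf_eq_one] at h1
  have h4 : ∀ χ : {χ : Chr 8 KK // ∀ v, ev χ (3 • w v) = ev χ v}, ∃ k, FF k = g⁻¹ * R.h χ.1 * g := fun χ =>
    fixed (mul_mem (mul_mem (inv_mem hg) (Gs.Sys.H_le_Γ (Gs.Sys.h_mem _))) hg) (by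
      have := ha.inv.toMon.h_conj (χ.1 ^ 3)
      rw [show cmp (χ.1 ^ 3) w.symm.symm.toAddMonoidHom = χ.1 from chr_ext fun j => (ev_nsmul _ _ _).symm.trans (χ.2 _)] at this
      rw [map_mul, map_mul, map_inv, Fr_h]
      rw [← this]
      group)
  choose k hk using h4
  exact (card_tw (orderOf_pos π) fun v => by rw [← h2, h1.w_eq (mon_h (1 : Chr 8 KK))]; rfl).trans
    (Nat.card_le_card_of_injective (fun χ => ⟨k χ, χ.1, by simp [hk, mul_assoc]⟩) fun χ ψ e => Subtype.ext (R.h_inj (K := KK) (by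
      simpa [hk] using congrArg (fun a => FF a.1) e)))

theorem core' {H : Subgroup (chevE8.group (ZMod 3))} (hH : IsCoatom H) {x : I → KK} (h0 : x ≠ 0) (hx : Rt x)
    (h : H ≤ (Ln x).comap FF) : ∃ A : Subgroup H, IsMulCommutative A ∧ ¬ 3 ∣ Nat.card A ∧ 256 ≤ Nat.card A := by
  obtain ⟨g, hg, h1, h2⟩ : ∃ g ∈ SK.Γ, Fr g * g⁻¹ ∈ SK.N ∧ Tw g ≤ H := by
    obtain ⟨g, hg, t, -, h1, m, hm, e⟩ := jordan h3K lfK x
    have h2 := Rt.pow hx (e 1 one_pos)
    by_cases h4 : x - (g⁻¹).1 *ᵥ t = 0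
    · exact core_ss hH h0 hx h ⟨_, mul_pos hm one_pos, by rw [e 1 one_pos, ← sub_eq_zero.1 h4]⟩
    refine core_nil hH h4 (funext fun i => (map_sub _ _ _).trans (congrArg₂ _ (congrFun hx i) (congrFun h2 i))) (fun a ha => ?_)
      ⟨g, Gs.Sys.G_le_Γ hg, by rwa [mulVec_sub, mul_inv_vec]⟩
    obtain ⟨c, h5, h6⟩ := h ha
    have h7 := ad_conj h3K (Γ_Au h3K (FF_mem a)) x (3 ^ (m * 1))
    rw [e 1 one_pos, Γ_Au h3K (FF_mem a), Units.mul_left_inj, h6, map_smul, smul_pow, e 1 one_pos, mul_comm,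
      pow_per (by rw [pow_one, pow_three, h5, mul_one]), ← map_smul] at h7
    exact ⟨c, h5, by rw [mulVec_sub, h6, ad_inj h3K h7, smul_sub]⟩
  refine ⟨(Tw g).subgroupOf H, ⟨⟨fun a b => Subtype.ext (Subtype.ext (FF_inj ((MulAut.conj g).injective ?_)))⟩⟩, fun h3 => ?_,
    (torus_card hg h1).trans_eq (Nat.card_congr (subgroupOfEquivOfLe h2).toEquiv).symm⟩
  · obtain ⟨χ, h4⟩ := a.2
    obtain ⟨ψ, h5⟩ := b.2
    simp only [coe_mul, map_mul]
    exact (congrArg₂ _ h4 h5).symm.trans ((T8.h_comm χ ψ).trans (congrArg₂ _ h5 h4))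
  · have : Fact (Nat.Prime 3) := ⟨Nat.prime_three⟩
    obtain ⟨a, ha⟩ := exists_prime_orderOf_dvd_card' 3 h3
    obtain ⟨χ, h4⟩ := a.2
    replace h4 : R.h χ = MulAut.conj g (FF a.1.1) := h4
    have h5 : χ ^ 3 = 1 := R.h_inj (K := KK) (by
      rw [map_pow, h4, ← map_pow, ← map_pow, ← coe_pow, ← coe_pow, orderOf_dvd_iff_pow_eq_one.1 ha.dvd]; simp)
    have h6 : χ = 1 := MonoidHom.ext fun v => Units.ext (frobenius_inj KK 3 (by
      rw [frobenius_def, ← Units.val_pow_eq_pow_val, ← MonoidHom.pow_apply, h5]; simp))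
    rw [h6, map_one, eq_comm, map_eq_one_iff _ (MulAut.conj g).injective, map_eq_one_iff _ FF_inj] at h4
    rw [show a = 1 from Subtype.ext (Subtype.ext h4), orderOf_one] at ha
    omega

end Cfsg.Agent.H8.Core
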