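import Cfsg.Agent.H4.LpO0
import Cfsg.Agent.H4.LpS0
import Cfsg.Agent.H3.HOb

/-! `Ω₈⁺(2)` and `Sp₆(2)` are generated by a Sylow 2-subgroup and the negative simple root elements. -/

set_option autoImplicit false
set_option maxRecDepth 100000
set_option synthInstance.maxSize 2000
set_option synthInstance.maxHeartbeats 200000

namespace Cfsg.Agent.H8.Gen

open Matrix Cfsg.Agent.H4 Cfsg.Agent.H4.Bm Cfsg.Agent.H3.HO QuadraticMap
open H7.Bit (toV app)

theorem eq_top_of_Tv {l : Type} [Fintype l] [DecidableEq l] (K : Subgroup (Sp l)) (h : ∀ v, Tv v ∈ K) : K = ⊤ := by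
  have fx : ∀ (g : Sp l) x y, g.1 *ᵥ y = y → (Tv (g.1 *ᵥ x + x) * g).1 *ᵥ y = y := fun g x y hy => by
    have := mem_Sp.1 g.2 y x
    rw [hy] at this
    rw [Submonoid.coe_mul, ← mulVec_mulVec, hy, Tv_apply, map_add, this, CharTwo.add_self_eq_zero, zero_smul, add_zero]
  have key : ∀ n (g : Sp l), (Finset.univ.filter fun y => g.1 *ᵥ y ≠ y).card ≤ n → g ∈ K := fun n => by
    induction n using Nat.strong_induction_on with
    | _ n ih =>
    have step : ∀ g : Sp l, (Finset.univ.filter fun y => g.1 *ᵥ y ≠ y).card ≤ n → ∀ x, Bf x (g.1 *ᵥ x) = 1 → g ∈ K :=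
      fun g hg x hx => by
      refine (K.mul_mem_cancel_left (h (g.1 *ᵥ x + x))).1 (ih _ (lt_of_lt_of_le (Finset.card_lt_card ⟨fun y hy => ?_,
        fun e => ?_⟩) hg) _ le_rfl)
      · simp only [Finset.mem_filter, Finset.mem_univ, true_and] at hy ⊢
        exact mt (fx g x y) hy
      · have := @e x (by
          simp only [Finset.mem_filter, Finset.mem_univ, true_and]
          intro e; rw [e, Bf_self] at hx; exact zero_ne_one hx)
        simp only [Finset.mem_filter, Finset.mem_univ, true_and] at this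
        refine this ?_
        rw [Submonoid.coe_mul, ← mulVec_mulVec, Tv_apply, map_add, Bf_self, Bf_comm, hx, zero_add, one_smul, ← add_assoc,
          ZModModule.add_self, zero_add]
    intro g hg
    by_cases h1 : ∃ x, Bf x (g.1 *ᵥ x) = 1
    · exact h1.elim (step g hg)
    replace h1 : ∀ x, Bf x (g.1 *ᵥ x) = 0 := fun x => (z2' _).resolve_right (not_exists.1 h1 x)
    by_cases h2 : ∀ x, g.1 *ᵥ x = x
    · rw [show g = 1 from Sp_ext fun x => by simp [h2]]; exact K.one_mem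
    obtain ⟨x, hx⟩ := not_forall.1 h2
    obtain ⟨y, hy⟩ : ∃ y, Bf y (g.1 *ᵥ x + x) = 1 := by_contra fun e => hx (Bf_ext fun z => by
      have := (z2' _).resolve_right (not_exists.1 e z)
      rwa [map_add, CharTwo.add_eq_zero] at this)
    refine (K.mul_mem_cancel_left (h (g.1 *ᵥ x + x))).1 (step _ (le_trans (Finset.card_le_card fun y hy => ?_) hg) y ?_)
    · simp only [Finset.mem_filter, Finset.mem_univ, true_and] at hy ⊢
      exact mt (fx g x y) hy
    · have h3 := h1 (x + y)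
      have h4 := mem_Sp.1 g.2 y x
      simp only [mulVec_add, map_add, LinearMap.add_apply, h1, zero_add, add_zero, CharTwo.add_eq_zero] at h3
      rw [Submonoid.coe_mul, ← mulVec_mulVec, Tv_apply, map_add, h1, map_smul, hy, map_add, h4, Bf_comm (g.1 *ᵥ y) x, ← h3, add_comm (Bf y x),
        ← map_add, hy]
      simp
  exact eq_top_iff.2 fun g _ => key _ g le_rfl

/-- one step of an orbit computation -/
noncomputable def grow (gs l : List ℕ) : List ℕ := (l ++ gs.flatMap fun a => l.map (app 6 6 a)).eraseDups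

theorem grow_ind {P : ℕ → Prop} {gs : List ℕ} (h : ∀ a ∈ gs, ∀ v, P v → P (app 6 6 a v)) (k : ℕ) {l : List ℕ}
    (hl : ∀ v ∈ l, P v) : ∀ v ∈ (grow gs)^[k] l, P v := by
  induction k generalizing l with
  | zero => exact hl
  | succ k ih =>
    refine ih fun v hv => ?_
    simp only [grow, List.mem_eraseDups, List.mem_append, List.mem_flatMap, List.mem_map] at hv
    rcases hv with hv | ⟨a, ha, w, hw, rfl⟩
    exacts [hl v hv, h a ha w (hl w hw)]

theorem sp (K : Subgroup S.Sp6) (hB : S.B ≤ K) (hy : ∀ i < 3, S.φ (S.ys i) ∈ K) : K = ⊤ := by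
  have h1 : ∀ a ∈ [S.xs 0, S.xs 1, S.xs 2, S.ys 0, S.ys 1, S.ys 2], S.Val a ∧ S.φ a ∈ K := by
    have hx : ∀ i, S.ib (S.xs i) = true → S.Val (S.xs i) ∧ S.φ (S.xs i) ∈ K := fun i h =>
      ⟨(S.ib_spec _ h).1, hB (S.ib_spec _ h).2.1⟩
    simp only [List.forall_mem_cons]
    exact ⟨hx 0 (by decide +kernel), hx 1 (by decide +kernel), hx 2 (by decide +kernel),
      ⟨S.vb_spec _ (by decide +kernel), hy 0 (by decide)⟩, ⟨S.vb_spec _ (by decide +kernel), hy 1 (by decide)⟩,
      ⟨S.vb_spec _ (by decide +kernel), hy 2 (by decide)⟩, by simp⟩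
  have h2 := grow_ind (P := fun v => Tv (toV (ZMod 2) S.en v) ∈ K) (fun a ha v hv => by
    rw [← S.T_app, ← S.mat_φ (h1 a ha).1]
    exact Tv_conj (S.φ a) _ ▸ K.mul_mem (K.mul_mem (h1 a ha).2 hv) (K.inv_mem (h1 a ha).2)) 10 (l := [1]) (by
      have : ∀ a b : S.ι, toV (ZMod 2) S.en 1 a * (J (Fin 3) (ZMod 2) *ᵥ toV (ZMod 2) S.en 1) b = 0 ∨
        (Sum.elim Fin.val (fun i : Fin 3 => 5 - i.1) a : ℕ) < (Sum.elim Fin.val (fun i : Fin 3 => 5 - i.1) b : ℕ) := by
        decide +kernel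
      simpa using hB (x := Tv (toV (ZMod 2) S.en 1)) fun a b e => (this a b).resolve_left fun h => e (by
        rw [← h]; exact congrFun (congrFun (add_sub_cancel_left (1 : Matrix S.ι S.ι (ZMod 2)) (vecMulVec _ _)) a) b))
  have h3 : ∀ v < 64, v = 0 ∨ v ∈ (grow [S.xs 0, S.xs 1, S.xs 2, S.ys 0, S.ys 1, S.ys 2])^[10] [1] := by decide +kernel
  refine eq_top_of_Tv K fun v => ?_
  obtain ⟨a, ha, rfl⟩ := exists_vec S.en v
  rcases h3 a ha with rfl | h
  · rw [show toV (ZMod 2) S.en 0 = 0 by decide +kernel, Tv_zero]; exact K.one_mem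
  · exact h2 a h

theorem pol8 (x : O.W) : polar O.Q8 x (Pi.single (.inl 0) 1) = x (.inr 0) := by
  simp [polar, O.coe_Q8, quadFormPlus, Fin.sum_univ_four, add_mul]

theorem om (K : Subgroup O.Om8) (hB : O.B ≤ K) (hy : ∀ i < 4, O.φ (O.ys i) ∈ K) : K = ⊤ := by
  have hu : O.Q8 (Pi.single (.inl 0) 1) = 0 := by rw [O.coe_Q8]; decide
  have hv : ∀ i < 4, O.mat (O.φ (O.ys i)) = T O.en (O.ys i) := fun i hi => O.mat_φ (O.vb_spec _ (by revert i; decide +kernel))
  let g := O.φ (O.ys 0) * (O.φ (O.ys 1) * (O.φ (O.ys 3) * (O.φ (O.ys 2) * (O.φ (O.ys 1) * O.φ (O.ys 0)))))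
  have h := Om_le_of_one O.nd O.five (K := K.map O.lin) hu (fun v => ?_) (g := O.lin g)
    (Om_le_OG (O.lin_range ▸ ⟨g, rfl⟩)) ⟨g, K.mul_mem (hy 0 (by decide)) (K.mul_mem (hy 1 (by decide)) (K.mul_mem (hy 3 (by decide))
      (K.mul_mem (hy 2 (by decide)) (K.mul_mem (hy 1 (by decide)) (hy 0 (by decide)))))), rfl⟩ ?_
  · refine eq_top_iff.2 fun x _ => ?_
    obtain ⟨y, h1, h2⟩ := h (O.lin_range ▸ ⟨x, rfl⟩ : O.lin x ∈ Om O.Q8)
    exact O.lin_inj h2 ▸ h1
  · by_cases h : polar O.Q8 (Pi.single (.inl 0) 1) v = 0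
    swap
    · rw [siegel_of_not fun e => h e.2]; exact one_mem _
    obtain ⟨s, hs⟩ : siegel O.Q8 (Pi.single (.inl 0) 1) v ∈ O.lin.range := O.lin_range ▸ siegel_mem_Om O.nd O.five _ v
    refine ⟨s, hB fun a b e => ?_, hs⟩
    have h1 := congrFun (O.lin_apply s (Pi.single b 1)) a
    rw [hs, siegel_apply hu h, mulVec_single_one, pol8] at h1
    rw [Matrix.sub_apply, show O.mat s a b = _ from h1.symm, one_apply] at e
    have h2 : v (.inr 0) = 0 := by rw [← pol8 v, polar_comm, h]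
    have h3 : b = .inl 0 → polar O.Q8 (Pi.single b 1) v = 0 := fun e => e ▸ h
    generalize polar O.Q8 (Pi.single b 1) v = c, O.Q8 v = d at e h3
    have h4 : a = .inr 0 → v a = 0 := fun e => e ▸ h2
    simp only [Pi.sub_apply, Pi.add_apply, Pi.smul_apply, smul_eq_mul] at e
    generalize v a = f at e h4
    clear h1
    revert a b c d f
    decide +kernel
  · rw [polar_comm, pol8, O.lin_apply, show (Pi.single (.inl 0) 1 : O.W) = toV (ZMod 2) O.en 1 by decide +kernel]
    simp only [g, map_mul, ← mulVec_mulVec, hv 0 (by decide), hv 1 (by decide), hv 2 (by decide), hv 3 (by decide), O.T_app]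
    decide +kernel

end Cfsg.Agent.H8.Gen
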