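import Cfsg.Agent.H3.DR0

set_option autoImplicit false

namespace Cfsg.Agent.H8.DRn
open Cfsg.Agent.H3.DR Filter

lemma ev (C ε : ℝ) (hC : 0 < C) (hε : 0 < ε) :
    ∃ N : ℕ, ∀ n : ℝ, N ≤ n → (2 * Real.log n + 1) * C ≤ n ^ ε := by
  have h1 := (isLittleO_log_rpow_atTop hε).bound (c := 1 / (4 * C)) (by positivity)
  have h2 := (tendsto_rpow_atTop hε).eventually_ge_atTop (2 * C)
  obtain ⟨a, ha⟩ := eventually_atTop.1 (h1.and h2)
  refine ⟨⌈a⌉₊, fun n hn => ?_⟩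
  obtain ⟨h3, h4⟩ := ha n ((Nat.le_ceil a).trans hn)
  have h5 : 0 ≤ n ^ ε := by linarith
  rw [Real.norm_eq_abs, Real.norm_eq_abs, abs_of_nonneg h5] at h3
  have h6 : Real.log n ≤ 1 / (4 * C) * n ^ ε := (le_abs_self _).trans h3
  have h7 : Real.log n * C ≤ n ^ ε / 4 := by
    have := mul_le_mul_of_nonneg_right h6 hC.le
    refine this.trans (le_of_eq ?_)
    field_simp
  nlinarith

lemma caseA (r ρ φ β M : ℝ) (hr : 0 < r) (hM1 : 0.115 ≤ M) (hM2 : 0.001 * ρ * r ≤ M)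
    (hφρ : 0.0119 * ρ ≤ φ) (hρ0 : 0 < ρ) (hφ1 : φ < 1) (hβ : β * φ = φ + (1 - φ) * ρ)
    (H1 : M ≤ 61 * β * (r * φ ^ 2 + 0.6 * ρ)) (hρ : ρ ≤ 4e-6) (hφ : φ ≤ ρ) : False := by
  have hφ0 : 0 < φ := by linarith
  have h1 : β * φ ≤ 2 * ρ := by nlinarith
  have h2 : β ≤ 170 := by
    by_contra hc
    push_neg at hc
    nlinarith
  have h3 : β * φ * φ ≤ 2 * ρ * ρ := mul_le_mul h1 hφ hφ0.le (by positivity)
  have h4 : β * φ * φ * r ≤ 2 * ρ * ρ * r := mul_le_mul_of_nonneg_right h3 hr.le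
  have h5 : ρ * (ρ * r) ≤ 4e-6 * (ρ * r) := mul_le_mul_of_nonneg_right hρ (by positivity)
  have h6 : β * ρ ≤ 170 * ρ := mul_le_mul_of_nonneg_right h2 hρ0.le
  nlinarith

lemma caseB (s ρ φ β M : ℝ) (hs : 1000 ≤ s) (hM1 : 0.115 ≤ M)
    (hρ0 : 0 < ρ) (hφ1 : φ < 1) (hβ : β * φ = φ + (1 - φ) * ρ)
    (H1 : M ≤ 61 * β * (s ^ 12 * φ ^ 2 + 0.6 * ρ)) (hρ : ρ ≤ 4e-6) (hφ : ρ < φ)
    (hφ2 : φ * s ^ 8 ≤ 1) : False := by
  have hφ0 : 0 < φ := by linarith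
  have h2 : β ≤ 2 := by
    by_contra hc
    push_neg at hc
    nlinarith
  have hs0 : 0 < s := by linarith
  have h3 : (φ * s ^ 8) ^ 2 ≤ 1 := pow_le_one₀ (by positivity) hφ2
  have h4 : 10000 ≤ s ^ 4 := by
    have : (1000 : ℝ) ^ 4 ≤ s ^ 4 := pow_le_pow_left₀ (by norm_num) hs 4
    linarith
  have h5 : s ^ 12 * φ ^ 2 * 10000 ≤ 1 := by
    have : s ^ 12 * φ ^ 2 * 10000 ≤ s ^ 12 * φ ^ 2 * s ^ 4 :=
      mul_le_mul_of_nonneg_left h4 (by positivity)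
    calc _ ≤ s ^ 12 * φ ^ 2 * s ^ 4 := this
      _ = (φ * s ^ 8) ^ 2 := by ring
      _ ≤ 1 := h3
  have h6 : 0 ≤ s ^ 12 * φ ^ 2 + 0.6 * ρ := by positivity
  have h7 := mul_le_mul_of_nonneg_right h2 h6
  nlinarith

lemma pw (x : ℝ) (K : ℕ) (hx : 0 ≤ x) (hx1 : x ≤ 1) : (1 - x) ^ K * (1 + K * x) ≤ 1 := by
  have h1 : 1 + K * x ≤ (1 + x) ^ K := one_add_mul_le_pow (by linarith) K
  have h2 : 0 ≤ (1 - x) ^ K := pow_nonneg (by linarith) K
  calc _ ≤ (1 - x) ^ K * (1 + x) ^ K := mul_le_mul_of_nonneg_left h1 h2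
    _ = ((1 - x) * (1 + x)) ^ K := (mul_pow _ _ _).symm
    _ ≤ 1 := pow_le_one₀ (mul_nonneg (by linarith) (by linarith)) (by nlinarith)

lemma b8 (ρ φ β : ℝ) (hρ0 : 0 < ρ) (hφ1 : φ < 1) (hβ : β * φ = φ + (1 - φ) * ρ) (hβ1 : 1 ≤ β)
    (hρ : ρ ≤ 4e-6) (hφ : ρ < φ) : β ^ 8 * φ ≤ 1 := by
  have hφ0 : 0 < φ := by linarith
  by_cases h : φ ≤ 1 / 256
  · have h2 : β ≤ 2 := by
      by_contra hc
      push_neg at hc
      nlinarith
    have h3 : β ^ 8 ≤ 2 ^ 8 := pow_le_pow_left₀ (by linarith) h2 8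
    have := mul_le_mul h3 h hφ0.le (by norm_num)
    linarith
  · push_neg at h
    set x := (1 - φ) / 8 with hx
    have hx0 : 0 < x := by rw [hx]; linarith
    have hx1 : x ≤ 1 := by rw [hx]; linarith
    have h2 : β ≤ 1 + x := by
      by_contra hc
      push_neg at hc
      have h3 : (1 + x) * φ < β * φ := mul_lt_mul_of_pos_right hc hφ0
      have h4 : (1 - φ) * ρ ≤ (1 - φ) * 4e-6 := mul_le_mul_of_nonneg_left hρ (by linarith)
      have h5 : x * (1 / 256) < x * φ := mul_lt_mul_of_pos_left h hx0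
      rw [hx] at h5 h3
      nlinarith
    have h3 : β ^ 8 ≤ (1 + x) ^ 8 := pow_le_pow_left₀ (by linarith) h2 8
    have h4 : 1 + (8 : ℕ) * (-x) ≤ (1 + -x) ^ 8 := one_add_mul_le_pow (by linarith) 8
    have h5 : φ ≤ (1 - x) ^ 8 := by
      have : φ = 1 + (8 : ℕ) * (-x) := by rw [hx]; push_cast; ring
      rw [this, sub_eq_add_neg]; exact h4
    calc _ ≤ (1 + x) ^ 8 * (1 - x) ^ 8 := mul_le_mul h3 h5 hφ0.le (by positivity)
      _ = ((1 + x) * (1 - x)) ^ 8 := (mul_pow _ _ _).symm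
      _ ≤ 1 := pow_le_one₀ (mul_nonneg (by linarith) (by linarith)) (by nlinarith)

lemma caseC (s ρ φ β M L : ℝ) (k : ℕ) (hs : 1000 ≤ s) (hM1 : 0.115 ≤ M) (hM2 : 0.001 * ρ * s ^ 12 ≤ M)
    (hρ0 : 0 < ρ) (hφ1 : φ < 1) (hβ : β * φ = φ + (1 - φ) * ρ) (hβ1 : 1 ≤ β)
    (hρ : ρ ≤ 4e-6) (hφ : ρ < φ) (hφ2 : 1 < φ * s ^ 8) (hL0 : 0 ≤ L) (hL : L * 10000 ≤ s)
    (hk : 1.1 / s ^ 24 ≤ φ ^ k) (H2 : M ≤ L * 61 * β ^ k * (2 * 1.1 / (φ * s ^ 12) + 0.6 * ρ)) :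
    False := by
  have hφ0 : 0 < φ := by linarith
  have hs0 : 0 < s := by linarith
  have h1 := b8 ρ φ β hρ0 hφ1 hβ hβ1 hρ hφ
  have h2 : (β ^ k) ^ 8 * φ ^ k ≤ 1 := by
    rw [← pow_mul, mul_comm k 8, pow_mul, ← mul_pow]
    exact pow_le_one₀ (by positivity) h1
  have h3 : β ^ k ≤ s ^ 3 := by
    by_contra hc
    push_neg at hc
    have h4 : (s ^ 3) ^ 8 ≤ (β ^ k) ^ 8 := pow_le_pow_left₀ (by positivity) hc.le 8
    have h5 := mul_le_mul h4 hk (by positivity) (by positivity)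
    have h6 : (s ^ 3) ^ 8 * (1.1 / s ^ 24) = 1.1 := by field_simp
    linarith
  have h4 : 2 * 1.1 / (φ * s ^ 12) ≤ 2.2 / s ^ 4 := by
    rw [div_le_div_iff₀ (by positivity) (by positivity)]
    have : 1 * s ^ 4 ≤ φ * s ^ 8 * s ^ 4 := mul_le_mul_of_nonneg_right hφ2.le (by positivity)
    nlinarith
  have h5 : L * 61 * β ^ k ≤ s / 10000 * 61 * s ^ 3 := by
    have : L ≤ s / 10000 := by linarith
    gcongr
  have h6 : M ≤ s / 10000 * 61 * s ^ 3 * (2.2 / s ^ 4 + 0.6 * ρ) := by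
    refine H2.trans (mul_le_mul h5 (by linarith) (by positivity) (by positivity))
  have h7 : s / 10000 * 61 * s ^ 3 * (2.2 / s ^ 4 + 0.6 * ρ) = 0.01342 + 0.00366 * (ρ * s ^ 4) := by
    field_simp
    ring
  have h8 : 100 ≤ s ^ 8 := by
    have : (1000 : ℝ) ^ 8 ≤ s ^ 8 := pow_le_pow_left₀ (by norm_num) hs 8
    linarith
  have h9 : ρ * s ^ 4 * 100 ≤ ρ * s ^ 4 * s ^ 8 := mul_le_mul_of_nonneg_left h8 (by positivity)
  have h10 : ρ * s ^ 4 * s ^ 8 = ρ * s ^ 12 := by ring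
  nlinarith

lemma caseD (u r ρ φ β M L : ℝ) (k K : ℕ) (hK : (200000000 : ℝ) ≤ K + 1) (hu : 0 < u)
    (hr : r = u ^ (K + 1)) (hM2 : 0.001 * ρ * r ≤ M) (hφρ : 0.0119 * ρ ≤ φ)
    (hφ1 : φ < 1) (hβ : β * φ = φ + (1 - φ) * ρ) (hβ1 : 1 ≤ β)
    (hρ : 4e-6 < ρ) (hρ1 : ρ ≤ 0.84) (hL0 : 0 ≤ L) (hL : L * 10 ^ 19 ≤ u)
    (hk : 1 / r ≤ φ ^ k) (H2 : M ≤ L * 61 * β ^ k * (2 / φ + 0.6 * ρ)) : False := by
  have hφ0 : 4e-8 < φ := by linarith
  have hφ00 : 0 < φ := by linarith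
  have hr0 : 0 < r := by rw [hr]; positivity
  set x := 0.16 * (1 - φ) with hx
  have hx0 : 0 < x := by rw [hx]; linarith
  have hx1 : x ≤ 1 := by rw [hx]; linarith
  have h1 : β * φ ≤ 1 - x := by rw [hx]; nlinarith
  have h2 := pw x (K + 1) hx0.le hx1
  push_cast at h2
  have h3 : 1 ≤ φ * (1 + (K + 1) * x) := by
    have h31 : (200000000 : ℝ) * 4e-8 ≤ (K + 1) * φ := mul_le_mul hK hφ0.le (by norm_num) (by positivity)
    have h32 := mul_le_mul_of_nonneg_right h31 hx0.le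
    rw [hx] at h32 ⊢
    nlinarith
  have h4 : (1 - x) ^ (K + 1) ≤ φ := by
    have h41 : 0 < 1 + (K + 1) * x := by positivity
    exact le_of_mul_le_mul_right (h2.trans h3) h41
  have h5 : (β * φ) ^ (K + 1) ≤ φ := (pow_le_pow_left₀ (by positivity) h1 _).trans h4
  have h6 : β ^ (K + 1) * φ ^ K ≤ 1 := by
    have : (β ^ (K + 1) * φ ^ K) * φ ≤ 1 * φ := by
      rw [one_mul, mul_assoc, ← pow_succ, ← mul_pow]; exact h5
    exact le_of_mul_le_mul_right this hφ00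
  have h7 : (β ^ k) ^ (K + 1) * (φ ^ k) ^ K ≤ 1 := by
    rw [← pow_mul, ← pow_mul, mul_comm k, mul_comm k, pow_mul, pow_mul, ← mul_pow]
    exact pow_le_one₀ (by positivity) h6
  have h8 : β ^ k ≤ u ^ K := by
    by_contra hc
    push_neg at hc
    have h81 : (u ^ K) ^ (K + 1) < (β ^ k) ^ (K + 1) :=
      pow_lt_pow_left₀ hc (by positivity) (Nat.succ_ne_zero K)
    have h82 : (1 / r) ^ K ≤ (φ ^ k) ^ K := pow_le_pow_left₀ (by positivity) hk K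
    have h83 := mul_lt_mul h81 h82 (by positivity) (by positivity)
    have h84 : (u ^ K) ^ (K + 1) * (1 / r) ^ K = 1 := by
      rw [← pow_mul, mul_comm K, pow_mul, ← hr, ← mul_pow, mul_one_div_cancel hr0.ne', one_pow]
    linarith
  have h9 : 2 / φ ≤ 50000000 := by
    rw [div_le_iff₀ hφ00]; linarith
  have h10 : L * 61 * β ^ k ≤ u / 10 ^ 19 * 61 * u ^ K := by
    have : L ≤ u / 10 ^ 19 := by linarith
    gcongr
  have h11 : M ≤ u / 10 ^ 19 * 61 * u ^ K * 50000001 :=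
    H2.trans (mul_le_mul h10 (by linarith) (by positivity) (by positivity))
  have h12 : u / 10 ^ 19 * 61 * u ^ K * 50000001 = r * (61 * 50000001 / 10 ^ 19) := by
    rw [hr, pow_succ]; ring
  have h13 : 4e-6 * r < ρ * r := mul_lt_mul_of_pos_right hρ hr0
  rw [h12] at h11
  nlinarith

theorem pn : PN := by
  obtain ⟨K, hK⟩ : ∃ K : ℕ, (200000000 : ℝ) ≤ K + 1 := ⟨200000000, by norm_num⟩
  obtain ⟨N1, h1⟩ := ev 10000 (1 / 24) (by norm_num) (by norm_num)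
  obtain ⟨N2, h2⟩ := ev (10 ^ 19) (1 / (2 * (K + 1))) (by norm_num) (by positivity)
  refine ⟨N1 + N2 + 1, ?_⟩
  intro n m δ j M φ ρ β hn hm hδ hδr hδm hj1 hj2 hM hjφ hφr hφ1 hρ hβ H1 H2
  push_cast at hn
  have hN1 : (0 : ℝ) ≤ N1 := by positivity
  have hN2 : (0 : ℝ) ≤ N2 := by positivity
  have hn1 : 1 ≤ n := by linarith
  have hn0 : 0 < n := by linarith
  have hL1 := h1 n (by linarith)
  have hL2 := h2 n (by linarith)
  have hlog : 0 ≤ Real.log n := Real.log_nonneg hn1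
  set L := 2 * Real.log n + 1 with hL
  have hL0 : 1 ≤ L := by linarith
  set s := n ^ (1 / 24 : ℝ) with hs
  set u := n ^ (1 / (2 * (K + 1)) : ℝ) with hu
  have hs0 : 1000 ≤ s := by linarith
  have hu0 : 0 < u := by positivity
  have hrs : √n = s ^ 12 := by
    rw [hs, ← Real.rpow_natCast, ← Real.rpow_mul hn0.le, Real.sqrt_eq_rpow]; norm_num
  have hru : √n = u ^ (K + 1) := by
    rw [hu, ← Real.rpow_natCast, ← Real.rpow_mul hn0.le, Real.sqrt_eq_rpow]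
    congr 1
    push_cast
    field_simp
  have hrr : √n * √n = n := Real.mul_self_sqrt hn0.le
  set r := √n with hr
  have hr1 : 1000 ≤ r := by
    rw [hrs]
    have : s ^ 1 ≤ s ^ 12 := pow_le_pow_right₀ (by linarith) (by norm_num)
    rw [pow_one] at this
    linarith
  have hr0 : 0 < r := by linarith
  have hφ0 : 0 < φ := lt_of_lt_of_le (by positivity) hφr
  have hρ0 : 0 < ρ := by rw [hρ]; positivity
  have hρm : ρ * (0.6 * m) = r := by rw [hρ]; field_simp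
  have hm1 : r ≤ 0.501 * (m + 1) := by
    have a1 := mul_le_mul_of_nonneg_right hδm hr0.le
    have a2 := mul_le_mul_of_nonneg_right hδr (by linarith : 0 ≤ m + 1)
    nlinarith
  have hm2 : 1.99 * r ≤ m := by linarith
  have hρ1 : ρ ≤ 0.84 := by
    by_contra hc
    push_neg at hc
    have := mul_lt_mul_of_pos_right hc hm
    nlinarith
  have hnm : n / m = 0.6 * ρ * r := by
    rw [div_eq_iff hm.ne', ← hrr]
    have : r * r = ρ * (0.6 * m) * r := by rw [hρm]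
    rw [this]; ring
  have hj3 : 0.006 * ρ * r ≤ j := by
    have : n / m ≤ 100 * j := by rw [div_le_iff₀ hm]; linarith
    linarith
  have hM0 : j - 0.5511 ≤ M := by nlinarith
  have hM1 : 0.115 ≤ M := by linarith
  have hM2 : 0.001 * ρ * r ≤ M := by linarith
  have hφρ : 0.0119 * ρ ≤ φ := by
    have a1 : φ * n * δ = φ * r * (δ * r) := by rw [← hrr]; ring
    have a2 : φ * r * (δ * r) ≤ φ * r * 0.501 := mul_le_mul_of_nonneg_left hδr (by positivity)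
    have a3 : 0.006 * ρ * r ≤ 0.501 * φ * r := by linarith
    have a4 := le_of_mul_le_mul_right a3 hr0
    linarith
  have hβφ : β * φ = φ + (1 - φ) * ρ := by rw [hβ]; field_simp
  have hβ1 : 1 ≤ β := by
    have : 0 ≤ (1 - φ) * ρ / φ := div_nonneg (mul_nonneg (by linarith) hρ0.le) hφ0.le
    linarith
  have hD : 121 * (δ * r) ≤ 61 := by linarith
  have G1 : M ≤ 61 * β * (r * φ ^ 2 + 0.6 * ρ) := by
    have a1 : 121 * δ * β * (n * φ ^ 2 + n / m) = 121 * (δ * r) * (β * (r * φ ^ 2 + 0.6 * ρ)) := by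
      rw [hnm]; nth_rewrite 1 [← hrr]; ring
    have a2 := mul_le_mul_of_nonneg_right hD (by positivity : 0 ≤ β * (r * φ ^ 2 + 0.6 * ρ))
    linarith
  have G2 : ∀ T : ℝ, 1.1 ≤ T → T ≤ r → ∃ k : ℕ, T / n ≤ φ ^ k ∧
      M ≤ L * 61 * β ^ k * (2 * T / (φ * r) + 0.6 * ρ) := by
    intro T a1 a2
    obtain ⟨k, b1, b2⟩ := H2 T a1 a2
    refine ⟨k, b1, ?_⟩
    have hT : 0 < T := by linarith
    have a3 : L * 121 * δ * β ^ k * (2 * T / φ + n / m) =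
        121 * (δ * r) * (L * β ^ k * (2 * T / (φ * r) + 0.6 * ρ)) := by
      rw [hnm]; field_simp
    have a4 := mul_le_mul_of_nonneg_right hD
      (by positivity : 0 ≤ L * β ^ k * (2 * T / (φ * r) + 0.6 * ρ))
    linarith
  by_cases c1 : ρ ≤ 4e-6
  · by_cases c2 : φ ≤ ρ
    · exact caseA r ρ φ β M hr0 hM1 hM2 hφρ hρ0 hφ1 hβφ G1 c1 c2
    · push_neg at c2
      by_cases c3 : φ * s ^ 8 ≤ 1
      · exact caseB s ρ φ β M hs0 hM1 hρ0 hφ1 hβφ (hrs ▸ G1) c1 c2 c3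
      · push_neg at c3
        obtain ⟨k, b1, b2⟩ := G2 1.1 le_rfl (by linarith)
        have hns : n = s ^ 24 := by rw [← hrr, hrs]; ring
        exact caseC s ρ φ β M L k hs0 hM1 (hrs ▸ hM2) hρ0 hφ1 hβφ hβ1 c1 c2 c3 (by linarith) hL1
          (hns ▸ b1) (hrs ▸ b2)
  · push_neg at c1
    obtain ⟨k, b1, b2⟩ := G2 r (by linarith) le_rfl
    have e1 : r / n = 1 / r := by rw [← hrr]; field_simp
    have e2 : 2 * r / (φ * r) = 2 / φ := by field_simp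
    rw [e1] at b1
    rw [e2] at b2
    exact caseD u r ρ φ β M L k K hK hu0 hru hM2 hφρ hφ1 hβφ hβ1 c1 hρ1 (by linarith) hL2 b1 b2

end Cfsg.Agent.H8.DRn
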