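import Cfsg.Agent.H3.DR0

set_option autoImplicit false

namespace Cfsg.Agent.H8.DR
open MulAction Finset Cfsg.Agent.H3.DR

universe u v

section
variable {G : Type u} {Ω : Type v} [Group G] [Fintype G] [MulAction G Ω] [Fintype Ω]

open Classical in
lemma cnt_pt (h : IsPretransitive G Ω) (c e : Ω) :
    #{t : G | t • c = e} = #{t : G | t • c = c} := by
  obtain ⟨x, rfl⟩ := h.exists_smul_eq c e
  symm
  apply Finset.card_bij (fun t _ => x * t)
  · intro t ht
    simp only [mem_filter, mem_univ, true_and] at ht ⊢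
    rw [mul_smul, ht]
  · intro a _ b _ hab
    exact mul_left_cancel hab
  · intro t ht
    simp only [mem_filter, mem_univ, true_and] at ht
    refine ⟨x⁻¹ * t, ?_, by simp⟩
    simp only [mem_filter, mem_univ, true_and]
    rw [mul_smul, ht, inv_smul_smul]

open Classical in
lemma cnt_set (h : IsPretransitive G Ω) (c : Ω) (F : Finset Ω) :
    #{t : G | t • c ∈ F} = #F * #{t : G | t • c = c} := by
  rw [Finset.card_eq_sum_card_fiberwise (f := fun t : G => t • c) (t := F)
    (by intro t ht; simpa using ht)]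
  rw [Finset.sum_congr rfl (g := fun _ => #{t : G | t • c = c})]
  · simp
  · intro e he
    rw [← cnt_pt h c e]
    congr 1
    ext t
    simp only [mem_filter, mem_univ, true_and]
    constructor
    · exact fun h => h.2
    · intro h; exact ⟨h ▸ he, h⟩

open Classical in
lemma cnt_real [Nonempty Ω] (h : IsPretransitive G Ω) (c : Ω) (F : Finset Ω) :
    (#{t : G | t • c ∈ F} : ℝ) = (#F : ℝ) / Fintype.card Ω * Fintype.card G := by
  have h1 := cnt_set h c F
  have h2 := cnt_set h c (univ : Finset Ω)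
  simp only [mem_univ, filter_true, card_univ] at h2
  have hn : (0 : ℝ) < Fintype.card Ω := by exact_mod_cast Fintype.card_pos
  rw [h1, h2]
  push_cast
  field_simp

open Classical in
lemma cnt_fix [Nonempty Ω] (h : IsPretransitive G Ω) (g : G) (c : Ω) :
    (#{t : G | (t⁻¹ * g * t) • c = c} : ℝ) = (fx Ω g : ℝ) / Fintype.card Ω * Fintype.card G := by
  have h1 := cnt_real h c ({e : Ω | g • e = e} : Finset Ω)
  unfold fx
  rw [← h1]
  congr 2
  ext t
  simp only [mem_filter, mem_univ, true_and, mul_smul, inv_smul_eq_iff]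

open Classical in
lemma cnt_off [Nonempty Ω] (h : IsPretransitive G Ω) (g : G) (m : ℕ) (hm : 0 < m) (hs : Sub G Ω m)
    (c e : Ω) (hce : c ≠ e) :
    (#{t : G | (t⁻¹ * g * t) • c = e} : ℝ) ≤
      (1 - (fx Ω g : ℝ) / Fintype.card Ω) / m * Fintype.card G := by
  set O : Finset Ω := {x | x ∈ orbit (stabilizer G c) e} with hO
  have hOc : m ≤ #O := by
    have := hs c e hce
    rw [Nat.card_eq_fintype_card, Fintype.card_subtype] at this
    convert this using 2
  have h1 : #{t : G | (t⁻¹ * g * t) • c ∈ O} = #O * #{t : G | (t⁻¹ * g * t) • c = e} := by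
    rw [Finset.card_eq_sum_card_fiberwise (f := fun t : G => (t⁻¹ * g * t) • c) (t := O)
      (by intro t ht; simpa using ht)]
    rw [Finset.sum_congr rfl (g := fun _ => #{t : G | (t⁻¹ * g * t) • c = e})]
    · simp
    · intro x hx
      have hx' := hx
      simp only [hO, mem_filter, mem_univ, true_and] at hx'
      obtain ⟨⟨z, hz⟩, rfl⟩ := hx'
      rw [mem_stabilizer_iff] at hz
      apply Finset.card_bij (fun t _ => t * z)
      · intro t ht
        simp only [mem_filter, mem_univ, true_and] at ht ⊢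
        have h3 : (t⁻¹ * g * t) • c = z • e := ht.2
        rw [show (t * z)⁻¹ * g * (t * z) = z⁻¹ * (t⁻¹ * g * t) * z by group, mul_smul, hz, mul_smul,
          h3, inv_smul_smul]
      · intro a _ b _ hab
        exact mul_right_cancel hab
      · intro t ht
        simp only [mem_filter, mem_univ, true_and] at ht
        refine ⟨t * z⁻¹, ?_, by simp⟩
        have h3 : ((t * z⁻¹)⁻¹ * g * (t * z⁻¹)) • c = z • e := by
          have hz' : z⁻¹ • c = c := by rw [inv_smul_eq_iff, hz]
          rw [show (t * z⁻¹)⁻¹ * g * (t * z⁻¹) = z * (t⁻¹ * g * t) * z⁻¹ by group, mul_smul, hz',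
            mul_smul, ht]
        simp only [mem_filter, mem_univ, true_and]
        exact ⟨h3 ▸ hx, h3⟩
  have h2 : #{t : G | (t⁻¹ * g * t) • c ∈ O} + #{t : G | (t⁻¹ * g * t) • c = c} ≤ Fintype.card G := by
    rw [← Finset.card_union_of_disjoint]
    · exact Finset.card_le_univ _
    · rw [Finset.disjoint_filter]
      intro t _ ht hc
      rw [hc] at ht
      simp only [hO, mem_filter, mem_univ, true_and] at ht
      obtain ⟨⟨z, hz⟩, hz2⟩ := ht
      rw [mem_stabilizer_iff] at hz
      apply hce
      have h4 : z • e = c := hz2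
      rw [← hz] at h4
      have := smul_left_cancel z (h4.trans (by rw [hz]) : z • e = z • c)
      exact this.symm
  have h3 := cnt_fix h g c
  have h2' : (#O : ℝ) * #{t : G | (t⁻¹ * g * t) • c = e} + #{t : G | (t⁻¹ * g * t) • c = c}
      ≤ Fintype.card G := by
    rw [h1] at h2; exact_mod_cast h2
  have hm' : (0 : ℝ) < m := by exact_mod_cast hm
  have hOc' : (m : ℝ) ≤ #O := by exact_mod_cast hOc
  have h0 : (0 : ℝ) ≤ #{t : G | (t⁻¹ * g * t) • c = e} := by positivity
  rw [div_mul_eq_mul_div, le_div_iff₀ hm']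
  rw [h3] at h2'
  nlinarith [mul_le_mul_of_nonneg_right hOc' h0]

open Classical in
lemma cnt_step [Nonempty Ω] (h : IsPretransitive G Ω) (g : G) (m : ℕ) (hm : 0 < m) (hs : Sub G Ω m)
    {Θ : Type u} [Fintype Θ] (y : Θ → G) (c d : Ω) :
    (#{x : Θ × G | (y x.1 * (x.2⁻¹ * g * x.2)) • c = d} : ℝ) ≤
      #{θ | y θ • c = d} * ((fx Ω g : ℝ) / Fintype.card Ω * Fintype.card G) +
      Fintype.card Θ * ((1 - (fx Ω g : ℝ) / Fintype.card Ω) / m * Fintype.card G) := by
  have hφ : (fx Ω g : ℝ) / Fintype.card Ω ≤ 1 := by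
    have hn : (0 : ℝ) < Fintype.card Ω := by exact_mod_cast Fintype.card_pos
    rw [div_le_one hn]
    unfold fx
    exact_mod_cast Finset.card_le_univ _
  have hB : (0 : ℝ) ≤ (1 - (fx Ω g : ℝ) / Fintype.card Ω) / m * Fintype.card G := by
    have : (0 : ℝ) ≤ 1 - (fx Ω g : ℝ) / Fintype.card Ω := by linarith
    positivity
  have h1 : #{x : Θ × G | (y x.1 * (x.2⁻¹ * g * x.2)) • c = d} =
      ∑ θ : Θ, #{t : G | (t⁻¹ * g * t) • c = (y θ)⁻¹ • d} := by
    rw [Finset.card_filter, Fintype.sum_prod_type]
    refine Finset.sum_congr rfl fun θ _ => ?_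
    rw [Finset.card_filter]
    refine Finset.sum_congr rfl fun t _ => ?_
    simp only [mul_smul (y θ), eq_inv_smul_iff]
  rw [h1]
  push_cast
  have h2 : ∀ θ : Θ, (#{t : G | (t⁻¹ * g * t) • c = (y θ)⁻¹ • d} : ℝ) ≤
      (if y θ • c = d then ((fx Ω g : ℝ) / Fintype.card Ω * Fintype.card G) else 0) +
      (1 - (fx Ω g : ℝ) / Fintype.card Ω) / m * Fintype.card G := by
    intro θ
    split_ifs with hc
    · have : (y θ)⁻¹ • d = c := by rw [inv_smul_eq_iff, hc]
      rw [this, cnt_fix h g c]
      linarith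
    · have : c ≠ (y θ)⁻¹ • d := by
        intro h5; apply hc; rw [h5, smul_inv_smul]
      rw [zero_add]
      exact cnt_off h g m hm hs c _ this
  refine (Finset.sum_le_sum fun θ _ => h2 θ).trans (le_of_eq ?_)
  rw [Finset.sum_add_distrib, ← Finset.sum_filter]
  simp

end

theorem pp : PP.{u, v} := by
  intro G Ω _ _ _ _ _ g m k ρ φ h hm hs hρ hmix hφ
  classical
  induction k with
  | zero =>
    refine ⟨PUnit.{u + 1}, inferInstance, fun _ => 1, fun _ => univ, ⟨inferInstance, ?_, ?_, ?_, ?_, ?_⟩⟩
    · intro θ c _; simp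
    · intro c; simp
    · intro c d _; simp
    · intro c; simp
    · intro c d hcd; simp [hcd]
  | succ k ih =>
    obtain ⟨Θ, _, y, J, S⟩ := ih
    have hm' : (0 : ℝ) < m := by exact_mod_cast hm
    have hφ0 : 0 ≤ φ := by rw [hφ]; positivity
    have hG : (0 : ℝ) ≤ Fintype.card G := by positivity
    set F : Finset Ω := {e : Ω | g • e = e} with hF
    have hFc : φ = (#F : ℝ) / Fintype.card Ω := by
      rw [hφ]; unfold fx; congr
    haveI := S.ne
    refine ⟨Θ × G, inferInstance, fun x => y x.1 * (x.2⁻¹ * g * x.2),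
      fun x => (J x.1).filter (fun c => x.2 • c ∈ F), ⟨inferInstance, ?_, ?_, ?_, ?_, ?_⟩⟩
    · rintro ⟨θ, t⟩ c hc
      simp only [hF, mem_filter, mem_univ, true_and] at hc
      simp only [mul_smul, hc.2, inv_smul_smul]
      exact S.fix θ c hc.1
    · intro c
      have h1 := S.one c
      have h2 := cnt_real h c F
      rw [← hFc] at h2
      have h3 : ({x : Θ × G | c ∈ (J x.1).filter (fun c => x.2 • c ∈ F)} : Finset (Θ × G)) =
          ({θ | c ∈ J θ} : Finset Θ) ×ˢ ({t : G | t • c ∈ F} : Finset G) := by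
        ext x; simp
      have h4 : (#({x : Θ × G | c ∈ (J x.1).filter (fun c => x.2 • c ∈ F)} : Finset (Θ × G)) : ℝ) =
          φ ^ (k + 1) * Fintype.card (Θ × G) := by
        rw [h3, Finset.card_product, Fintype.card_prod]
        push_cast
        rw [h2]
        have h1' : (#({θ | c ∈ J θ} : Finset Θ) : ℝ) = φ ^ k * Fintype.card Θ := by convert h1
        rw [h1']; ring
      convert h4
    · intro c d hcd
      have h1 := S.two c d hcd
      have h2 := hmix F φ hFc c d hcd
      have h3 : ({x : Θ × G | c ∈ (J x.1).filter (fun c => x.2 • c ∈ F) ∧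
          d ∈ (J x.1).filter (fun c => x.2 • c ∈ F)} : Finset (Θ × G)) =
          ({θ | c ∈ J θ ∧ d ∈ J θ} : Finset Θ) ×ˢ ({t : G | t • c ∈ F ∧ t • d ∈ F} : Finset G) := by
        ext x; simp; tauto
      have h4 : (#({x : Θ × G | c ∈ (J x.1).filter (fun c => x.2 • c ∈ F) ∧
          d ∈ (J x.1).filter (fun c => x.2 • c ∈ F)} : Finset (Θ × G)) : ℝ) ≤
          (φ ^ 2 + φ * (1 - φ) * ρ) ^ (k + 1) * Fintype.card (Θ × G) := by
        rw [h3, Finset.card_product, Fintype.card_prod]
        push_cast
        have h1' : (#({θ | c ∈ J θ ∧ d ∈ J θ} : Finset Θ) : ℝ) ≤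
            (φ ^ 2 + φ * (1 - φ) * ρ) ^ k * Fintype.card Θ := by convert h1
        have h2' : (#({t : G | t • c ∈ F ∧ t • d ∈ F} : Finset G) : ℝ) ≤
            (φ ^ 2 + φ * (1 - φ) * ρ) * Fintype.card G := by convert h2
        have := mul_le_mul h1' h2' (by positivity) (le_trans (by positivity) h1')
        refine this.trans (le_of_eq ?_)
        ring
      convert h4
    · intro c
      have h1 := S.dia c
      have h2 := cnt_step h g m hm hs y c c
      rw [← hφ] at h2
      have h3 := mul_le_mul_of_nonneg_right h1 (mul_nonneg hφ0 hG)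
      rw [Fintype.card_prod]
      push_cast
      refine le_trans (by convert h2) ?_
      refine le_trans (add_le_add_left (by convert h3) _) (le_of_eq ?_)
      field_simp
      ring
    · intro c d hcd
      have h1 := S.off c d hcd
      have h2 := cnt_step h g m hm hs y c d
      rw [← hφ] at h2
      have h3 := mul_le_mul_of_nonneg_right h1 (mul_nonneg hφ0 hG)
      rw [Fintype.card_prod]
      push_cast
      refine le_trans (by convert h2) ?_
      refine le_trans (add_le_add_left (by convert h3) _) (le_of_eq ?_)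
      field_simp
      ring

end Cfsg.Agent.H8.DR
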