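import Mathlib

/-! Lifting representations of groups of order prime to `p` from characteristic `p` to the `p`-adic integers. -/

set_option autoImplicit false

namespace Cfsg.Agent.H8.L3

open Finset

section lift

variable {D R S : Type*} [Group D] [Fintype D] [Ring R] [Ring S] {p : ℕ}

theorem lift_step {m : ℕ} (ho : ((m * Fintype.card D : ℕ) : S) = 1) (φ : R →+* S) (h2 : (p : S) = 0)
    (hker : ∀ x, φ x = 0 → ∃ y, x = p * y) (hreg : ∀ x : R, p * x = 0 → x = 0) (ρ : D →* S) (k : ℕ)
    (A : D → R) (hA : ∀ g, φ (A g) = ρ g) (hc : ∀ g h, ∃ c, A g * A h - A (g * h) = p ^ (k + 1) * c) :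
    ∃ B : D → R, (∀ g, φ (B g) = ρ g) ∧ ∀ g h, ∃ c, B g * B h - B (g * h) = p ^ (k + 2) * c := by
  choose c hc using hc
  have hreg' : ∀ (j : ℕ) (x : R), p ^ j * x = 0 → x = 0 := by
    intro j
    induction j with
    | zero => simp
    | succ j ih => intro x hx; rw [pow_succ, mul_assoc] at hx; exact hreg _ (ih _ hx)
  have hcm : ∀ (j : ℕ) (x : R), x * p ^ j = p ^ j * x := fun j x => by
    have := (Nat.cast_commute (p ^ j) x).eq
    push_cast at this
    exact this.symm
  have hco : ∀ g h l, c (g * h) l + c g h * A l = c g (h * l) + A g * c h l := by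
    intro g h l
    rw [← sub_eq_zero]
    apply hreg' (k + 1)
    have e1 := hc (g * h) l
    have e2 := hc g h
    have e3 := hc g (h * l)
    have e4 := hc h l
    have e5 : p ^ (k + 1) * (A g * c h l) = A g * (A h * A l - A (h * l)) := by
      rw [e4, ← mul_assoc, ← mul_assoc, hcm]
    rw [mul_sub, mul_add, mul_add, ← e1, ← mul_assoc, ← e2, ← e3, e5, mul_assoc g h l]
    noncomm_ring
  let a : D → R := fun g => ∑ l, c g l * A l⁻¹
  let b : D → R := fun g => -(m • a g)
  have hb : ∀ g h, φ (c g h + b g * A h + A g * b h - b (g * h)) = 0 := by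
    intro g h
    have e1 : ∀ l, φ (c g h) = φ (c g (h * l)) * ρ l⁻¹ + ρ g * (φ (c h l) * ρ l⁻¹) - φ (c (g * h) l) * ρ l⁻¹ := by
      intro l
      have := congrArg (fun z => φ z * ρ l⁻¹) (hco g h l)
      simp only [map_add, map_mul, hA, add_mul, mul_assoc] at this
      rw [← map_mul ρ, mul_inv_cancel, map_one, mul_one] at this
      rw [← this]; abel
    have e2 : m • ∑ _l : D, φ (c g h) = φ (c g h) := by
      rw [sum_const, card_univ, smul_smul, nsmul_eq_mul, ho, one_mul]
    have e3 : ∑ l, φ (c g (h * l)) * ρ l⁻¹ = φ (a g) * ρ h := by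
      simp only [a, map_sum, map_mul, hA, sum_mul, mul_assoc]
      exact Fintype.sum_equiv (Equiv.mulLeft h) _ _ (fun l => by
        rw [← map_mul ρ]; simp)
    have e4 : φ (c g h) = m • (φ (a g) * ρ h + ρ g * φ (a h) - φ (a (g * h))) := by
      rw [← e2, sum_congr rfl (fun l _ => e1 l), sum_sub_distrib, sum_add_distrib, e3, ← mul_sum]
      simp only [a, map_sum, map_mul, hA]
    simp only [b, map_sub, map_add, map_mul, hA, map_neg, map_nsmul]
    rw [e4]
    simp only [smul_add, smul_sub, neg_mul, mul_neg, smul_mul_assoc, mul_smul_comm]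
    abel
  clear_value b
  refine ⟨fun g => A g + p ^ (k + 1) * b g, fun g => ?_, fun g h => ?_⟩
  · simp [hA, h2]
  · obtain ⟨y, hy⟩ := hker _ (hb g h)
    refine ⟨y + p ^ k * (b g * b h), ?_⟩
    have e2 := hc g h
    have e : (A g + p ^ (k + 1) * b g) * (A h + p ^ (k + 1) * b h) - (A (g * h) + p ^ (k + 1) * b (g * h)) =
        (A g * A h - A (g * h)) + (A g * p ^ (k + 1)) * b h + p ^ (k + 1) * (b g * A h) +
          p ^ (k + 1) * ((b g * p ^ (k + 1)) * b h) - p ^ (k + 1) * b (g * h) := by noncomm_ring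
    rw [e, e2, hcm, hcm]
    have e' : (p : R) ^ (k + 2) * (y + p ^ k * (b g * b h)) =
        p ^ (k + 1) * (p * y) + p ^ (k + 1) * (p ^ (k + 1) * b g * b h) := by
      have : (p : R) ^ (k + 2) * p ^ k = p ^ (k + 1) * p ^ (k + 1) := by
        rw [← pow_add, ← pow_add]; congr 1; omega
      rw [mul_add, ← mul_assoc ((p : R) ^ (k + 2)), this, pow_succ (p : R) (k + 1)]
      simp only [mul_assoc]
    rw [e', ← hy]
    noncomm_ring

theorem exists_lift [TopologicalSpace R] [IsTopologicalRing R] [CompactSpace R] [T2Space R]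
    {m : ℕ} (ho : ((m * Fintype.card D : ℕ) : S) = 1) (φ : R →+* S) (hs : Function.Surjective φ) (h2 : (p : S) = 0)
    (hker : ∀ x, φ x = 0 → ∃ y, x = p * y) (hreg : ∀ x : R, p * x = 0 → x = 0)
    (hsep : ∀ x : R, (∀ k : ℕ, ∃ y, x = p ^ k * y) → x = 0) (ρ : D →* S) :
    ∃ A : D →* R, ∀ g, φ (A g) = ρ g := by
  choose A0 hA0 using fun g => hs (ρ g)
  have hcl : ∀ k : ℕ, IsClosed {x : R | ∃ y, x = p ^ k * y} := fun k => by
    have : {x : R | ∃ y, x = p ^ k * y} = Set.range fun y : R => p ^ k * y := by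
      ext x; simp [eq_comm]
    rw [this]
    exact (isCompact_range (by fun_prop)).isClosed
  have hφ : ∀ x y : R, φ x = φ y ↔ ∃ z, x - y = p ^ 1 * z := fun x y => by
    rw [pow_one]
    refine ⟨fun h => hker _ (by rw [map_sub, h, sub_self]), fun ⟨z, hz⟩ => ?_⟩
    rw [← sub_eq_zero, ← map_sub, hz, map_mul, map_natCast, h2, zero_mul]
  let T : ℕ → Set (D → R) := fun k =>
    {A | (∀ g, φ (A g) = ρ g) ∧ ∀ g h, ∃ c, A g * A h - A (g * h) = p ^ (k + 1) * c}
  have hT : ∀ k, IsClosed (T k) := fun k => by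
    have : T k = (⋂ g, (fun A : D → R => A g - A0 g) ⁻¹' {x : R | ∃ y, x = p ^ 1 * y}) ∩
        ⋂ g, ⋂ h, (fun A : D → R => A g * A h - A (g * h)) ⁻¹' {x : R | ∃ y, x = p ^ (k + 1) * y} := by
      ext A
      simp only [T, Set.mem_setOf_eq, Set.mem_inter_iff, Set.mem_iInter, Set.mem_preimage, ← hφ, hA0]
    rw [this]
    exact (isClosed_iInter fun g => (hcl _).preimage (by fun_prop)).inter
      (isClosed_iInter fun g => isClosed_iInter fun h => (hcl _).preimage (by fun_prop))
  have hne : ∀ k, (T k).Nonempty := by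
    intro k
    induction k with
    | zero =>
      refine ⟨A0, hA0, fun g h => ?_⟩
      rw [zero_add, ← hφ, map_mul, hA0, hA0, hA0, map_mul]
    | succ k ih =>
      obtain ⟨A, hA, hc⟩ := ih
      exact lift_step ho φ h2 hker hreg ρ k A hA hc
  obtain ⟨A, hA⟩ := IsCompact.nonempty_iInter_of_sequence_nonempty_isCompact_isClosed T
    (fun k A hA => ⟨hA.1, fun g h => by
      obtain ⟨c, hc⟩ := hA.2 g h
      exact ⟨p * c, by rw [hc, pow_succ, mul_assoc]⟩⟩) hne (hT 0).isCompact hT
  rw [Set.mem_iInter] at hA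
  have hmul : ∀ g h, A (g * h) = A g * A h := fun g h => by
    symm
    rw [← sub_eq_zero]
    refine hsep _ fun k => ?_
    obtain ⟨c, hc⟩ := (hA k).2 g h
    exact ⟨p * c, by rw [hc, pow_succ, mul_assoc]⟩
  have hone : A 1 = 1 := by
    symm
    rw [← sub_eq_zero]
    obtain ⟨z, hz⟩ := (hφ 1 (A 1)).1 (by rw [(hA 0).1, map_one, map_one])
    have hi : (1 - A 1) * (1 - A 1) = 1 - A 1 := by
      have := hmul 1 1
      rw [mul_one] at this
      rw [mul_sub, sub_mul, sub_mul, ← this]; simp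
    refine hsep _ fun k => ?_
    induction k with
    | zero => exact ⟨_, by rw [pow_zero, one_mul]⟩
    | succ k ih =>
      obtain ⟨y, hy⟩ := ih
      refine ⟨y * z, ?_⟩
      rw [← hi]
      nth_rewrite 1 [hy]
      rw [hz, pow_one, pow_succ, mul_assoc, mul_assoc, ← mul_assoc y, ← mul_assoc (p : R)]
      congr 2
      exact (Nat.cast_commute p y).eq.symm
  exact ⟨⟨⟨A, hone⟩, hmul⟩, (hA 0).1⟩

end lift

variable {p : ℕ} [Fact p.Prime] {ι : Type*} [Fintype ι] [DecidableEq ι]

theorem exists_padic {D : Type*} [Group D] [Fintype D] (ho : ¬ p ∣ Fintype.card D) (ρ : D →* Matrix ι ι (ZMod p)) :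
    ∃ A : D →* Matrix ι ι ℤ_[p], ∀ g, (A g).map PadicInt.toZMod = ρ g := by
  haveI : CompactSpace (Matrix ι ι ℤ_[p]) := inferInstanceAs (CompactSpace (ι → ι → ℤ_[p]))
  have h0 : ((Fintype.card D : ℕ) : ZMod p) ≠ 0 := by rwa [Ne, ZMod.natCast_eq_zero_iff]
  have hp : ∀ (k : ℕ) (y : Matrix ι ι ℤ_[p]) i j, ((p : Matrix ι ι ℤ_[p]) ^ k * y) i j = p ^ k * y i j := fun k y i j => by
    have e : (p : Matrix ι ι ℤ_[p]) ^ k * y = (p ^ k : ℕ) • y := by rw [nsmul_eq_mul]; push_cast; rfl
    rw [e, Matrix.smul_apply, nsmul_eq_mul]; push_cast; rfl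
  refine exists_lift (R := Matrix ι ι ℤ_[p]) (p := p) (m := ((Fintype.card D : ZMod p)⁻¹).val) ?_
    (PadicInt.toZMod (p := p)).mapMatrix (fun M => ?_) ?_ (fun x hx => ?_) (fun x hx => ?_) (fun x hx => ?_) ρ
  · rw [← map_natCast (algebraMap (ZMod p) _), Nat.cast_mul, ZMod.natCast_zmod_val, inv_mul_cancel₀ h0, map_one]
  · have hs : Function.Surjective (PadicInt.toZMod (p := p)) := ZMod.ringHom_surjective _
    choose f hf using hs
    exact ⟨M.map f, by ext i j; simp [hf]⟩
  · rw [← map_natCast (algebraMap (ZMod p) _), ZMod.natCast_self, map_zero]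
  · have : ∀ i j, ∃ y, x i j = p * y := fun i j => by
      have h : x i j ∈ RingHom.ker (PadicInt.toZMod (p := p)) := by
        rw [RingHom.mem_ker]; exact congrFun (congrFun hx i) j
      rw [PadicInt.ker_toZMod, PadicInt.maximalIdeal_eq_span_p, Ideal.mem_span_singleton] at h
      exact h
    choose y hy using this
    exact ⟨Matrix.of y, by ext i j; have := hp 1 (Matrix.of y) i j; rw [pow_one, pow_one] at this; rw [this]; exact hy i j⟩
  · ext i j
    have h1 := hp 1 x i j
    rw [pow_one, pow_one, hx] at h1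
    simpa [(Fact.out : p.Prime).ne_zero] using h1.symm
  · ext i j
    have : ∀ k : ℕ, ‖x i j‖ ≤ (p : ℕ) ^ (-k : ℤ) := fun k => by
      rw [PadicInt.norm_le_pow_iff_mem_span_pow, Ideal.mem_span_singleton]
      obtain ⟨y, hy⟩ := hx k
      exact ⟨y i j, by rw [hy, hp]⟩
    by_contra h0
    obtain ⟨k, hk⟩ := PadicInt.exists_pow_neg_lt p (norm_pos_iff.2 h0)
    exact absurd (this k) (not_le.2 hk)

/-- the rank of the reduction is at most the rank of the range -/
theorem rank_map_le {R k : Type*} [CommRing R] [IsDomain R] [IsPrincipalIdealRing R] [Field k] (φ : R →+* k)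
    (E : Matrix ι ι R) : (E.map φ).rank ≤ Module.finrank R (LinearMap.range (Matrix.toLin' E)) := by
  let b := Module.finBasis R (LinearMap.range (Matrix.toLin' E))
  let P := LinearMap.toMatrix b (Pi.basisFun R ι) (LinearMap.range (Matrix.toLin' E)).subtype
  let Q := LinearMap.toMatrix (Pi.basisFun R ι) b (Matrix.toLin' E).rangeRestrict
  have h : P * Q = E := by
    rw [← LinearMap.toMatrix_comp, show _ ∘ₗ _ = Matrix.toLin' E from rfl, LinearMap.toMatrix_eq_toMatrix',
      LinearMap.toMatrix'_toLin']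
  have h1 : (P * Q).map φ = P.map φ * Q.map φ := Matrix.map_mul
  rw [h] at h1
  rw [h1]
  exact (Matrix.rank_mul_le_left _ _).trans ((Matrix.rank_le_card_width _).trans (Fintype.card_fin _).le)

theorem trace_idem {R k : Type*} [CommRing R] [IsDomain R] [IsPrincipalIdealRing R] [CharZero R] [Field k] (φ : R →+* k)
    {E : Matrix ι ι R} (hE : E * E = E) : E.trace = (E.map φ).rank := by
  have h0 : ∀ E : Matrix ι ι R, E * E = E → E.trace = Module.finrank R (LinearMap.range (Matrix.toLin' E)) := fun E hE => by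
    have hi : IsIdempotentElem (Matrix.toLin' E) := by
      change Matrix.toLin' E ∘ₗ Matrix.toLin' E = _
      rw [← Matrix.toLin'_mul, hE]
    rw [← (LinearMap.IsIdempotentElem.isProj_range _ hi).trace, Matrix.trace_toLin'_eq]
  have h1 := rank_map_le φ E
  have h2 := rank_map_le φ (1 - E)
  have h3 := h0 E hE
  have h4 := h0 (1 - E) (by rw [mul_sub, sub_mul, sub_mul, hE]; simp)
  have h5 : Fintype.card ι ≤ (E.map φ).rank + ((1 - E).map φ).rank := by
    have := Submodule.finrank_add_le_finrank_add_finrank (LinearMap.range (E.map φ).mulVecLin)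
      (LinearMap.range ((1 - E).map φ).mulVecLin)
    have e : LinearMap.range (E.map φ).mulVecLin ⊔ LinearMap.range ((1 - E).map φ).mulVecLin = ⊤ :=
      eq_top_iff.2 fun v _ => Submodule.mem_sup.2 ⟨_, ⟨v, rfl⟩, _, ⟨v, rfl⟩, by
        rw [← LinearMap.add_apply, ← Matrix.mulVecLin_add, ← Matrix.map_add _ (map_add φ), add_sub_cancel,
          Matrix.map_one _ (map_zero φ) (map_one φ), Matrix.mulVecLin_one, LinearMap.id_apply]⟩
    rwa [e, finrank_top, Module.finrank_fintype_fun_eq_card] at this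
  rw [Matrix.trace_sub, Matrix.trace_one, h3, sub_eq_iff_eq_add] at h4
  norm_cast at h4
  rw [h3]
  congr 1
  omega

/-- the fixed space of a subgroup -/
def Fx {k V G : Type*} [Field k] [AddCommGroup V] [Module k V] [Group G] (ρ : G →* Module.End k V) (H : Subgroup G) :
    Submodule k V where
  carrier := {v | ∀ h ∈ H, ρ h v = v}
  add_mem' ha hb h hh := by rw [map_add, ha h hh, hb h hh]
  zero_mem' h _ := map_zero _
  smul_mem' c _ ha h hh := by rw [map_smul, ha h hh]

theorem trace_sum {V G κ : Type*} [AddCommGroup V] [Module (ZMod p) V] [Group G] (b : Module.Basis ι (ZMod p) V)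
    (ρ : G →* Module.End (ZMod p) V) (A : G →* Matrix ι ι ℤ_[p])
    (hA : ∀ g, (A g).map PadicInt.toZMod = LinearMap.toMatrix b b (ρ g)) (s : Finset κ) (f : κ → G) (hs : ¬ p ∣ s.card)
    (h : ∀ a ∈ s, A (f a) * ∑ c ∈ s, A (f c) = ∑ c ∈ s, A (f c)) (W : Submodule (ZMod p) V)
    (hW : ∀ v, v ∈ W ↔ ∀ a ∈ s, ρ (f a) v = v) : ∑ a ∈ s, (A (f a)).trace = s.card * Module.finrank (ZMod p) W := by
  have h0 : (s.card : ZMod p) ≠ 0 := by rwa [Ne, ZMod.natCast_eq_zero_iff]
  obtain ⟨u, hu⟩ : IsUnit (s.card : ℤ_[p]) := by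
    by_contra e
    have : (s.card : ℤ_[p]) ∈ RingHom.ker (PadicInt.toZMod (p := p)) := by
      rw [PadicInt.ker_toZMod]; exact e
    exact h0 (by simpa using this)
  set T := ∑ c ∈ s, A (f c) with hT
  have h1 : T * T = (s.card : ℤ_[p]) • T := by
    nth_rewrite 1 [hT]
    rw [sum_mul, sum_congr rfl h, sum_const, Nat.cast_smul_eq_nsmul]
  have h2 := trace_idem PadicInt.toZMod (E := (↑u⁻¹ : ℤ_[p]) • T) (by
    rw [smul_mul_smul_comm, h1, smul_smul, ← hu, Units.inv_mul_cancel_right])
  have h3 : ∀ M : Matrix ι ι ℤ_[p], M.map PadicInt.toZMod = (PadicInt.toZMod (p := p)).mapMatrix M := fun _ => rfl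
  have h4 : Matrix.toLin b b (T.map PadicInt.toZMod) = ∑ c ∈ s, ρ (f c) := by
    rw [h3, hT, map_sum, map_sum]
    exact sum_congr rfl fun c _ => by rw [← h3, hA, Matrix.toLin_toMatrix]
  have h5 : PadicInt.toZMod (↑u⁻¹ : ℤ_[p]) * (s.card : ZMod p) = 1 := by
    rw [← map_natCast PadicInt.toZMod, ← hu, ← map_mul, Units.inv_mul, map_one]
  have h6 : LinearMap.range (Matrix.toLin b b (((↑u⁻¹ : ℤ_[p]) • T).map PadicInt.toZMod)) = W := by
    rw [show ((↑u⁻¹ : ℤ_[p]) • T).map PadicInt.toZMod = PadicInt.toZMod (↑u⁻¹ : ℤ_[p]) • T.map PadicInt.toZMod from by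
      ext i j; simp, map_smul]
    ext v
    rw [hW]
    constructor
    · rintro ⟨w, rfl⟩ a ha
      have := congrArg (fun M => Matrix.toLin b b (M.map PadicInt.toZMod) w) (h a ha)
      simp only [Matrix.map_mul, hA, Matrix.toLin_mul b b b, Matrix.toLin_toMatrix, LinearMap.comp_apply] at this
      rw [LinearMap.smul_apply, map_smul, this]
    · intro hv
      exact ⟨v, by rw [LinearMap.smul_apply, h4, LinearMap.sum_apply, sum_congr rfl hv, sum_const, ← Nat.cast_smul_eq_nsmul (ZMod p),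
        smul_smul, h5, one_smul]⟩
  rw [Matrix.rank_eq_finrank_range_toLin _ b b, h6, Matrix.trace_smul, smul_eq_mul] at h2
  rw [← Matrix.trace_sum, ← h2, ← hu, Units.mul_inv_cancel_left]

/-- a lifted character -/
theorem exists_chi {V G : Type*} [AddCommGroup V] [Module (ZMod p) V] [FiniteDimensional (ZMod p) V] [Group G] [Fintype G]
    (ho : ¬ p ∣ Fintype.card G) (ρ : G →* Module.End (ZMod p) V) :
    ∃ χ : G → ℤ_[p], (∀ g h, χ (g * h) = χ (h * g)) ∧
      (∀ (H : Subgroup G) [Fintype H], ∑ h : H, χ h = Fintype.card H * Module.finrank (ZMod p) (Fx ρ H)) ∧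
      (∑ g, χ g = Fintype.card G * Module.finrank (ZMod p) (Fx ρ ⊤)) ∧
      ∀ g n, g ^ n = 1 → ¬ p ∣ n → ∑ i ∈ range n, χ (g ^ i) = n * Module.finrank (ZMod p) ((ρ g).eigenspace 1) := by
  let b := Module.finBasis (ZMod p) V
  obtain ⟨A, hA⟩ := exists_padic ho ((LinearMap.toMatrixAlgEquiv b).toMonoidHom.comp ρ)
  refine ⟨fun g => (A g).trace, fun g h => by simp only [map_mul]; exact Matrix.trace_mul_comm _ _, fun H _ => ?_, ?_,
    fun g n hg hn => ?_⟩
  · refine trace_sum b ρ A hA univ Subtype.val (fun e => ho (e.trans ?_)) (fun a _ => ?_) _ fun v => ?_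
    · rw [card_univ, ← Nat.card_eq_fintype_card, ← Nat.card_eq_fintype_card]; exact H.card_subgroup_dvd_card
    · rw [mul_sum]
      exact Fintype.sum_equiv (Equiv.mulLeft a) _ _ fun c => by rw [← map_mul]; rfl
    · exact ⟨fun h a _ => h _ a.2, fun h a ha => h ⟨a, ha⟩ (mem_univ _)⟩
  · refine trace_sum b ρ A hA univ id ho (fun a _ => ?_) _ fun v => ⟨fun h a _ => h _ trivial, fun h a _ => h a (mem_univ _)⟩
    rw [mul_sum]
    exact Fintype.sum_equiv (Equiv.mulLeft a) _ _ fun c => by rw [← map_mul]; rfl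
  · have h1 : A g * ∑ c ∈ range n, A (g ^ c) = ∑ c ∈ range n, A (g ^ c) := by
      have h2 := sum_range_succ' (fun c => A (g ^ c)) n
      rw [sum_range_succ, hg, pow_zero, add_left_inj] at h2
      rw [mul_sum, h2]
      exact sum_congr rfl fun c _ => by rw [← map_mul, pow_succ']
    have := trace_sum b ρ A hA (range n) (g ^ ·) (by rwa [card_range]) (fun a ha => ?_) ((ρ g).eigenspace 1) fun v => ?_
    · rwa [card_range] at this
    · clear ha
      induction a with
      | zero => rw [pow_zero, map_one, one_mul]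
      | succ a ih => rw [pow_succ, map_mul, mul_assoc, h1, ih]
    · rw [Module.End.mem_eigenspace_iff, one_smul]
      refine ⟨fun h a ha => ?_, fun h => ?_⟩
      · clear ha
        induction a with
        | zero => rw [pow_zero, map_one, Module.End.one_apply]
        | succ a ih => rw [pow_succ, map_mul, Module.End.mul_apply, h, ih]
      · rcases n with _ | _ | n
        · exact absurd (dvd_zero p) hn
        · rw [zero_add, pow_one] at hg; rw [hg, map_one, Module.End.one_apply]
        · simpa using h 1 (by simp)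

end Cfsg.Agent.H8.L3
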