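import Mathlib
import Cfsg.Agent.H3.SymIndex

/-! General lemmas for the product action: alternating groups, induced actions, intersections of
kernels, subgroups of small index. -/

set_option autoImplicit false

namespace Cfsg.Agent.H8.PA

open MulAction Equiv Equiv.Perm
open scoped Pointwise

section alt
variable {Δ : Type*} [Fintype Δ] [DecidableEq Δ]

theorem exists_not_mem (s : Finset Δ) (h : s.card < Nat.card Δ) : ∃ x, x ∉ s := by
  by_contra hc
  push Not at hc
  have : s = Finset.univ := Finset.eq_univ_iff_forall.mpr hc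
  rw [this, Finset.card_univ, Nat.card_eq_fintype_card] at h
  exact lt_irrefl _ h

/-- correct the parity of a permutation by a transposition -/
theorem exists_alt (σ : Perm Δ) {p q : Δ} (h : p ≠ q) :
    ∃ α ∈ alternatingGroup Δ, α = σ ∨ α = σ * swap p q := by
  by_cases hs : sign σ = 1
  · exact ⟨σ, mem_alternatingGroup.mpr hs, Or.inl rfl⟩
  · refine ⟨σ * swap p q, mem_alternatingGroup.mpr ?_, Or.inr rfl⟩
    rw [Perm.sign_mul, sign_swap h, (Int.units_eq_one_or _).resolve_left hs]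
    simp

theorem exists_alt_agree (σ : Perm Δ) {p q : Δ} (h : p ≠ q) :
    ∃ α ∈ alternatingGroup Δ, ∀ x, x ≠ p → x ≠ q → α x = σ x := by
  obtain ⟨α, hα, h1 | h1⟩ := exists_alt σ h
  · exact ⟨α, hα, fun x _ _ => by rw [h1]⟩
  · exact ⟨α, hα, fun x hp hq => by rw [h1, Perm.mul_apply, swap_apply_of_ne_of_ne hp hq]⟩

/-- an even permutation agreeing with `σ` on a set with at least two points outside -/
theorem exists_alt_on (σ : Perm Δ) (s : Finset Δ) (h : s.card + 2 ≤ Nat.card Δ) :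
    ∃ α ∈ alternatingGroup Δ, ∀ x ∈ s, α x = σ x := by
  obtain ⟨p, hp⟩ := exists_not_mem s (by omega)
  obtain ⟨q, hq⟩ := exists_not_mem (insert p s) (by rw [Finset.card_insert_of_notMem hp]; omega)
  rw [Finset.mem_insert, not_or] at hq
  obtain ⟨α, hα, h1⟩ := exists_alt_agree σ (Ne.symm hq.1)
  exact ⟨α, hα, fun x hx => h1 x (fun e => hp (e ▸ hx)) (fun e => hq.2 (e ▸ hx))⟩

/-- an even permutation fixing `x` and sending `y` to `z` -/
theorem exists_alt_two (h4 : 4 ≤ Nat.card Δ) {x y z : Δ} (hy : y ≠ x) (hz : z ≠ x) :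
    ∃ α ∈ alternatingGroup Δ, α x = x ∧ α y = z := by
  obtain ⟨α, hα, h⟩ := exists_alt_on (swap y z) {x, y} (by
    have := Finset.card_le_two (a := x) (b := y); omega)
  refine ⟨α, hα, ?_, ?_⟩
  · rw [h x (by simp), swap_apply_of_ne_of_ne hy.symm hz.symm]
  · rw [h y (by simp), swap_apply_left]

theorem exists_alt_one (h4 : 4 ≤ Nat.card Δ) (y z : Δ) :
    ∃ α ∈ alternatingGroup Δ, α y = z := by
  obtain ⟨α, hα, h⟩ := exists_alt_on (swap y z) {y} (by rw [Finset.card_singleton]; omega)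
  exact ⟨α, hα, by rw [h y (by simp), swap_apply_left]⟩

/-- two-transitivity of the alternating group -/
theorem exists_alt_pair (h4 : 4 ≤ Nat.card Δ) {x y x' y' : Δ} (h : x ≠ y) (h' : x' ≠ y') :
    ∃ α ∈ alternatingGroup Δ, α x = x' ∧ α y = y' := by
  obtain ⟨α, hα, h1⟩ := exists_alt_one h4 x x'
  obtain ⟨β, hβ, h2, h3⟩ := exists_alt_two h4 (x := x') (y := α y) (z := y')
    (by rw [← h1]; exact fun e => h (α.injective e).symm) h'.symm
  exact ⟨β * α, mul_mem hβ hα, by rw [Perm.mul_apply, h1, h2], by rw [Perm.mul_apply, h3]⟩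

theorem eq_one_of_comm_alt (h4 : 4 ≤ Nat.card Δ) (τ : Perm Δ)
    (h : ∀ α ∈ alternatingGroup Δ, τ * α = α * τ) : τ = 1 := by
  ext x
  by_contra hx
  rw [Perm.one_apply] at hx
  obtain ⟨z, hz⟩ := exists_not_mem ({x, τ x} : Finset Δ) (by
    have := Finset.card_le_two (a := x) (b := τ x); omega)
  simp only [Finset.mem_insert, Finset.mem_singleton, not_or] at hz
  obtain ⟨α, hα, h1, h2⟩ := exists_alt_two h4 (x := x) (y := τ x) (z := z) hx hz.1
  have := congrArg (fun g : Perm Δ => g x) (h α hα)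
  simp only [Perm.mul_apply, h1, h2] at this
  exact hz.2 this.symm

theorem alt_le_of_normalized (h5 : 5 ≤ Nat.card Δ) (N : Subgroup (Perm Δ)) (hN : N ≠ ⊥)
    (hn : ∀ α ∈ alternatingGroup Δ, ∀ n ∈ N, α * n * α⁻¹ ∈ N) : alternatingGroup Δ ≤ N := by
  obtain ⟨⟨n, hnN⟩, hn1⟩ := Subgroup.ne_bot_iff_exists_ne_one.mp hN
  have hn1' : n ≠ 1 := fun e => hn1 (Subtype.ext e)
  obtain ⟨α, hα, hc⟩ : ∃ α ∈ alternatingGroup Δ, n * α ≠ α * n := by
    by_contra hc
    push Not at hc
    exact hn1' (eq_one_of_comm_alt (by omega) n hc)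
  have hnorm : (N.subgroupOf (alternatingGroup Δ)).Normal :=
    ⟨fun x hx g => hn g g.2 x hx⟩
  rcases alternatingGroup.normal_subgroup_eq_bot_or_eq_top h5
    (N := N.subgroupOf (alternatingGroup Δ)) with h | h
  · exfalso
    have h1 : α * n * α⁻¹ * n⁻¹ ∈ alternatingGroup Δ := by
      rw [mem_alternatingGroup]; simp [mul_comm, mul_left_comm]
    have h2 : (⟨_, h1⟩ : alternatingGroup Δ) ∈ N.subgroupOf (alternatingGroup Δ) :=
      mul_mem (hn α hα n hnN) (inv_mem hnN)
    rw [h, Subgroup.mem_bot] at h2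
    have h3 : α * n * α⁻¹ * n⁻¹ = 1 := congrArg Subtype.val h2
    apply hc
    calc n * α = (α * n * α⁻¹ * n⁻¹) * (n * α) := by rw [h3, one_mul]
      _ = α * n := by group
  · exact Subgroup.subgroupOf_eq_top.mp h

/-- a subgroup of index at most `2 n` contains the alternating group or fixes a point -/
theorem alt_le_or_fix (h9 : 9 ≤ Nat.card Δ) (H : Subgroup (Perm Δ))
    (hH : H.index ≤ 2 * Nat.card Δ) : alternatingGroup Δ ≤ H ∨ ∃ x, ∀ g ∈ H, g x = x := by
  by_cases ht : IsPretransitive H Δ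
  swap
  · right
    obtain ⟨x, y, hxy⟩ : ∃ x y : Δ, y ∉ orbit H x := by
      by_contra hc
      push Not at hc
      exact ht ⟨fun x y => hc x y⟩
    have hinv : ∀ g ∈ H, g • orbit H x = orbit H x := fun g hg => smul_orbit (⟨g, hg⟩ : H) x
    have h1 := (H3.SymIndex.choose_le_index H _ hinv).trans hH
    have h2 : (orbit H x).ncard < Nat.card Δ := by
      rw [← Set.ncard_univ]
      exact Set.ncard_lt_ncard ⟨Set.subset_univ _, fun h => hxy (h (Set.mem_univ y))⟩
    have h3 : 0 < (orbit H x).ncard := (Set.ncard_pos (Set.toFinite _)).mpr ⟨x, mem_orbit_self x⟩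
    by_cases h4 : (orbit H x).ncard = 1
    · obtain ⟨a, ha⟩ := Set.ncard_eq_one.mp h4
      have hx : x = a := by have := mem_orbit_self (M := H) x; rwa [ha] at this
      refine ⟨x, fun g hg => ?_⟩
      have : (⟨g, hg⟩ : H) • x ∈ orbit H x := mem_orbit _ _
      rw [ha, Set.mem_singleton_iff, ← hx] at this
      exact this
    by_cases h5 : (orbit H x).ncard + 1 = Nat.card Δ
    · have h6 : (orbit H x)ᶜ.ncard = 1 := by
        have := Set.ncard_add_ncard_compl (orbit H x); omega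
      obtain ⟨a, ha⟩ := Set.ncard_eq_one.mp h6
      have hy : y = a := by
        have : y ∈ (orbit H x)ᶜ := hxy
        rwa [ha] at this
      refine ⟨y, fun g hg => ?_⟩
      have : g y ∈ (orbit H x)ᶜ := by
        intro h
        apply hxy
        have h7 : (⟨g, hg⟩ : H)⁻¹ • g y ∈ orbit H x := mem_orbit_of_mem_orbit _ h
        have h8 : (⟨g, hg⟩ : H)⁻¹ • g y = y := by
          change g⁻¹ (g y) = y
          simp
        rwa [h8] at h7
      rw [ha, Set.mem_singleton_iff, ← hy] at this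
      exact this
    exfalso
    have h6 := (H3.SymIndex.choose_le_choose (n := Nat.card Δ) (j := 2) (k := (orbit H x).ncard)
      (by omega) (by omega)).trans h1
    rw [Nat.choose_two_right] at h6
    obtain ⟨m, hm⟩ : ∃ m, Nat.card Δ = m + 9 := ⟨Nat.card Δ - 9, by omega⟩
    rw [hm] at h6
    have : (m + 9) * (m + 9 - 1) = (m + 9) * (m + 8) := rfl
    rw [this] at h6
    have h7 : (m + 9) * 8 ≤ (m + 9) * (m + 8) := Nat.mul_le_mul_left _ (by omega)
    omega
  left
  rcases H3.SymIndex.bochert H with ⟨c, hc, h3⟩ | h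
  swap
  · exfalso
    have h := h.trans hH
    obtain ⟨m, hm⟩ : ∃ m, (Nat.card Δ + 1) / 2 = m + 5 := ⟨(Nat.card Δ + 1) / 2 - 5, by omega⟩
    rw [hm, Nat.factorial_succ] at h
    have h1 : 4 * 3 ≤ (m + 4).factorial := by
      rw [Nat.factorial_succ]
      exact Nat.mul_le_mul (by omega) (le_trans (by omega) (Nat.self_le_factorial _))
    have := Nat.mul_le_mul_left (m + 4 + 1) h1
    omega
  by_contra hA
  have hp : ¬ IsPreprimitive H Δ := fun hp =>
    hA (alternatingGroup_le_of_isPreprimitive_of_isThreeCycle_mem hp h3 hc)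
  obtain ⟨x, hx⟩ : c.support.Nonempty := Finset.card_pos.mp (by rw [h3.card_support]; omega)
  obtain ⟨B, hxB, hB, hB'⟩ : ∃ B : Set Δ, x ∈ B ∧ IsBlock H B ∧ ¬ IsTrivialBlock B := by
    by_contra hcon
    push Not at hcon
    exact hp (IsPreprimitive.of_isTrivialBlock_base x fun {B} h1 h2 => hcon B h1 h2)
  have hBn : B.Nontrivial := Set.not_subsingleton_iff.mp fun h => hB' (Or.inl h)
  have h1 := H3.SymIndex.three_le_ncard_block H hc h3 hB hBn hxB (mem_support.mp hx)
  have h2 : B.ncard * 2 ≤ Nat.card Δ := by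
    by_contra h
    exact hB' (Or.inr (hB.eq_univ_of_card_lt (by omega)))
  have h4 := hB.ncard_block_mul_ncard_orbit_eq ⟨x, hxB⟩
  have h5 := H3.SymIndex.choose_le_index ((stabilizer H B).map H.subtype) B (by
    rintro _ ⟨g, hg, rfl⟩; exact hg)
  rw [Subgroup.index_map_subtype, index_stabilizer] at h5
  have h6 := ((H3.SymIndex.choose_le_choose (n := Nat.card Δ) h1 (by omega)).trans h5).trans
    (Nat.mul_le_mul_left _ hH)
  have h8 : 3 * (orbit H B).ncard ≤ Nat.card Δ := by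
    rw [← h4]; exact Nat.mul_le_mul_right _ h1
  obtain ⟨m, hm⟩ : ∃ m, Nat.card Δ = m + 9 := ⟨Nat.card Δ - 9, by omega⟩
  rw [hm] at h6 h8
  have h9 : (m + 9).choose 3 * 6 = (m + 9) * ((m + 8) * (m + 7)) := by
    have := Nat.descFactorial_eq_factorial_mul_choose (m + 9) 3
    simp only [Nat.descFactorial, Nat.factorial] at this
    rw [mul_comm, ← this]
    simp
    ring
  have h10 : (m + 9) * ((m + 8) * (m + 7)) ≤ (m + 9) * (4 * (m + 9)) := by
    rw [← h9]; nlinarith
  have := Nat.le_of_mul_le_mul_left h10 (by omega)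
  nlinarith

end alt

/-- induced action on a family of disjoint non-empty blocks -/
theorem exists_hom {Ω L : Type*} (R : Subgroup (Perm Ω)) (r : Ω → L → Prop)
    (hne : ∀ z, ∃ x, r x z) (hun : ∀ x z z', r x z → r x z' → z = z')
    (hinv : ∀ g ∈ R, ∀ z, ∃ z', ∀ x, r x z → r (g x) z') :
    ∃ f : R →* Perm L, ∀ (g : R) z x, r x z → r ((g : Perm Ω) x) (f g z) := by
  choose F hF using hinv
  have key : ∀ (g h : R) z, F _ (g * h).2 z = F _ g.2 (F _ h.2 z) := by
    intro g h z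
    obtain ⟨x, hx⟩ := hne z
    exact hun _ _ _ (hF _ (g * h).2 z x hx) (hF _ g.2 _ _ (hF _ h.2 z x hx))
  have one : ∀ z, F _ (1 : R).2 z = z := by
    intro z
    obtain ⟨x, hx⟩ := hne z
    exact hun _ _ _ (hF _ (1 : R).2 z x hx) hx
  refine ⟨MonoidHom.mk' (fun g => ⟨F _ g.2, F _ (g⁻¹).2, fun z => ?_, fun z => ?_⟩) ?_, ?_⟩
  · rw [← key, inv_mul_cancel, one]
  · rw [← key, mul_inv_cancel, one]
  · intro g h
    ext z
    exact key g h z
  · intro g z x hx
    exact hF _ g.2 z x hx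

/-- a perfect subgroup in the image of several normal subgroups is in the image of their
intersection -/
theorem le_map_inf {R H : Type*} [Group R] [Group H] (f : R →* H) (S : Subgroup H)
    (hS : ⁅S, S⁆ = S) (N₁ N₂ : Subgroup R) [N₁.Normal] [N₂.Normal] (h1 : S ≤ N₁.map f)
    (h2 : S ≤ N₂.map f) : S ≤ (N₁ ⊓ N₂).map f := by
  rw [← hS]
  refine (Subgroup.commutator_mono h1 h2).trans ?_
  rw [← Subgroup.map_commutator]
  exact Subgroup.map_mono (Subgroup.commutator_le_inf _ _)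

theorem exists_isolated {R H B : Type*} [Group R] [Group H] [Finite B] (f : B → R →* H)
    (S : Subgroup H) (hS : ⁅S, S⁆ = S) (d : B) (h0 : S ≤ (f d).range)
    (h : ∀ e, e ≠ d → S ≤ (f e).ker.map (f d)) :
    ∀ s ∈ S, ∃ g, f d g = s ∧ ∀ e, e ≠ d → f e g = 1 := by
  classical
  have key : ∀ Z : Finset B, d ∉ Z → ∃ N : Subgroup R, N.Normal ∧ S ≤ N.map (f d) ∧
      ∀ e ∈ Z, N ≤ (f e).ker := by
    intro Z
    induction Z using Finset.induction_on with
    | empty =>
      intro _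
      exact ⟨⊤, inferInstance, by rwa [← MonoidHom.range_eq_map], by simp⟩
    | insert e Z _ ih =>
      intro hd
      rw [Finset.mem_insert, not_or] at hd
      obtain ⟨N, hN, h1, h2⟩ := ih hd.2
      refine ⟨N ⊓ (f e).ker, inferInstance, le_map_inf _ S hS _ _ h1 (h e (Ne.symm hd.1)), ?_⟩
      intro e' he'
      rcases Finset.mem_insert.mp he' with rfl | he'
      · exact inf_le_right
      · exact inf_le_left.trans (h2 e' he')
  have := Fintype.ofFinite B
  obtain ⟨N, -, h1, h2⟩ := key (Finset.univ.erase d) (by simp)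
  intro s hs
  obtain ⟨g, hg, rfl⟩ := h1 hs
  exact ⟨g, rfl, fun e he => h2 e (by simp [he]) hg⟩

/-- primitivity in terms of invariant equivalence relations -/
def Prim {L : Type*} (P : Subgroup (Perm L)) : Prop :=
  ∀ r : L → L → Prop, Equivalence r → (∀ σ ∈ P, ∀ x y, r x y → r (σ x) (σ y)) →
    (∀ x y, r x y → x = y) ∨ ∀ x y, r x y

theorem Prim.mono {L : Type*} {P Q : Subgroup (Perm L)} (h : Prim P) (hPQ : P ≤ Q) : Prim Q :=
  fun r hr hi => h r hr fun σ hσ => hi σ (hPQ hσ)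

/-- an invariant preorder on a finite transitive set is symmetric -/
theorem symm_of_invariant {L : Type*} [Finite L] (P : Subgroup (Perm L))
    (ht : ∀ x y, ∃ σ ∈ P, σ x = y) (r : L → L → Prop) (hrefl : ∀ x, r x x)
    (htr : ∀ x y z, r x y → r y z → r x z) (hi : ∀ σ ∈ P, ∀ x y, r x y → r (σ x) (σ y))
    (x y : L) (h : r x y) : r y x := by
  obtain ⟨σ, hσ, rfl⟩ := ht x y
  have key : ∀ n : ℕ, r (σ x) ((σ ^ (n + 1)) x) := by
    intro n
    induction n with
    | zero => simpa using hrefl _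
    | succ n ih =>
      refine htr _ _ _ ih ?_
      have := hi _ (pow_mem hσ (n + 1)) _ _ h
      rwa [← Perm.mul_apply, ← pow_succ] at this
  have h1 := key (orderOf σ - 1)
  rwa [Nat.sub_add_cancel (orderOf_pos σ), pow_orderOf_eq_one] at h1

theorem Prim.isPreprimitive {L : Type*} {P : Subgroup (Perm L)} (h : Prim P)
    (ht : ∀ x y, ∃ σ ∈ P, σ x = y) : IsPreprimitive P L := by
  have : IsPretransitive P L := ⟨fun x y => by
    obtain ⟨σ, hσ, h⟩ := ht x y; exact ⟨⟨σ, hσ⟩, h⟩⟩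
  refine ⟨fun {B} hB => ?_⟩
  by_cases hne : B.Nonempty
  swap
  · left; rw [Set.not_nonempty_iff_eq_empty.mp hne]; exact Set.subsingleton_empty
  obtain ⟨b, hb⟩ := hne
  have hequiv : Equivalence (fun x y => ∃ g : P, g • x ∈ B ∧ g • y ∈ B) := by
    refine ⟨fun x => ?_, fun ⟨g, h1, h2⟩ => ⟨g, h2, h1⟩, ?_⟩
    · obtain ⟨g, hg⟩ := exists_smul_eq P x b
      exact ⟨g, by rwa [hg], by rwa [hg]⟩
    · rintro x y z ⟨g, h1, h2⟩ ⟨g', h3, h4⟩
      refine ⟨g, h1, ?_⟩
      have h5 : (g * g'⁻¹) • B = B := hB.smul_eq_of_mem h3 (by rwa [mul_smul, inv_smul_smul])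
      rw [← h5]
      exact ⟨g' • z, h4, by simp [mul_smul]⟩
  rcases h _ hequiv (by
    rintro σ hσ x y ⟨g, h1, h2⟩
    refine ⟨g * (⟨σ, hσ⟩ : P)⁻¹, ?_, ?_⟩
    · have : (⟨σ, hσ⟩ : P)⁻¹ • σ x = x := inv_smul_smul (⟨σ, hσ⟩ : P) x
      rwa [mul_smul, this]
    · have : (⟨σ, hσ⟩ : P)⁻¹ • σ y = y := inv_smul_smul (⟨σ, hσ⟩ : P) y
      rwa [mul_smul, this]) with h1 | h1
  · left
    intro x hx y hy
    exact h1 x y ⟨1, by simpa using hx, by simpa using hy⟩
  · right
    rw [Set.eq_univ_iff_forall]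
    intro y
    obtain ⟨g, h2, h3⟩ := h1 b y
    have h4 : g • B = B := hB.smul_eq_of_mem hb h2
    rw [← h4] at h3
    exact Set.smul_mem_smul_set_iff.mp h3

end Cfsg.Agent.H8.PA
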