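import Mathlib
import Cfsg.Agent.H8.PA1

/-! Groups acting on `Δ × L` containing `Alt Δ` acting diagonally: elements preserving lines. -/

set_option autoImplicit false

namespace Cfsg.Agent.H8.PA

open MulAction Equiv Equiv.Perm

section pc
variable {Δ L : Type*}

/-- product of two permutations -/
def pc (τ : Perm Δ) (σ : Perm L) : Perm (Δ × L) := Equiv.prodCongr τ σ

@[simp] theorem pc_apply (τ : Perm Δ) (σ : Perm L) (x : Δ × L) : pc τ σ x = (τ x.1, σ x.2) := rfl

theorem pc_mul (τ τ' : Perm Δ) (σ σ' : Perm L) : pc τ σ * pc τ' σ' = pc (τ * τ') (σ * σ') := rfl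

theorem pc_one : pc (1 : Perm Δ) (1 : Perm L) = 1 := rfl

theorem pc_inv (τ : Perm Δ) (σ : Perm L) : (pc τ σ)⁻¹ = pc τ⁻¹ σ⁻¹ := rfl

theorem pc_pow (τ : Perm Δ) (σ : Perm L) (n : ℕ) : (pc τ σ) ^ n = pc (τ ^ n) (σ ^ n) := by
  induction n with
  | zero => rfl
  | succ n ih => rw [pow_succ, pow_succ, pow_succ, ih, pc_mul]

/-- elements preserving every line `Δ × {z}` -/
def lineK (X : Subgroup (Perm (Δ × L))) : Subgroup (Perm (Δ × L)) where
  carrier := {g | g ∈ X ∧ ∀ x, (g x).2 = x.2}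
  one_mem' := ⟨X.one_mem, fun _ => rfl⟩
  mul_mem' := fun {a b} ha hb => ⟨X.mul_mem ha.1 hb.1, fun x => by
    rw [Perm.mul_apply, ha.2, hb.2]⟩
  inv_mem' := fun {a} ha => ⟨X.inv_mem ha.1, fun x => by
    have := ha.2 (a⁻¹ x); simpa using this.symm⟩

/-- elements preserving every hyperplane `{c} × L` -/
def hypR (X : Subgroup (Perm (Δ × L))) : Subgroup (Perm (Δ × L)) where
  carrier := {g | g ∈ X ∧ ∀ x, (g x).1 = x.1}
  one_mem' := ⟨X.one_mem, fun _ => rfl⟩
  mul_mem' := fun {a b} ha hb => ⟨X.mul_mem ha.1 hb.1, fun x => by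
    rw [Perm.mul_apply, ha.2, hb.2]⟩
  inv_mem' := fun {a} ha => ⟨X.inv_mem ha.1, fun x => by
    have := ha.2 (a⁻¹ x); simpa using this.symm⟩

theorem exists_lineHom (X : Subgroup (Perm (Δ × L))) (z : L) :
    ∃ f : lineK X →* Perm Δ, ∀ (g : lineK X) c, (g : Perm (Δ × L)) (c, z) = (f g c, z) := by
  obtain ⟨f, hf⟩ := exists_hom (lineK X) (fun x c => x = (c, z)) (fun c => ⟨_, rfl⟩)
    (fun x c c' h h' => (Prod.ext_iff.mp (h.symm.trans h')).1)
    (fun g hg c => ⟨(g (c, z)).1, fun x hx => by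
      rw [hx]; exact Prod.ext rfl (hg.2 _)⟩)
  exact ⟨f, fun g c => hf g c _ rfl⟩

theorem exists_hypHom (X : Subgroup (Perm (Δ × L))) (c : Δ) :
    ∃ f : hypR X →* Perm L, ∀ (g : hypR X) z, (g : Perm (Δ × L)) (c, z) = (c, f g z) := by
  obtain ⟨f, hf⟩ := exists_hom (hypR X) (fun x z => x = (c, z)) (fun z => ⟨_, rfl⟩)
    (fun x z z' h h' => (Prod.ext_iff.mp (h.symm.trans h')).2)
    (fun g hg z => ⟨(g (c, z)).2, fun x hx => by
      rw [hx]; exact Prod.ext (hg.2 _) rfl⟩)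
  exact ⟨f, fun g c => hf g c _ rfl⟩

end pc

variable {Δ L : Type*} [Fintype Δ] [DecidableEq Δ] [Fintype L] [DecidableEq L]

/-- basic hypotheses -/
structure St0 (X : Subgroup (Perm (Δ × L))) (P : Subgroup (Perm L)) : Prop where
  h5 : 5 ≤ Nat.card Δ
  alt : ∀ α ∈ alternatingGroup Δ, pc α 1 ∈ X
  memP : ∀ σ ∈ P, pc 1 σ ∈ X
  prim : Prim P
  trans : ∀ z z', ∃ t ∈ P, t z = z'
  no3 : ∀ h ∈ X, h.support.card ≤ 3 → h = 1

theorem exists_threeCycle (h3 : 3 ≤ Nat.card Δ) : ∃ c : Perm Δ, c.IsThreeCycle := by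
  obtain ⟨a, -⟩ := exists_not_mem (∅ : Finset Δ) (by simp only [Finset.card_empty]; omega)
  obtain ⟨b, hb⟩ := exists_not_mem ({a} : Finset Δ) (by rw [Finset.card_singleton]; omega)
  obtain ⟨c, hc⟩ := exists_not_mem ({a, b} : Finset Δ) (by
    have := Finset.card_le_two (a := a) (b := b); omega)
  simp only [Finset.mem_insert, Finset.mem_singleton, not_or] at hb hc
  exact ⟨_, isThreeCycle_swap_mul_swap_same (Ne.symm hb) (Ne.symm hc.1) (Ne.symm hc.2)⟩

variable {X : Subgroup (Perm (Δ × L))} {P : Subgroup (Perm L)}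

/-- an element preserving all lines acts in the same way on all lines -/
theorem St0.lemK (S : St0 X P) [Nontrivial L] {g : Perm (Δ × L)} (hg : g ∈ X)
    (hl : ∀ x, (g x).2 = x.2) : ∃ τ, g = pc τ 1 := by
  choose f hf using exists_lineHom X
  have hA : ∀ α ∈ alternatingGroup Δ, pc α 1 ∈ lineK X := fun α hα => ⟨S.alt α hα, fun _ => rfl⟩
  have hfA : ∀ z α (hα : α ∈ alternatingGroup Δ), f z ⟨_, hA α hα⟩ = α := by
    intro z α hα
    ext c
    exact (Prod.ext_iff.mp (hf z ⟨_, hA α hα⟩ c)).1.symm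
  have hker : ∀ z (k : lineK X), f z k = 1 ↔ ∀ c, (k : Perm (Δ × L)) (c, z) = (c, z) := by
    intro z k
    constructor
    · intro h c; rw [hf, h]; rfl
    · intro h; ext c; exact (Prod.ext_iff.mp ((hf z k c).symm.trans (h c))).1
  set r : L → L → Prop := fun z z' => ∀ k : lineK X, f z k = 1 → f z' k = 1 with hr
  have hinv : ∀ σ ∈ P, ∀ x y, r x y → r (σ x) (σ y) := by
    intro σ hσ x y h k hk
    have hm : (pc 1 σ)⁻¹ * (k : Perm (Δ × L)) * pc 1 σ ∈ lineK X :=
      ⟨mul_mem (mul_mem (inv_mem (S.memP σ hσ)) k.2.1) (S.memP σ hσ), fun w => by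
        simp [pc_inv, Perm.mul_apply, k.2.2]⟩
    have h1 : f x ⟨_, hm⟩ = 1 := by
      rw [hker]; intro c
      simp [pc_inv, Perm.mul_apply, (hker _ k).mp hk c]
    rw [hker]
    intro c
    have h2 := (hker _ _).mp (h _ h1) c
    simp only [pc_inv, Perm.mul_apply, pc_apply, inv_one, Perm.one_apply] at h2
    exact Prod.ext (Prod.ext_iff.mp h2).1 (k.2.2 _)
  have hsymm := symm_of_invariant P S.trans r (fun _ _ h => h)
    (fun _ _ _ h1 h2 k hk => h2 k (h1 k hk)) hinv
  rcases S.prim r ⟨fun _ _ h => h, fun h => hsymm _ _ h, fun h1 h2 k hk => h2 k (h1 k hk)⟩ hinv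
    with h | h
  · exfalso
    obtain ⟨z, z', hzz⟩ := exists_pair_ne L
    obtain ⟨c, hc⟩ := exists_threeCycle (Δ := Δ) (by have := S.h5; omega)
    obtain ⟨k, hk1, hk2⟩ := exists_isolated f (alternatingGroup Δ)
      (commutator_alternatingGroup_eq_self S.h5) z
      (fun α hα => ⟨_, hfA z α hα⟩) (fun e he => by
        apply alt_le_of_normalized S.h5
        · intro hb
          apply he
          apply h
          intro k hk
          exact (Subgroup.eq_bot_iff_forall _).mp hb _ ⟨k, hk, rfl⟩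
        · rintro α hα _ ⟨k, hk, rfl⟩
          refine ⟨⟨_, hA α hα⟩ * k * (⟨_, hA α hα⟩ : lineK X)⁻¹,
            (f e).normal_ker.conj_mem _ hk _, ?_⟩
          rw [map_mul, map_mul, map_inv, hfA _ _ hα]) c hc.mem_alternatingGroup
    have h1 : (k : Perm (Δ × L)) = 1 := by
      apply S.no3 _ k.2.1
      rw [← hc.card_support]
      apply Finset.card_le_card_of_injOn Prod.fst
      · rintro ⟨a, w⟩ hx
        simp only [Finset.mem_coe, mem_support] at hx ⊢
        by_cases hw : w = z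
        · subst hw
          rw [hf, hk1] at hx
          exact fun e => hx (by rw [e])
        · exact absurd ((hker _ _).mp (hk2 w hw) a) hx
      · rintro ⟨a, w⟩ hx ⟨a', w'⟩ hx' he
        simp only [Finset.mem_coe, mem_support] at hx hx'
        have h1 : w = z := by
          by_contra hw; exact hx ((hker _ _).mp (hk2 w hw) a)
        have h2 : w' = z := by
          by_contra hw; exact hx' ((hker _ _).mp (hk2 w' hw) a')
        exact Prod.ext he (h1.trans h2.symm)
    have h2 : k = 1 := Subtype.ext h1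
    rw [h2, map_one] at hk1
    exact hc.ne_one hk1.symm
  · obtain ⟨z₀⟩ : Nonempty L := inferInstance
    set k : lineK X := ⟨g, hg, hl⟩ with hk
    refine ⟨f z₀ k, ?_⟩
    have key : ∀ z, (f z₀ k)⁻¹ * f z k = 1 := by
      intro z
      apply eq_one_of_comm_alt (by have := S.h5; omega)
      intro α hα
      have hβ : f z₀ k * α * (f z₀ k)⁻¹ ∈ alternatingGroup Δ :=
        (alternatingGroup.normal).conj_mem _ hα _
      have h1 : f z₀ (k * ⟨_, hA α hα⟩ * k⁻¹ * (⟨_, hA _ hβ⟩ : lineK X)⁻¹) = 1 := by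
        rw [map_mul, map_mul, map_mul, map_inv, map_inv, hfA _ _ hα, hfA _ _ hβ, mul_inv_cancel]
      have h2 := h z₀ z _ h1
      rw [map_mul, map_mul, map_mul, map_inv, map_inv, hfA _ _ hα, hfA _ _ hβ,
        mul_inv_eq_one] at h2
      calc (f z₀ k)⁻¹ * f z k * α = (f z₀ k)⁻¹ * (f z k * α * (f z k)⁻¹) * f z k := by group
        _ = α * ((f z₀ k)⁻¹ * f z k) := by rw [h2]; group
    ext ⟨c, z⟩ : 1
    have h1 := hf z k c
    rw [← inv_mul_eq_one.mp (key z)] at h1
    exact h1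

/-- an element permuting the lines is a product permutation -/
theorem St0.lemK2 (S : St0 X P) [Nontrivial L] {g : Perm (Δ × L)} (hg : g ∈ X) (σ : Perm L)
    (hl : ∀ x, (g x).2 = σ x.2) : ∃ τ, g = pc τ σ := by
  have hinj : ∀ z, Function.Injective fun c : Δ => (g (c, z)).1 := by
    intro z c c' h
    have : g (c, z) = g (c', z) := Prod.ext h (by rw [hl, hl])
    exact (Prod.ext_iff.mp (g.injective this)).1
  set τ : L → Perm Δ := fun z => Equiv.ofBijective _ (hinj z).bijective_of_finite with hτ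
  have hτ' : ∀ c z, g (c, z) = (τ z c, σ z) := fun c z => Prod.ext rfl (hl _)
  obtain ⟨z₀⟩ : Nonempty L := inferInstance
  refine ⟨τ z₀, ?_⟩
  have key : ∀ z, (τ z₀)⁻¹ * τ z = 1 := by
    intro z
    apply eq_one_of_comm_alt (by have := S.h5; omega)
    intro α hα
    obtain ⟨β, hβ⟩ := S.lemK (g := g * pc α 1 * g⁻¹)
      (mul_mem (mul_mem hg (S.alt α hα)) (inv_mem hg)) (fun x => by
        rw [Perm.mul_apply, Perm.mul_apply, hl]
        have := hl (g⁻¹ x)
        simp only [pc_apply, Perm.one_apply]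
        rw [← this]; simp)
    have h1 : ∀ w, τ w * α = β * τ w := by
      intro w
      ext c
      have := congrArg (fun h : Perm (Δ × L) => (h (c, w)).1) (mul_inv_eq_iff_eq_mul.mp hβ)
      simpa [Perm.mul_apply, hτ'] using this
    calc (τ z₀)⁻¹ * τ z * α = (τ z₀)⁻¹ * (τ z * α) := by group
      _ = (τ z₀)⁻¹ * (β * τ z₀) * (τ z₀)⁻¹ * τ z := by rw [h1]; group
      _ = α * ((τ z₀)⁻¹ * τ z) := by rw [← h1]; group
  ext ⟨c, z⟩ : 1
  rw [hτ', ← inv_mul_eq_one.mp (key z)]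
  rfl

end Cfsg.Agent.H8.PA
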