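import Mathlib
import Cfsg.Agent.H8.PA1

/-! Jordan sets. -/

set_option autoImplicit false

namespace Cfsg.Agent.H8.PA

open MulAction Equiv Equiv.Perm SubMulAction

variable {Ω : Type*} [Fintype Ω] [DecidableEq Ω]

/-- the pointwise stabiliser of `Γ ∪ B` is transitive on the remaining points -/
def Good (X : Subgroup (Perm Ω)) (Γ B : Finset Ω) : Prop :=
  B.Nonempty ∧ (∀ x ∈ B, x ∉ Γ) ∧ ∀ x y, x ∉ Γ → x ∉ B → y ∉ Γ → y ∉ B →
    ∃ g ∈ X, (∀ w ∈ Γ, g w = w) ∧ (∀ w ∈ B, g w = w) ∧ g x = y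

theorem Good.inter {X : Subgroup (Perm Ω)} {Γ B B' : Finset Ω} (h : Good X Γ B)
    (h' : Good X Γ B') (hne : (B ∩ B').Nonempty)
    (hc : Γ.card + B.card + B'.card < Nat.card Ω) : Good X Γ (B ∩ B') := by
  obtain ⟨o, ho⟩ := exists_not_mem (Γ ∪ B ∪ B') (lt_of_le_of_lt ((Finset.card_union_le _ _).trans
    (Nat.add_le_add_right (Finset.card_union_le _ _) _)) hc)
  simp only [Finset.mem_union, not_or] at ho
  have key : ∀ x, x ∉ Γ → x ∉ B ∩ B' →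
      ∃ g ∈ X, (∀ w ∈ Γ, g w = w) ∧ (∀ w ∈ B ∩ B', g w = w) ∧ g x = o := by
    intro x hx hxB
    by_cases h1 : x ∈ B
    · have h2 : x ∉ B' := fun h2 => hxB (Finset.mem_inter.mpr ⟨h1, h2⟩)
      obtain ⟨g, hg, h3, h4, h5⟩ := h'.2.2 x o hx h2 ho.1.1 ho.2
      exact ⟨g, hg, h3, fun w hw => h4 w (Finset.mem_inter.mp hw).2, h5⟩
    · obtain ⟨g, hg, h3, h4, h5⟩ := h.2.2 x o hx h1 ho.1.1 ho.1.2
      exact ⟨g, hg, h3, fun w hw => h4 w (Finset.mem_inter.mp hw).1, h5⟩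
  refine ⟨hne, fun x hx => h.2.1 x (Finset.mem_inter.mp hx).1, fun x y hx hxB hy hyB => ?_⟩
  obtain ⟨g, hg, h1, h2, h3⟩ := key x hx hxB
  obtain ⟨g', hg', h1', h2', h3'⟩ := key y hy hyB
  refine ⟨g'⁻¹ * g, mul_mem (inv_mem hg') hg, fun w hw => ?_, fun w hw => ?_, ?_⟩
  · rw [Perm.mul_apply, h1 w hw, Perm.inv_eq_iff_eq, h1' w hw]
  · rw [Perm.mul_apply, h2 w hw, Perm.inv_eq_iff_eq, h2' w hw]
  · rw [Perm.mul_apply, h3, Perm.inv_eq_iff_eq, h3']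

theorem Good.map {X : Subgroup (Perm Ω)} {Γ B : Finset Ω} (h : Good X Γ B) {g : Perm Ω}
    (hg : g ∈ X) (hΓ : ∀ w, g w ∈ Γ ↔ w ∈ Γ) : Good X Γ (B.image g) := by
  refine ⟨h.1.image _, fun x hx => ?_, fun x y hx hxB hy hyB => ?_⟩
  · obtain ⟨y, hy, rfl⟩ := Finset.mem_image.mp hx
    rw [hΓ]; exact h.2.1 y hy
  · obtain ⟨k, hk, h1, h2, h3⟩ := h.2.2 (g⁻¹ x) (g⁻¹ y) (by rw [← hΓ]; simpa using hx)
      (fun e => hxB (Finset.mem_image.mpr ⟨_, e, by simp⟩)) (by rw [← hΓ]; simpa using hy)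
      (fun e => hyB (Finset.mem_image.mpr ⟨_, e, by simp⟩))
    refine ⟨g * k * g⁻¹, mul_mem (mul_mem hg hk) (inv_mem hg), fun w hw => ?_, fun w hw => ?_, ?_⟩
    · rw [Perm.mul_apply, Perm.mul_apply, h1 _ (by rw [← hΓ]; simpa using hw)]; simp
    · obtain ⟨v, hv, rfl⟩ := Finset.mem_image.mp hw
      simp [Perm.mul_apply, h2 v hv]
    · rw [Perm.mul_apply, Perm.mul_apply, h3]; simp

theorem Good.exists_block {X : Subgroup (Perm Ω)} {Γ B : Finset Ω} (h : Good X Γ B)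
    (hc : Γ.card + 2 * B.card < Nat.card Ω) :
    ∃ B₀ ⊆ B, Good X Γ B₀ ∧ ∀ g ∈ X, (∀ w, g w ∈ Γ ↔ w ∈ Γ) → ∀ x ∈ B₀, g x ∈ B₀ →
      ∀ y ∈ B₀, g y ∈ B₀ := by
  classical
  obtain ⟨B₀, hB₀, hmin⟩ := Finset.exists_min_image (B.powerset.filter (Good X Γ)) Finset.card
    ⟨B, by simp [h]⟩
  simp only [Finset.mem_filter, Finset.mem_powerset] at hB₀ hmin
  refine ⟨B₀, hB₀.1, hB₀.2, fun g hg hΓ x hx hgx y hy => ?_⟩
  have hle := Finset.card_le_card hB₀.1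
  have hci : (B₀.image g).card = B₀.card := Finset.card_image_of_injective _ g.injective
  have h1 := hB₀.2.inter (hB₀.2.map hg hΓ) ⟨g x, Finset.mem_inter.mpr ⟨hgx,
    Finset.mem_image_of_mem _ hx⟩⟩ (by omega)
  have h2 := hmin _ ⟨Finset.inter_subset_left.trans hB₀.1, h1⟩
  have h3 : B₀ ∩ B₀.image g = B₀.image g :=
    Finset.eq_of_subset_of_card_le Finset.inter_subset_right (by omega)
  have h4 := Finset.mem_image_of_mem g hy
  rw [← h3] at h4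
  exact (Finset.mem_inter.mp h4).1

theorem exists_small_of_good {X : Subgroup (Perm Ω)} (hX : IsPreprimitive X Ω) {Γ : Finset Ω}
    {p : Ω} (h : Good X Γ {p})
    (htr : ∀ x y, x ∉ Γ → y ∉ Γ → ∃ g ∈ X, (∀ w ∈ Γ, g w = w) ∧ g x = y)
    (h2 : 2 ≤ Γ.card) (hc : Γ.card + 1 < Nat.card Ω) {u : Perm Ω} (hu : u ∈ X) (hu1 : u ≠ 1)
    (hs : u.support.card < 2 * Γ.card) : ∃ h ∈ X, h ≠ 1 ∧ h.support.card ≤ 3 := by
  have hp : p ∉ Γ := h.2.1 p (by simp)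
  have key : ∀ a b : Ω, a ∉ Γ → b ∉ Γ → a ≠ b → ∀ q, q ∉ Γ → q ≠ p →
      ∃ g ∈ X, (∀ w ∈ Γ, g w = w) ∧ g a = p ∧ g b = q := by
    intro a b ha hb hab q hq hqp
    obtain ⟨g, hg, h1, h3⟩ := htr a p ha hp
    have hgb : g b ∉ Γ := fun e => hb (by rwa [g.injective (h1 _ e)] at e)
    obtain ⟨k, hk, h4, h5, h6⟩ := h.2.2 (g b) q hgb
      (by rw [Finset.mem_singleton, ← h3]; exact fun e => hab (g.injective e).symm) hq
      (by simpa using hqp)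
    exact ⟨k * g, mul_mem hk hg, fun w hw => by rw [Perm.mul_apply, h1 w hw, h4 w hw],
      by rw [Perm.mul_apply, h3, h5 p (by simp)], by rw [Perm.mul_apply, h6]⟩
  obtain ⟨q, hq⟩ := exists_not_mem (insert p Γ) (by rw [Finset.card_insert_of_notMem hp]; omega)
  rw [Finset.mem_insert, not_or] at hq
  have h2t : IsMultiplyPretransitive (fixingSubgroup X (Γ : Set Ω))
      (ofFixingSubgroup X (Γ : Set Ω)) 2 := by
    rw [is_two_pretransitive_iff]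
    intro a b c d hab hcd
    obtain ⟨g, hg, h1, h3, h4⟩ := key a b a.2 b.2 (fun e => hab (Subtype.ext e)) q hq.2 hq.1
    obtain ⟨k, hk, h5, h6, h7⟩ := key c d c.2 d.2 (fun e => hcd (Subtype.ext e)) q hq.2 hq.1
    refine ⟨⟨⟨k⁻¹ * g, mul_mem (inv_mem hk) hg⟩, ?_⟩, Subtype.ext ?_, Subtype.ext ?_⟩
    · rw [mem_fixingSubgroup_iff]
      intro w hw
      change k⁻¹ (g w) = w
      rw [h1 w hw, Perm.inv_eq_iff_eq, h5 w hw]
    · change k⁻¹ (g a) = c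
      rw [h3, Perm.inv_eq_iff_eq, h6]
    · change k⁻¹ (g b) = d
      rw [h4, Perm.inv_eq_iff_eq, h7]
  have hm := hX.isMultiplyPreprimitive (s := (Γ : Set Ω)) (n := Γ.card - 1)
    (by rw [Set.ncard_coe_finset]; omega) (by omega) (isPreprimitive_of_is_two_pretransitive h2t)
  obtain ⟨h, h1, h3, h4⟩ := H3.SmallSupport.exists_support_le_three X (k := Γ.card - 1 + 2)
    (by omega) (by rw [← Nat.card_eq_fintype_card]; omega) hm.isMultiplyPretransitive u hu hu1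
    (by omega)
  exact ⟨h, h1, h3, h4⟩

end Cfsg.Agent.H8.PA
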