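import Mathlib
import Cfsg.Agent.H8.PA2
import Cfsg.Agent.H8.PA3

/-! The inductive step, first part: pointwise stabilisers of three hyperplanes. -/

set_option autoImplicit false

namespace Cfsg.Agent.H8.PA

open MulAction Equiv Equiv.Perm
open scoped Pointwise

variable {Δ L : Type*} [Fintype Δ] [DecidableEq Δ] [Fintype L] [DecidableEq L]

/-- hypotheses of the inductive step -/
structure St (X : Subgroup (Perm (Δ × L))) (T P W : Subgroup (Perm L)) : Prop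
    extends St0 X P where
  hL : Nat.card Δ ≤ Nat.card L
  TP : T ≤ P
  transT : ∀ z z', ∃ t ∈ T, t z = z'
  primX : IsPreprimitive X (Δ × L)
  perf : ⁅T, T⁆ = T
  fix : ∀ z z', (∀ t ∈ T, t z = z → t z' = z') → z' = z
  norm : ∀ Q, P ≤ Q → ∀ N ≤ Q, N ≠ ⊥ → (∀ q ∈ Q, ∀ n ∈ N, q * n * q⁻¹ ∈ N) → T ≤ N
  exp : ∃ t ∈ T, t ^ 6 ≠ 1
  five : Nat.card Δ = 5 → 5 ∣ Nat.card L
  H1 : ∀ d, ¬ ∀ t ∈ T, ∃ g ∈ X, ∀ c z, g (c, z) = (c, if c = d then t z else z)
  dich : ∀ Q, P ≤ Q → (∀ q ∈ Q, q ∈ W ∧ ∀ t ∈ T, q * t * q⁻¹ ∈ T) ∨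
    (alternatingGroup L ≤ Q ∧ 9 ≤ Nat.card L ∧ ¬ ∀ σ : Perm L, σ.IsThreeCycle → pc 1 σ ∈ X)

variable {X : Subgroup (Perm (Δ × L))} {T P W : Subgroup (Perm L)}

theorem St.nontrivial (S : St X T P W) : Nontrivial L := by
  rw [← Finite.one_lt_card_iff_nontrivial]
  have := S.h5; have := S.hL; omega

/-- an element preserving all hyperplanes and fixing one pointwise is trivial -/
theorem St.lemR (S : St X T P W) {h : Perm (Δ × L)} (hh : h ∈ hypR X) {a : Δ}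
    (ha : ∀ z, h (a, z) = (a, z)) : h = 1 := by
  by_contra h1
  obtain ⟨⟨d, z₀⟩, hd⟩ : ∃ x, h x ≠ x := by
    by_contra hc; push Not at hc; exact h1 (Equiv.ext hc)
  have hda : a ≠ d := by rintro rfl; exact hd (ha _)
  choose f hf using exists_hypHom X
  have hP : ∀ σ ∈ P, pc 1 σ ∈ hypR X := fun σ hσ => ⟨S.memP σ hσ, fun _ => rfl⟩
  have hfP : ∀ c σ (hσ : σ ∈ P), f c ⟨_, hP σ hσ⟩ = σ := by
    intro c σ hσ
    ext z
    exact (Prod.ext_iff.mp (hf c ⟨_, hP σ hσ⟩ z)).2.symm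
  have hker : ∀ c (k : hypR X), f c k = 1 ↔ ∀ z, (k : Perm (Δ × L)) (c, z) = (c, z) := by
    intro c k
    constructor
    · intro h z; rw [hf, h]; rfl
    · intro h; ext z; exact (Prod.ext_iff.mp ((hf c k z).symm.trans (h z))).2
  have hPQ : P ≤ (f d).range := fun σ hσ => ⟨_, hfP d σ hσ⟩
  apply S.H1 d
  intro t ht
  obtain ⟨k, hk1, hk2⟩ := exists_isolated f T S.perf d (S.TP.trans hPQ) (fun e he => by
    apply S.norm _ hPQ _ (Subgroup.map_le_range _ _)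
    · obtain ⟨α, hα, h2, h3⟩ := exists_alt_pair (by have := S.h5; omega) hda he
      have hm : pc α 1 * h * (pc α 1)⁻¹ ∈ hypR X :=
        ⟨mul_mem (mul_mem (S.alt α hα) hh.1) (inv_mem (S.alt α hα)), fun w => by
          simp [pc_inv, Perm.mul_apply, hh.2]⟩
      intro hb
      have h4 : f e ⟨_, hm⟩ = 1 := by
        rw [hker]; intro z
        simp [pc_inv, Perm.mul_apply, ← h2, ha]
      have h5 := (hker _ _).mp ((Subgroup.eq_bot_iff_forall _).mp hb _ ⟨_, h4, rfl⟩) z₀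
      apply hd
      have h6 : α⁻¹ d = d := by rw [Perm.inv_eq_iff_eq, h3]
      simp only [pc_inv, Perm.mul_apply, pc_apply, inv_one, Perm.one_apply, h6] at h5
      exact Prod.ext (hh.2 _) (Prod.ext_iff.mp h5).2
    · rintro _ ⟨q, rfl⟩ _ ⟨k, hk, rfl⟩
      exact ⟨q * k * q⁻¹, (f e).normal_ker.conj_mem _ hk _, by rw [map_mul, map_mul, map_inv]⟩)
    t ht
  refine ⟨k, k.2.1, fun c z => ?_⟩
  split_ifs with hc
  · rw [hc, hf, hk1]
  · exact (hker _ _).mp (hk2 c hc) z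

/-- pointwise stabiliser of `D × L` -/
def GG (X : Subgroup (Perm (Δ × L))) (D : Finset Δ) : Subgroup (Perm (Δ × L)) where
  carrier := {g | g ∈ X ∧ ∀ x : Δ × L, x.1 ∈ D → g x = x}
  one_mem' := ⟨X.one_mem, fun _ _ => rfl⟩
  mul_mem' := fun {a b} ha hb => ⟨X.mul_mem ha.1 hb.1, fun x hx => by
    rw [Perm.mul_apply, hb.2 x hx, ha.2 x hx]⟩
  inv_mem' := fun {a} ha => ⟨X.inv_mem ha.1, fun x hx => by
    rw [Perm.inv_eq_iff_eq, ha.2 x hx]⟩

theorem GG.notMem {D : Finset Δ} {g : Perm (Δ × L)} (hg : g ∈ GG X D) {x : Δ × L}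
    (hx : x.1 ∉ D) : (g x).1 ∉ D := fun h => hx (by rwa [g.injective (hg.2 _ h)] at h)

theorem St.lemHP (S : St X T P W) {D : Finset Δ} (hD : D.Nonempty)
    (h1 : ∀ g ∈ GG X D, ∀ x y : Δ × L, x.1 = y.1 → (g x).1 = (g y).1) {d : Δ}
    (h2 : ∀ z z', ∃ g ∈ GG X D, g (d, z) = (d, z')) : False := by
  have := S.nontrivial
  obtain ⟨z₀⟩ : Nonempty L := inferInstance
  obtain ⟨a, ha⟩ := hD
  obtain ⟨μ, hμ⟩ := exists_hom (GG X D) (fun x c => x.1 = c) (fun c => ⟨(c, z₀), rfl⟩)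
    (fun _ _ _ h h' => h.symm.trans h')
    (fun g hg c => ⟨(g (c, z₀)).1, fun x hx => h1 g hg x (c, z₀) hx⟩)
  have key : ∀ g : GG X D, sign (μ g) = 1 → ∀ x, ((g : Perm (Δ × L)) x).2 = x.2 := by
    intro g hg x
    have hα := S.alt _ (mem_alternatingGroup.mpr hg)
    have h3 : (pc (μ g) 1)⁻¹ * (g : Perm (Δ × L)) = 1 := by
      apply S.lemR (a := a)
      · refine ⟨mul_mem (inv_mem hα) g.2.1, fun w => ?_⟩
        simp [pc_inv, Perm.mul_apply, hμ g w.1 w rfl]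
      · intro z
        have h4 := hμ g a (a, z) rfl
        rw [g.2.2 _ ha] at h4
        have h5 : (μ g)⁻¹ a = a := by rw [Perm.inv_eq_iff_eq]; exact h4
        simp [pc_inv, Perm.mul_apply, g.2.2 (a, z) ha, h5]
    rw [← inv_mul_eq_one.mp h3]; rfl
  obtain ⟨z₁, hz₁⟩ := exists_ne z₀
  obtain ⟨z₂, hz₂⟩ := exists_not_mem ({z₀, z₁} : Finset L) (by
    have := Finset.card_le_two (a := z₀) (b := z₁); have := S.h5; have := S.hL; omega)
  simp only [Finset.mem_insert, Finset.mem_singleton, not_or] at hz₂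
  obtain ⟨g₁, hg₁, e₁⟩ := h2 z₀ z₁
  obtain ⟨g₂, hg₂, e₂⟩ := h2 z₀ z₂
  have s₁ : sign (μ ⟨g₁, hg₁⟩) = -1 := (Int.units_eq_one_or _).resolve_left fun h => by
    have := key _ h (d, z₀); rw [e₁] at this; exact hz₁ this
  have s₂ : sign (μ ⟨g₂, hg₂⟩) = -1 := (Int.units_eq_one_or _).resolve_left fun h => by
    have := key _ h (d, z₀); rw [e₂] at this; exact hz₂.1 this
  have := key (⟨g₂, hg₂⟩ * (⟨g₁, hg₁⟩ : GG X D)⁻¹) (by
    rw [map_mul, map_inv, Perm.sign_mul, Perm.sign_inv, s₁, s₂]; simp) (d, z₁)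
  have h3 : g₁⁻¹ (d, z₁) = (d, z₀) := by rw [Perm.inv_eq_iff_eq, e₁]
  change (g₂ (g₁⁻¹ (d, z₁))).2 = z₁ at this
  rw [h3, e₂] at this
  exact hz₂.2 this

theorem St.lemFlat (S : St X T P W) {D : Finset Δ} (hD : D.card = 3)
    (h : ∀ x y : Δ × L, x.1 ∉ D → y.1 ∉ D → ∃ g ∈ GG X D, g x = y) :
    ∀ g ∈ GG X D, ∀ x y : Δ × L, x.1 = y.1 → (g x).1 = (g y).1 := by
  have := S.nontrivial
  have h5 := S.h5
  have hL := S.hL
  obtain ⟨c, hc⟩ : D.Nonempty := Finset.card_pos.mp (by omega)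
  set Γ : Finset (Δ × L) := D.erase c ×ˢ Finset.univ with hΓ
  set B : Finset (Δ × L) := {c} ×ˢ Finset.univ with hB
  have mΓ : ∀ x : Δ × L, x ∈ Γ ↔ x.1 ≠ c ∧ x.1 ∈ D := by simp [hΓ]
  have mB : ∀ x : Δ × L, x ∈ B ↔ x.1 = c := fun x => by
    simp only [hB, Finset.mem_product, Finset.mem_singleton, Finset.mem_univ, and_true]
  have cΓ : Γ.card = 2 * Nat.card L := by
    simp [hΓ, Finset.card_erase_of_mem hc, hD]
  have cB : B.card = Nat.card L := by simp [hB]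
  have cΩ : Nat.card (Δ × L) = Nat.card Δ * Nat.card L := Nat.card_prod _ _
  have cΩ' : 5 * Nat.card L ≤ Nat.card (Δ × L) := cΩ ▸ Nat.mul_le_mul_right _ h5
  have hmove : ∀ e, e ∉ D → ∃ α ∈ alternatingGroup Δ, α c = e ∧ ∀ w ∈ Γ, pc α 1 w = w := by
    intro e he
    obtain ⟨α, hα, h1⟩ := exists_alt_on (swap c e) D (by omega)
    refine ⟨α, hα, by rw [h1 c hc, swap_apply_left], fun w hw => ?_⟩
    rw [mΓ] at hw
    have h2 : w.1 ≠ e := fun e' => he (e' ▸ hw.2)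
    exact Prod.ext (by rw [pc_apply, h1 _ hw.2, swap_apply_of_ne_of_ne hw.1 h2]) rfl
  obtain ⟨z₀⟩ : Nonempty L := inferInstance
  have hgood : Good X Γ B := by
    refine ⟨⟨(c, z₀), (mB _).mpr rfl⟩, fun x hx hx' => ((mΓ x).mp hx').1 ((mB x).mp hx),
      fun x y hx hxB hy hyB => ?_⟩
    rw [mΓ] at hx hy
    rw [mB] at hxB hyB
    obtain ⟨g, hg, h1⟩ := h x y (fun e => hx ⟨hxB, e⟩) (fun e => hy ⟨hyB, e⟩)
    exact ⟨g, hg.1, fun w hw => hg.2 w ((mΓ w).mp hw).2,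
      fun w hw => hg.2 w (((mB w).mp hw).symm ▸ hc), h1⟩
  obtain ⟨B₀, hB₀, hg₀, hbl⟩ := hgood.exists_block (by omega)
  have hstab : ∀ g : Perm (Δ × L), (∀ w ∈ Γ, g w = w) → ∀ w, g w ∈ Γ ↔ w ∈ Γ := fun g hg w =>
    ⟨fun e => by rwa [g.injective (hg _ e)] at e, fun e => by rwa [hg _ e]⟩
  have hblock : IsBlock P {z | (c, z) ∈ B₀} := by
    rw [isBlock_iff_smul_eq_of_mem]
    intro σ z hz hσz
    apply Set.eq_of_subset_of_ncard_le _ (by rw [Set.ncard_smul_set])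
    rintro _ ⟨w, hw, rfl⟩
    exact hbl (pc 1 σ) (S.memP _ σ.2) (fun w => by simp [mΓ]) (c, z) hz hσz (c, w) hw
  rcases (S.prim.isPreprimitive S.trans).isTrivialBlock_of_isBlock hblock with hs | hs
  · exfalso
    obtain ⟨p, hp⟩ := hg₀.1
    have hB₁ : B₀ = {p} := by
      rw [Finset.eq_singleton_iff_unique_mem]
      refine ⟨hp, fun x hx => ?_⟩
      have e1 := (mB _).mp (hB₀ hx)
      have e2 := (mB _).mp (hB₀ hp)
      refine Prod.ext (e1.trans e2.symm) (hs ?_ ?_)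
      · change (c, x.2) ∈ B₀; rw [← e1]; exact hx
      · change (c, p.2) ∈ B₀; rw [← e2]; exact hp
    rw [hB₁] at hg₀
    obtain ⟨d, hd⟩ := exists_not_mem D (by omega)
    obtain ⟨c₃, hc₃⟩ := exists_threeCycle (Δ := Δ) (by omega)
    have hto : ∀ x, x ∉ Γ → ∃ g ∈ X, (∀ w ∈ Γ, g w = w) ∧ g x = (d, z₀) := by
      intro x hx
      by_cases hxD : x.1 ∈ D
      · have hxc : x.1 = c := by by_contra e; exact hx ((mΓ x).mpr ⟨e, hxD⟩)
        obtain ⟨α, hα, h1, h2⟩ := hmove d hd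
        obtain ⟨g, hg, h3⟩ := h (pc α 1 x) (d, z₀) (by simpa [hxc, h1] using hd) hd
        exact ⟨g * pc α 1, mul_mem hg.1 (S.alt α hα), fun w hw => by
          rw [Perm.mul_apply, h2 w hw, hg.2 w ((mΓ w).mp hw).2], h3⟩
      · obtain ⟨g, hg, h3⟩ := h x (d, z₀) hxD hd
        exact ⟨g, hg.1, fun w hw => hg.2 w ((mΓ w).mp hw).2, h3⟩
    obtain ⟨k, hk, hk1, hk3⟩ := exists_small_of_good S.primX hg₀ (fun x y hx hy => by
      obtain ⟨g, hg, h1, h2⟩ := hto x hx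
      obtain ⟨g', hg', h1', h2'⟩ := hto y hy
      refine ⟨g'⁻¹ * g, mul_mem (inv_mem hg') hg, fun w hw => ?_, ?_⟩
      · rw [Perm.mul_apply, h1 w hw, Perm.inv_eq_iff_eq, h1' w hw]
      · rw [Perm.mul_apply, h2, Perm.inv_eq_iff_eq, h2']) (by omega) (by omega)
      (S.alt c₃ hc₃.mem_alternatingGroup) (fun e => hc₃.ne_one (by
        ext a; exact (Prod.ext_iff.mp (congrArg (fun g : Perm (Δ × L) => g (a, z₀)) e)).1)) (by
        have : (pc c₃ (1 : Perm L)).support ⊆ c₃.support ×ˢ Finset.univ := by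
          intro x hx
          simp only [mem_support, Finset.mem_product, Finset.mem_univ, and_true] at hx ⊢
          exact fun e => hx (Prod.ext e rfl)
        have h1 := Finset.card_le_card this
        rw [Finset.card_product, hc₃.card_support, Finset.card_univ,
          ← Nat.card_eq_fintype_card] at h1
        omega)
    exact hk1 (S.no3 k hk hk3)
  · have hall : ∀ z, (c, z) ∈ B₀ := fun z => by
      have : z ∈ {z | (c, z) ∈ B₀} := hs ▸ Set.mem_univ z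
      exact this
    intro g hg x y hxy
    by_cases hx : x.1 ∈ D
    · rw [hg.2 x hx, hg.2 y (hxy ▸ hx), hxy]
    obtain ⟨α, hα, h1, h2⟩ := hmove _ hx
    obtain ⟨β, hβ, h3, h4⟩ := hmove _ (GG.notMem hg hx)
    have h6 := hbl ((pc β 1)⁻¹ * g * pc α 1)
      (mul_mem (mul_mem (inv_mem (S.alt β hβ)) hg.1) (S.alt α hα))
      (hstab _ fun w hw => by
        rw [Perm.mul_apply, Perm.mul_apply, h2 w hw, hg.2 w ((mΓ w).mp hw).2,
          Perm.inv_eq_iff_eq, h4 w hw]) (c, x.2) (hall _) (by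
        have : β⁻¹ (g x).1 = c := by rw [Perm.inv_eq_iff_eq, h3]
        simpa [pc_inv, Perm.mul_apply, h1, this] using hall _) (c, y.2) (hall _)
    have h7 := (mB _).mp (hB₀ h6)
    simp only [pc_inv, Perm.mul_apply, pc_apply, h1, hxy, Perm.one_apply, Prod.mk.eta,
      Perm.inv_eq_iff_eq] at h7
    rw [h7, h3]

end Cfsg.Agent.H8.PA
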