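import Mathlib
import Cfsg.Agent.H8.PA4

/-! The inductive step, second part: the stabiliser of the orbits of a diagonal three-cycle. -/

set_option autoImplicit false

namespace Cfsg.Agent.H8.PA

open MulAction Equiv Equiv.Perm
open scoped Pointwise

variable {Δ L : Type*} [Fintype Δ] [DecidableEq Δ] [Fintype L] [DecidableEq L]

/-- elements permuting the sets `D × {z}` -/
def NN (X : Subgroup (Perm (Δ × L))) (D : Finset Δ) : Subgroup (Perm (Δ × L)) where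
  carrier := {g | g ∈ X ∧ (∀ x : Δ × L, (g x).1 ∈ D ↔ x.1 ∈ D) ∧
    ∀ x y : Δ × L, x.1 ∈ D → y.1 ∈ D → ((g x).2 = (g y).2 ↔ x.2 = y.2)}
  one_mem' := ⟨X.one_mem, fun _ => Iff.rfl, fun _ _ _ _ => Iff.rfl⟩
  mul_mem' := fun {a b} ha hb => ⟨X.mul_mem ha.1 hb.1, fun x => by
    rw [Perm.mul_apply, ha.2.1, hb.2.1], fun x y hx hy => by
    rw [Perm.mul_apply, Perm.mul_apply, ha.2.2 _ _ ((hb.2.1 x).mpr hx) ((hb.2.1 y).mpr hy),
      hb.2.2 x y hx hy]⟩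
  inv_mem' := fun {a} ha => by
    have h1 : ∀ x : Δ × L, (a⁻¹ x).1 ∈ D ↔ x.1 ∈ D := fun x => by
      rw [← ha.2.1]; simp
    refine ⟨X.inv_mem ha.1, h1, fun x y hx hy => ?_⟩
    rw [← ha.2.2 _ _ ((h1 x).mpr hx) ((h1 y).mpr hy)]; simp

/-- elements preserving the sets `D × {z}` -/
def EE (X : Subgroup (Perm (Δ × L))) (D : Finset Δ) : Subgroup (Perm (Δ × L)) where
  carrier := {g | g ∈ NN X D ∧ ∀ x : Δ × L, x.1 ∈ D → (g x).2 = x.2}
  one_mem' := ⟨(NN X D).one_mem, fun _ _ => rfl⟩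
  mul_mem' := fun {a b} ha hb => ⟨(NN X D).mul_mem ha.1 hb.1, fun x hx => by
    rw [Perm.mul_apply, ha.2 _ ((hb.1.2.1 x).mpr hx), hb.2 x hx]⟩
  inv_mem' := fun {a} ha => ⟨(NN X D).inv_mem ha.1, fun x hx => by
    rw [← ha.2 _ ((((NN X D).inv_mem ha.1).2.1 x).mpr hx)]; simp⟩

variable {X : Subgroup (Perm (Δ × L))} {T P W : Subgroup (Perm L)} {D : Finset Δ}

theorem GG_le_EE : GG X D ≤ EE X D := fun g hg =>
  ⟨⟨hg.1, fun x => ⟨fun h => by_contra fun e => GG.notMem hg e h, fun h => by rwa [hg.2 x h]⟩,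
    fun x y hx hy => by rw [hg.2 x hx, hg.2 y hy]⟩, fun x hx => by rw [hg.2 x hx]⟩

omit [Fintype Δ] [Fintype L] [DecidableEq Δ] [DecidableEq L] in
theorem conj_GG {n g : Perm (Δ × L)} (hn : n ∈ NN X D) (hg : g ∈ GG X D) :
    n * g * n⁻¹ ∈ GG X D :=
  ⟨mul_mem (mul_mem hn.1 hg.1) (inv_mem hn.1), fun x hx => by
    rw [Perm.mul_apply, Perm.mul_apply, hg.2 _ (((inv_mem hn).2.1 x).mpr hx)]; simp⟩

omit [Fintype Δ] [Fintype L] [DecidableEq Δ] [DecidableEq L] in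
theorem conj_EE {n g : Perm (Δ × L)} (hn : n ∈ NN X D) (hg : g ∈ EE X D) :
    n * g * n⁻¹ ∈ EE X D :=
  ⟨mul_mem (mul_mem hn hg.1) (inv_mem hn), fun x hx => by
    have h1 := ((inv_mem hn).2.1 x).mpr hx
    have h2 := (hn.2.2 _ _ ((hg.1.2.1 _).mpr h1) h1).mpr (hg.2 _ h1)
    simpa [Perm.mul_apply] using h2⟩

omit [Fintype Δ] [Fintype L] [DecidableEq Δ] [DecidableEq L] in
theorem pc_mem_NN {σ : Perm L} (h : pc 1 σ ∈ X) : pc 1 σ ∈ NN X D :=
  ⟨h, fun _ => Iff.rfl, fun _ _ _ _ => σ.injective.eq_iff⟩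

omit [Fintype Δ] [Fintype L] [DecidableEq Δ] [DecidableEq L] in
theorem pc_mem_EE {α : Perm Δ} (h : pc α 1 ∈ X) (hα : ∀ c, α c ∈ D ↔ c ∈ D) :
    pc α 1 ∈ EE X D :=
  ⟨⟨h, fun x => hα x.1, fun _ _ _ _ => Iff.rfl⟩, fun _ _ => rfl⟩

theorem exists_alt_compl (hD : D.card = 3) {d d' : Δ} (hd : d ∉ D) (hd' : d' ∉ D) :
    ∃ α ∈ alternatingGroup Δ, (∀ c, α c ∈ D ↔ c ∈ D) ∧ ∀ c, c ∉ D → α c = swap d d' c := by
  obtain ⟨p, hp, q, hq, hpq⟩ := Finset.one_lt_card.mp (by omega : 1 < D.card)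
  have h1 : ∀ c, swap d d' c ∈ D ↔ c ∈ D := fun c => by
    rw [swap_apply_def]; split_ifs with h h'
    · simp [h, hd, hd']
    · simp [h', hd, hd']
    · rfl
  have h2 : ∀ c, swap p q c ∈ D ↔ c ∈ D := fun c => by
    rw [swap_apply_def]; split_ifs with h h'
    · simp [h, hp, hq]
    · simp [h', hp, hq]
    · rfl
  obtain ⟨α, hα, rfl | rfl⟩ := exists_alt (swap d d') hpq
  · exact ⟨_, hα, h1, fun _ _ => rfl⟩
  · refine ⟨_, hα, fun c => by rw [Perm.mul_apply, h1, h2], fun c hc => ?_⟩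
    have e1 : c ≠ p := fun e => hc (e ▸ hp)
    have e2 : c ≠ q := fun e => hc (e ▸ hq)
    rw [Perm.mul_apply, swap_apply_of_ne_of_ne e1 e2]

theorem St.conj_move (S : St X T P W) (hD : D.card = 3) {H : Subgroup (Perm (Δ × L))}
    (hH : ∀ n ∈ NN X D, ∀ h ∈ H, n * h * n⁻¹ ∈ H) {g : Perm (Δ × L)} (hg : g ∈ H)
    {d d' : Δ} (hd : d ∉ D) (hd' : d' ∉ D) :
    ∃ g' ∈ H, ∀ c c' z z', c ∉ D → c' ∉ D → g (c, z) = (c', z') →
      g' (swap d d' c, z) = (swap d d' c', z') := by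
  obtain ⟨α, hα, h1, h2⟩ := exists_alt_compl hD hd hd'
  refine ⟨_, hH _ (pc_mem_EE (S.alt α hα) h1).1 g hg, fun c c' z z' hc hc' h => ?_⟩
  rw [← h2 c hc, ← h2 c' hc']
  simp [pc_inv, Perm.mul_apply, h]

theorem St.relH (S : St X T P W) (hD : D.card = 3) {H : Subgroup (Perm (Δ × L))}
    (hle : H ≤ NN X D) (hH : ∀ n ∈ NN X D, ∀ h ∈ H, n * h * n⁻¹ ∈ H) :
    (∀ g ∈ H, ∀ x : Δ × L, x.1 ∉ D → (g x).2 = x.2) ∨
      ∀ d, d ∉ D → ∀ z z', ∃ d', d' ∉ D ∧ ∃ g ∈ H, g (d, z) = (d', z') := by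
  obtain ⟨d₀, hd₀⟩ := exists_not_mem D (by have := S.h5; omega)
  have move : ∀ d d' z z', d ∉ D → d' ∉ D → ∀ g ∈ H, g (d, z) = (d', z') → ∀ e, e ∉ D →
      ∃ e', e' ∉ D ∧ ∃ g ∈ H, g (e, z) = (e', z') := by
    intro d d' z z' hd hd' g hg h e he
    obtain ⟨g', hg', h1⟩ := S.conj_move hD hH hg hd he
    have h2 := h1 _ _ _ _ hd hd' h
    rw [swap_apply_left] at h2
    refine ⟨_, fun h3 => ?_, g', hg', h2⟩
    have := (hle hg').2.1 (e, z)
    rw [h2] at this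
    exact he (this.mp h3)
  rcases S.prim (fun z z' => ∃ d', d' ∉ D ∧ ∃ g ∈ H, g (d₀, z) = (d', z'))
    ⟨fun z => ⟨d₀, hd₀, 1, one_mem _, rfl⟩,
      fun ⟨d', hd', g, hg, h⟩ => move _ _ _ _ hd' hd₀ g⁻¹ (inv_mem hg)
        (by rw [Perm.inv_eq_iff_eq, h]) d₀ hd₀,
      fun ⟨d', hd', g, hg, h⟩ ⟨d'', hd'', g', hg', h'⟩ => by
        obtain ⟨e', he', k, hk, h1⟩ := move _ _ _ _ hd₀ hd'' g' hg' h' d' hd'
        exact ⟨e', he', k * g, mul_mem hk hg, by rw [Perm.mul_apply, h, h1]⟩⟩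
    (fun σ hσ x y ⟨d', hd', g, hg, h⟩ => ⟨d', hd', _, hH _ (pc_mem_NN (S.memP σ hσ)) g hg, by
      simp [pc_inv, Perm.mul_apply, h]⟩) with h | h
  · left
    intro g hg x hx
    have h1 : (g x).1 ∉ D := by rwa [(hle hg).2.1]
    exact (h _ _ (move x.1 (g x).1 x.2 (g x).2 hx h1 g hg rfl d₀ hd₀)).symm
  · right
    intro d hd z z'
    obtain ⟨d', hd', g, hg, h1⟩ := h z z'
    exact move _ _ _ _ hd₀ hd' g hg h1 d hd

theorem St.GG_line (S : St X T P W) (hD : D.card = 3) :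
    ∀ g ∈ GG X D, ∀ x : Δ × L, (g x).2 = x.2 := by
  have h5 := S.h5
  have hL := S.hL
  have hGN : GG X D ≤ NN X D := fun g hg => (GG_le_EE hg).1
  have hH : ∀ n ∈ NN X D, ∀ h ∈ GG X D, n * h * n⁻¹ ∈ GG X D := fun n hn h hh => conj_GG hn hh
  rcases S.relH hD hGN hH with h | h
  · intro g hg x
    by_cases hx : x.1 ∈ D
    · rw [hg.2 x hx]
    · exact h g hg x hx
  exfalso
  obtain ⟨d₀, hd₀⟩ := exists_not_mem D (by omega)
  have move : ∀ d d' z z', d ∉ D → d' ∉ D → (∃ g ∈ GG X D, g (d, z) = (d, z')) →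
      ∃ g ∈ GG X D, g (d', z) = (d', z') := by
    rintro d d' z z' hd hd' ⟨g, hg, h1⟩
    obtain ⟨g', hg', h2⟩ := S.conj_move hD hH hg hd hd'
    have h3 := h2 _ _ _ _ hd hd h1
    rw [swap_apply_left] at h3
    exact ⟨g', hg', h3⟩
  rcases S.prim (fun z z' => ∃ g ∈ GG X D, g (d₀, z) = (d₀, z'))
    ⟨fun z => ⟨1, one_mem _, rfl⟩,
      fun ⟨g, hg, h⟩ => ⟨g⁻¹, inv_mem hg, by rw [Perm.inv_eq_iff_eq, h]⟩,
      fun ⟨g, hg, h⟩ ⟨g', hg', h'⟩ => ⟨g' * g, mul_mem hg' hg, by rw [Perm.mul_apply, h, h']⟩⟩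
    (fun σ hσ x y ⟨g, hg, h⟩ => ⟨_, hH _ (pc_mem_NN (S.memP σ hσ)) g hg, by
      simp [pc_inv, Perm.mul_apply, h]⟩) with h2 | h2
  · have := S.nontrivial
    obtain ⟨z₀⟩ : Nonempty L := inferInstance
    choose F hF k hk hk' using h d₀ hd₀ z₀
    have hinj : Function.Injective F := by
      intro z z' e
      apply h2
      apply move (F z) d₀ z z' (hF z) hd₀
      refine ⟨k z' * (k z)⁻¹, mul_mem (hk z') (inv_mem (hk z)), ?_⟩
      have e' : (k z)⁻¹ (F z, z) = (d₀, z₀) := by rw [Perm.inv_eq_iff_eq, hk' z]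
      rw [Perm.mul_apply, e', hk' z', e]
    have h3 := Finset.card_le_card_of_injOn (s := Finset.univ) (t := Dᶜ) F
      (fun z _ => by simpa using hF z) hinj.injOn
    rw [Finset.card_univ, Finset.card_compl, ← Nat.card_eq_fintype_card,
      ← Nat.card_eq_fintype_card] at h3
    omega
  have h3 : ∀ d, d ∉ D → ∀ z z', ∃ g ∈ GG X D, g (d, z) = (d, z') := fun d hd z z' =>
    move d₀ d z z' hd₀ hd (h2 z z')
  refine S.lemHP (Finset.card_pos.mp (by omega)) ?_ h2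
  by_cases h4 : ∀ g ∈ GG X D, ∀ x : Δ × L, (g x).1 = x.1
  · intro g hg x y hxy
    rw [h4 g hg, h4 g hg, hxy]
  push Not at h4
  obtain ⟨g, hg, x, hx⟩ := h4
  have hxD : x.1 ∉ D := fun e => hx (by rw [hg.2 x e])
  have hgx := GG.notMem hg hxD
  have hto : ∀ y : Δ × L, y.1 ∉ D → ∃ k ∈ GG X D, k x = y := by
    intro y hy
    by_cases e : y.1 = x.1
    · obtain ⟨k, hk, h5⟩ := h3 _ hxD x.2 y.2
      exact ⟨k, hk, by rw [h5, ← e]⟩
    · obtain ⟨g', hg', h5⟩ := S.conj_move hD hH hg hgx hy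
      have h6 := h5 x.1 (g x).1 x.2 (g x).2 hxD hgx rfl
      rw [swap_apply_left, swap_apply_of_ne_of_ne (Ne.symm hx) (Ne.symm e)] at h6
      obtain ⟨k, hk, h7⟩ := h3 _ hy (g x).2 y.2
      exact ⟨k * g', mul_mem hk hg', by rw [Perm.mul_apply, h6, h7]⟩
  apply S.lemFlat hD
  intro y y' hy hy'
  obtain ⟨k, hk, h5⟩ := hto y hy
  obtain ⟨k', hk', h5'⟩ := hto y' hy'
  exact ⟨k' * k⁻¹, mul_mem hk' (inv_mem hk), by rw [Perm.mul_apply, ← h5, ← h5']; simp⟩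

theorem pow_six_mem (hD : D.card = 3) {g : Perm (Δ × L)} (hg : g ∈ EE X D) : g ^ 6 ∈ GG X D := by
  refine ⟨pow_mem hg.1.1 6, fun x hx => ?_⟩
  obtain ⟨f, hf⟩ := exists_hom (EE X D) (fun y (c : D) => y = ((c : Δ), x.2)) (fun c => ⟨_, rfl⟩)
    (fun y c c' h h' => Subtype.ext (Prod.ext_iff.mp (h.symm.trans h')).1)
    (fun g hg c => ⟨⟨(g (c, x.2)).1, (hg.1.2.1 _).mpr c.2⟩, fun y hy => by
      rw [hy]; exact Prod.ext rfl (hg.2 _ c.2)⟩)
  have h1 : f (⟨g, hg⟩ ^ 6) = 1 := by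
    rw [map_pow]
    have : Nat.card (Perm D) = 6 := by
      rw [Nat.card_perm, Nat.card_eq_fintype_card, Fintype.card_coe, hD]; rfl
    rw [← this, pow_card_eq_one']
  have h2 := hf (⟨g, hg⟩ ^ 6) ⟨x.1, hx⟩ x rfl
  rw [h1] at h2
  exact h2

theorem St.EE_line (S : St X T P W) (hD : D.card = 3) :
    ∀ g ∈ EE X D, ∀ x : Δ × L, (g x).2 = x.2 := by
  have h5 := S.h5
  have hL := S.hL
  have := S.nontrivial
  have hG := S.GG_line hD
  rcases S.relH hD (H := EE X D) (fun g hg => hg.1) (fun n hn h hh => conj_EE hn hh) with h | h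
  · intro g hg x
    by_cases hx : x.1 ∈ D
    · exact hg.2 x hx
    · exact h g hg x hx
  exfalso
  obtain ⟨d₀, hd₀⟩ := exists_not_mem D (by omega)
  obtain ⟨z₀, z₁, hz⟩ := exists_pair_ne L
  by_cases hm : Nat.card Δ = 5
  · have h12 : ∀ g ∈ EE X D, g ^ 12 = 1 := by
      intro g hg
      have h1 := pow_six_mem hD hg
      obtain ⟨τ, hτ⟩ := S.lemK h1.1 (hG _ h1)
      have h2 : τ.support ⊆ Dᶜ := by
        intro c hc
        rw [Finset.mem_compl]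
        intro hc'
        have := h1.2 (c, z₀) hc'
        rw [hτ] at this
        exact (mem_support.mp hc) (Prod.ext_iff.mp this).1
      have h3 := Finset.card_le_card h2
      rw [Finset.card_compl, ← Nat.card_eq_fintype_card] at h3
      have h4 : τ ^ 2 = 1 := by
        by_cases h4 : τ.support.card = 2
        · rw [← (card_support_eq_two.mp h4).orderOf, pow_orderOf_eq_one]
        · rw [card_support_le_one.mp (by omega : τ.support.card ≤ 1), one_pow]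
      rw [show 12 = 6 * 2 from rfl, pow_mul, hτ, pc_pow, h4, one_pow, pc_one]
    have horb : orbit (EE X D) (d₀, z₀) = ((Dᶜ ×ˢ Finset.univ : Finset (Δ × L)) : Set (Δ × L)) := by
      ext y
      simp only [Finset.coe_product, Finset.coe_compl, Finset.coe_univ, Set.mem_prod,
        Set.mem_compl_iff, Finset.mem_coe, Set.mem_univ, and_true]
      constructor
      · rintro ⟨g, rfl⟩
        exact fun e => hd₀ ((g.2.1.2.1 (d₀, z₀)).mp e)
      · intro hy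
        obtain ⟨d', hd', g, hg, h1⟩ := h d₀ hd₀ z₀ y.2
        obtain ⟨α, hα, h2, h3⟩ := exists_alt_compl hD hd' hy
        refine ⟨⟨pc α 1 * g, mul_mem (pc_mem_EE (S.alt α hα) h2) hg⟩, ?_⟩
        change pc α 1 (g (d₀, z₀)) = y
        rw [h1, pc_apply, h3 _ hd', swap_apply_left]; rfl
    have h1 : 5 ∣ Nat.card (EE X D) := by
      refine Dvd.dvd.trans ?_ (stabilizer (EE X D) (d₀, z₀)).index_dvd_card
      rw [index_stabilizer, horb, Set.ncard_coe_finset, Finset.card_product, Finset.card_univ,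
        ← Nat.card_eq_fintype_card]
      exact Dvd.dvd.mul_left (S.five hm) _
    have : Fact (Nat.Prime 5) := ⟨by norm_num⟩
    obtain ⟨g, hg⟩ := exists_prime_orderOf_dvd_card' 5 h1
    have h2 : g ^ 12 = 1 := Subtype.ext (h12 g g.2)
    have h3 := orderOf_dvd_of_pow_eq_one h2
    rw [hg] at h3
    omega
  obtain ⟨ρ, hρ⟩ := exists_hom (NN X D) (fun x z => x.1 ∉ D ∧ x.2 = z)
    (fun z => ⟨(d₀, z), hd₀, rfl⟩) (fun x z z' h h' => h.2.symm.trans h'.2)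
    (fun n hn z => ⟨(n (d₀, z)).2, fun x hx => ⟨by rw [hn.2.1]; exact hx.1, by
      obtain ⟨α, hα, h1⟩ := exists_alt_on (swap d₀ x.1) (insert d₀ D) (by
        rw [Finset.card_insert_of_notMem hd₀]; omega)
      have h2 : pc α 1 ∈ GG X D := ⟨S.alt α hα, fun w hw => by
        have e1 : w.1 ≠ d₀ := fun e => hd₀ (e ▸ hw)
        have e2 : w.1 ≠ x.1 := fun e => hx.1 (e ▸ hw)
        exact Prod.ext (by rw [pc_apply, h1 _ (Finset.mem_insert_of_mem hw),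
          swap_apply_of_ne_of_ne e1 e2]) rfl⟩
      have h3 := hG _ (conj_GG hn h2) (n (d₀, z))
      simpa [Perm.mul_apply, h1, ← hx.2] using h3⟩⟩)
  have hρ' : ∀ (n : NN X D) z, ρ n z = ((n : Perm (Δ × L)) (d₀, z)).2 := fun n z =>
    (hρ n z (d₀, z) ⟨hd₀, rfl⟩).2.symm
  have hT := S.norm ρ.range (fun σ hσ => ⟨⟨_, pc_mem_NN (S.memP σ hσ)⟩, by
      ext z; rw [hρ']; rfl⟩) (((EE X D).subgroupOf (NN X D)).map ρ) (Subgroup.map_le_range _ _)
    (fun hb => by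
      obtain ⟨d', hd', g, hg, h1⟩ := h d₀ hd₀ z₀ z₁
      have h2 := (Subgroup.eq_bot_iff_forall _).mp hb _ ⟨⟨g, hg.1⟩, hg, rfl⟩
      have h3 := hρ' ⟨g, hg.1⟩ z₀
      rw [h2, h1] at h3
      exact hz h3)
    (by
      rintro _ ⟨q, rfl⟩ _ ⟨k, hk, rfl⟩
      exact ⟨q * k * q⁻¹, conj_EE q.2 hk, by rw [map_mul, map_mul, map_inv]⟩)
  obtain ⟨t, ht, ht6⟩ := S.exp
  obtain ⟨g, hg, rfl⟩ := hT ht
  apply ht6
  ext z
  rw [← map_pow, hρ']
  exact hG _ (pow_six_mem hD hg) _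

theorem St.main (S : St X T P W) (hD : D.card = 3) {g : Perm (Δ × L)} (hg : g ∈ NN X D) :
    ∃ τ, ∃ σ ∈ W, g = pc τ σ := by
  have h5 := S.h5
  have hL := S.hL
  have := S.nontrivial
  have hE := S.EE_line hD
  obtain ⟨d₀, hd₀⟩ := exists_not_mem D (by omega)
  obtain ⟨a, ha⟩ : D.Nonempty := Finset.card_pos.mp (by omega)
  obtain ⟨lam, hlam⟩ := exists_hom (NN X D) (fun x z => x.1 ∈ D ∧ x.2 = z)
    (fun z => ⟨(a, z), ha, rfl⟩) (fun x z z' h h' => h.2.symm.trans h'.2)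
    (fun n hn z => ⟨(n (a, z)).2, fun x hx => ⟨by rw [hn.2.1]; exact hx.1,
      (hn.2.2 x (a, z) hx.1 ha).mpr hx.2⟩⟩)
  obtain ⟨ρ, hρ⟩ := exists_hom (NN X D) (fun x z => x.1 ∉ D ∧ x.2 = z)
    (fun z => ⟨(d₀, z), hd₀, rfl⟩) (fun x z z' h h' => h.2.symm.trans h'.2)
    (fun n hn z => ⟨(n (d₀, z)).2, fun x hx => ⟨by rw [hn.2.1]; exact hx.1, by
      obtain ⟨α, hα, h1, h2⟩ := exists_alt_compl hD hd₀ hx.1
      have h3 := hE _ (conj_EE hn (pc_mem_EE (S.alt α hα) h1)) (n (d₀, z))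
      simpa [Perm.mul_apply, h2 _ hd₀, ← hx.2] using h3⟩⟩)
  have hker : ∀ n, lam n = 1 → ρ n = 1 := by
    intro n hn
    ext z
    rw [← (hρ n z (d₀, z) ⟨hd₀, rfl⟩).2]
    refine hE _ ⟨n.2, fun x hx => ?_⟩ _
    rw [(hlam n x.2 x ⟨hx, rfl⟩).2, hn]; rfl
  have hker' : ∀ n n', lam n = lam n' → ρ n = ρ n' := by
    intro n n' h
    rw [← mul_inv_eq_one, ← map_inv, ← map_mul]
    apply hker
    rw [map_mul, map_inv, h, mul_inv_cancel]
  have hlP : ∀ σ (hσ : σ ∈ P), lam ⟨_, pc_mem_NN (S.memP σ hσ)⟩ = σ := fun σ hσ => by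
    ext z; rw [← (hlam _ z (a, z) ⟨ha, rfl⟩).2]; rfl
  have hρP : ∀ σ (hσ : σ ∈ P), ρ ⟨_, pc_mem_NN (S.memP σ hσ)⟩ = σ := fun σ hσ => by
    ext z; rw [← (hρ _ z (d₀, z) ⟨hd₀, rfl⟩).2]; rfl
  have hfin : ∀ n, lam n = ρ n → ∃ τ, (n : Perm (Δ × L)) = pc τ (lam n) := by
    intro n hn
    apply S.lemK2 n.2.1
    intro x
    by_cases hx : x.1 ∈ D
    · exact (hlam n x.2 x ⟨hx, rfl⟩).2
    · rw [hn]; exact (hρ n x.2 x ⟨hx, rfl⟩).2
  rcases S.dich lam.range (fun σ hσ => ⟨_, hlP σ hσ⟩) with h | ⟨hA, h9, hno⟩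
  · set n : NN X D := ⟨g, hg⟩ with hn
    have h1 := h _ ⟨n, rfl⟩
    have h2 : ∀ t ∈ T, ρ n * t * (ρ n)⁻¹ = lam n * t * (lam n)⁻¹ := by
      intro t ht
      have h3 := hker' (n * ⟨_, pc_mem_NN (S.memP t (S.TP ht))⟩ * n⁻¹)
        ⟨_, pc_mem_NN (S.memP _ (S.TP (h1.2 t ht)))⟩ (by
          rw [map_mul, map_mul, map_inv, hlP _ (S.TP ht), hlP _ (S.TP (h1.2 t ht))])
      rwa [map_mul, map_mul, map_inv, hρP _ (S.TP ht), hρP _ (S.TP (h1.2 t ht))] at h3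
    obtain ⟨τ, hτ⟩ := hfin n (by
      ext z
      have h3 := S.fix z ((lam n)⁻¹ (ρ n z)) (fun t ht htz => by
        have h4 := congrArg (fun s : Perm L => (lam n)⁻¹ (s (ρ n z))) (h2 t ht)
        simpa [Perm.mul_apply, htz] using h4.symm)
      rw [Perm.inv_eq_iff_eq] at h3
      exact h3.symm)
    exact ⟨τ, _, h1.1, hτ⟩
  exfalso
  have hTA : T ≤ alternatingGroup L := by
    rw [← S.perf]
    exact (Subgroup.commutator_mono le_top le_top).trans alternatingGroup.commutator_perm_le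
  have hfix : ∀ z n, ρ n z = z → lam n z = z := by
    intro z
    have hidx : (((stabilizer (Perm L) z).comap ρ).map lam).index ≤ 2 * Nat.card L := by
      rw [Subgroup.index_map, mul_comm]
      refine Nat.mul_le_mul (H3.SymIndex.index_le_two_of_alt_le _ hA) ?_
      refine (Subgroup.index_antitone le_sup_left).trans ?_
      rw [Subgroup.index_comap]
      refine (Subgroup.relIndex_le_of_le_right le_top (by
        rw [Subgroup.relIndex_top_right]; exact Subgroup.index_ne_zero_of_finite)).trans ?_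
      rw [Subgroup.relIndex_top_right, index_stabilizer_of_transitive]
    rcases alt_le_or_fix h9 _ hidx with h | ⟨z', h⟩
    · exfalso
      obtain ⟨w, hw⟩ := exists_ne z
      obtain ⟨t, ht, h1⟩ := S.transT z w
      obtain ⟨n, hn, h2⟩ := h (hTA ht)
      have h3 := hker' n _ (h2.trans (hlP t (S.TP ht)).symm)
      rw [hρP _ (S.TP ht)] at h3
      have h4 : ρ n z = z := hn
      rw [h3, h1] at h4
      exact hw h4
    · have h1 : z' = z := S.fix z z' fun t ht htz => h t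
        ⟨⟨_, pc_mem_NN (S.memP t (S.TP ht))⟩, by
          change ρ _ z = z
          rw [hρP _ (S.TP ht), htz], hlP _ (S.TP ht)⟩
      intro n hn
      have h2 := h _ ⟨n, hn, rfl⟩
      rwa [h1] at h2
  have heq : ∀ n, lam n = ρ n := by
    intro n
    ext z
    obtain ⟨t, ht, h1⟩ := S.transT (ρ n z) z
    have h2 := hfix z (⟨_, pc_mem_NN (S.memP t (S.TP ht))⟩ * n) (by
      rw [map_mul, hρP _ (S.TP ht), Perm.mul_apply, h1])
    rw [map_mul, hlP _ (S.TP ht), Perm.mul_apply] at h2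
    exact t.injective (h2.trans h1.symm)
  apply hno
  intro σ hσ
  obtain ⟨n, hn⟩ := hA hσ.mem_alternatingGroup
  obtain ⟨τ, hτ⟩ := hfin n (heq n)
  have h1 : τ ^ 4 ∈ alternatingGroup Δ := by
    rw [mem_alternatingGroup, map_pow]
    rcases Int.units_eq_one_or (sign τ) with h | h <;> rw [h] <;> rfl
  have h2 := mul_mem (inv_mem (S.alt _ h1)) (pow_mem n.2.1 4)
  have h3 : σ ^ 4 = σ := by
    rw [show 4 = 3 + 1 from rfl, pow_succ, ← hσ.orderOf, pow_orderOf_eq_one, one_mul]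
  rwa [hτ, hn, pc_pow, pc_inv, pc_mul, inv_mul_cancel, inv_one, one_mul, h3] at h2

end Cfsg.Agent.H8.PA
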