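import Mathlib
import Cfsg.Agent.H8.PA5
import Cfsg.Agent.H1.Basic

/-! The wreath product in product action: basic properties. -/

set_option autoImplicit false

namespace Cfsg.Agent.H8.PA

open MulAction Equiv Equiv.Perm

section defs
variable {ι Δ : Type*}

/-- the base group -/
def bs : (ι → Perm Δ) →* Perm (ι → Δ) :=
  MonoidHom.mk' (fun τ => Equiv.piCongrRight τ) (fun _ _ => rfl)

@[simp] theorem bs_apply (τ : ι → Perm Δ) (f : ι → Δ) (i : ι) : bs τ f i = τ i (f i) := rfl

theorem bs_injective [Nonempty Δ] : Function.Injective (bs : (ι → Perm Δ) → Perm (ι → Δ)) := by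
  intro τ τ' h
  ext i c
  exact congrArg (fun g : Perm (ι → Δ) => g (fun _ => c) i) h

/-- the wreath product in product action -/
def WW (ι Δ : Type*) : Subgroup (Perm (ι → Δ)) where
  carrier := {σ | ∃ (π : Perm ι) (τ : ι → Perm Δ), ∀ f i, σ f i = τ i (f (π.symm i))}
  one_mem' := ⟨1, 1, fun _ _ => rfl⟩
  mul_mem' := by
    rintro a b ⟨π, τ, h⟩ ⟨π', τ', h'⟩
    exact ⟨π * π', fun i => τ i * τ' (π.symm i), fun f i => by
      rw [Perm.mul_apply, h, h']; rfl⟩
  inv_mem' := by
    rintro a ⟨π, τ, h⟩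
    refine ⟨π⁻¹, fun i => (τ (π i))⁻¹, fun f i => ?_⟩
    have := h (a⁻¹ f) (π i)
    rw [Perm.eq_inv_iff_eq]
    change _ = f (π i)
    simpa using this.symm

theorem bs_mem_WW (τ : ι → Perm Δ) : bs τ ∈ WW ι Δ := ⟨1, τ, fun _ _ => rfl⟩

theorem conj_bs {w : Perm (ι → Δ)} {π : Perm ι} {τ : ι → Perm Δ}
    (h : ∀ f i, w f i = τ i (f (π.symm i))) (β : ι → Perm Δ) :
    w * bs β * w⁻¹ = bs fun i => τ i * β (π.symm i) * (τ i)⁻¹ := by
  rw [mul_inv_eq_iff_eq_mul]
  ext f i
  simp [Perm.mul_apply, h]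

variable [DecidableEq ι]

/-- a permutation acting on one coordinate -/
def ee (i : ι) (α : Perm Δ) : Perm (ι → Δ) := bs (Pi.mulSingle i α)

theorem ee_same (i : ι) (α : Perm Δ) (f : ι → Δ) : ee i α f i = α (f i) := by simp [ee]

theorem ee_ne {i j : ι} (h : j ≠ i) (α : Perm Δ) (f : ι → Δ) : ee i α f j = f j := by
  simp [ee, Pi.mulSingle_eq_of_ne h]

theorem ee_apply (i : ι) (α : Perm Δ) (f : ι → Δ) : ee i α f = Function.update f i (α (f i)) := by
  ext j
  by_cases h : j = i
  · subst h; simp [ee_same]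
  · rw [ee_ne h, Function.update_of_ne h]

theorem ee_mul (i : ι) (α β : Perm Δ) : ee i (α * β) = ee i α * ee i β := by
  rw [ee, ee, ee, ← map_mul, Pi.mulSingle_mul]

theorem ee_one (i : ι) : ee i (1 : Perm Δ) = 1 := by rw [ee, Pi.mulSingle_one, map_one]

theorem ee_inv (i : ι) (α : Perm Δ) : ee i α⁻¹ = (ee i α)⁻¹ := by
  rw [ee, ee, ← map_inv, Pi.mulSingle_inv]

theorem ee_pow (i : ι) (α : Perm Δ) (n : ℕ) : ee i (α ^ n) = (ee i α) ^ n := by
  rw [ee, ee, ← map_pow, Pi.mulSingle_pow]

theorem conj_ee {w : Perm (ι → Δ)} {π : Perm ι} {τ : ι → Perm Δ}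
    (h : ∀ f i, w f i = τ i (f (π.symm i))) (i : ι) (α : Perm Δ) :
    w * ee i α * w⁻¹ = ee (π i) (τ (π i) * α * (τ (π i))⁻¹) := by
  rw [ee, conj_bs h, ee]
  congr 1
  ext1 j
  by_cases hj : j = π i
  · subst hj; simp
  · have : π.symm j ≠ i := fun e => hj (by rw [← e]; simp)
    simp [Pi.mulSingle_eq_of_ne hj, Pi.mulSingle_eq_of_ne this]

end defs

variable {ι Δ : Type*} [Fintype ι] [DecidableEq ι] [Fintype Δ] [DecidableEq Δ]

/-- the socle -/
def TT (ι Δ : Type*) [Fintype Δ] [DecidableEq Δ] : Subgroup (Perm (ι → Δ)) :=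
  (Subgroup.pi Set.univ fun _ => alternatingGroup Δ).map bs

omit [Fintype ι] in
theorem ee_mem_TT (i : ι) {α : Perm Δ} (hα : α ∈ alternatingGroup Δ) : ee i α ∈ TT ι Δ :=
  ⟨_, fun j _ => by
    by_cases h : j = i
    · subst h; simpa using hα
    · rw [Pi.mulSingle_eq_of_ne h]; exact (alternatingGroup Δ).one_mem, rfl⟩

theorem TT_le {N : Subgroup (Perm (ι → Δ))}
    (h : ∀ i, ∀ α ∈ alternatingGroup Δ, ee i α ∈ N) : TT ι Δ ≤ N := by
  rintro _ ⟨τ, hτ, rfl⟩
  exact Subgroup.pi_mem_of_mulSingle_mem (H := N.comap bs) τ fun i => h i _ (hτ i trivial)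

omit [DecidableEq ι] in
theorem TT_perf (h5 : 5 ≤ Nat.card Δ) : ⁅TT ι Δ, TT ι Δ⁆ = TT ι Δ := by
  rw [TT, ← Subgroup.map_commutator, Subgroup.commutator_pi_pi_of_finite]
  simp_rw [commutator_alternatingGroup_eq_self h5]

omit [Fintype ι] [DecidableEq ι] in
theorem TT_trans (h5 : 5 ≤ Nat.card Δ) (x y : ι → Δ) : ∃ t ∈ TT ι Δ, t x = y := by
  choose α hα h using fun i => exists_alt_one (by omega) (x i) (y i)
  exact ⟨bs α, ⟨α, fun i _ => hα i, rfl⟩, funext h⟩

omit [Fintype ι] in
theorem TT_fix (h5 : 5 ≤ Nat.card Δ) (z z' : ι → Δ) (h : ∀ t ∈ TT ι Δ, t z = z → t z' = z') :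
    z' = z := by
  ext i
  by_contra hi
  obtain ⟨c, hc⟩ := exists_not_mem ({z i, z' i} : Finset Δ) (by
    have := Finset.card_le_two (a := z i) (b := z' i); omega)
  simp only [Finset.mem_insert, Finset.mem_singleton, not_or] at hc
  obtain ⟨α, hα, h1, h2⟩ := exists_alt_two (by omega) hi hc.1
  have := congrFun (h _ (ee_mem_TT i hα) (by rw [ee_apply, h1, Function.update_eq_self])) i
  rw [ee_same, h2] at this
  exact hc.2 this

omit [Fintype ι] [DecidableEq ι] in
theorem conj_TT {w t : Perm (ι → Δ)} (hw : w ∈ WW ι Δ) (ht : t ∈ TT ι Δ) :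
    w * t * w⁻¹ ∈ TT ι Δ := by
  obtain ⟨π, τ, h⟩ := hw
  obtain ⟨β, hβ, rfl⟩ := ht
  rw [conj_bs h]
  exact ⟨_, fun i _ => (alternatingGroup.normal).conj_mem _ (hβ _ trivial) _, rfl⟩

omit [Fintype ι] in
theorem TT_exp [Nonempty ι] (h5 : 5 ≤ Nat.card Δ) : ∃ t ∈ TT ι Δ, t ^ 6 ≠ 1 := by
  obtain ⟨i⟩ := ‹Nonempty ι›
  have : Fact (Nat.Prime 5) := ⟨by norm_num⟩
  have : Nontrivial Δ := Finite.one_lt_card_iff_nontrivial.mp (by omega)
  obtain ⟨g, hg⟩ := exists_prime_orderOf_dvd_card' (G := alternatingGroup Δ) 5 (by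
    have h1 := two_mul_nat_card_alternatingGroup (α := Δ)
    have h2 : 5 ∣ Nat.card (Perm Δ) := by
      rw [Nat.card_perm]; exact Nat.dvd_factorial (by norm_num) h5
    omega)
  refine ⟨_, ee_mem_TT i g.2, fun h => ?_⟩
  rw [← ee_pow, ← ee_one i] at h
  have h1 := congrFun (bs_injective h) i
  simp only [Pi.mulSingle_eq_same] at h1
  have h2 : g ^ 6 = 1 := Subtype.ext h1
  have := orderOf_dvd_of_pow_eq_one h2
  rw [hg] at this
  omega

/-- the hypothesis: contains the socle and elements swapping any two coordinates -/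
def Hyp (X : Subgroup (Perm (ι → Δ))) : Prop :=
  TT ι Δ ≤ X ∧ ∀ i j, i ≠ j → ∃ g ∈ X, ∃ τ : ι → Perm Δ, (∀ l, l ≠ i → l ≠ j → τ l = 1) ∧
    ∀ f l, g f l = τ l (f ((swap i j).symm l))

omit [Fintype ι] in
theorem Hyp.mono {X Y : Subgroup (Perm (ι → Δ))} (h : Hyp X) (hXY : X ≤ Y) : Hyp Y :=
  ⟨h.1.trans hXY, fun i j hij => by
    obtain ⟨g, hg, h1⟩ := h.2 i j hij
    exact ⟨g, hXY hg, h1⟩⟩

theorem Hyp.prim (h5 : 5 ≤ Nat.card Δ) {X : Subgroup (Perm (ι → Δ))} (h : Hyp X) : Prim X := by
  intro r hr hi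
  by_cases hne : ∀ x y, r x y → x = y
  · exact Or.inl hne
  right
  push Not at hne
  obtain ⟨x, y, hxy, hne⟩ := hne
  obtain ⟨i, hxi⟩ := Function.ne_iff.mp hne
  have hee : ∀ j, ∀ α ∈ alternatingGroup Δ, ∀ x y, r x y → r (ee j α x) (ee j α y) :=
    fun j α hα => hi _ (h.1 (ee_mem_TT j hα))
  have h1 : ∀ c, r y (Function.update y i c) := by
    have h2 : ∀ c, c ≠ x i → r y (Function.update y i c) := by
      intro c hc
      obtain ⟨α, hα, h3, h4⟩ := exists_alt_two (by omega) hxi.symm hc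
      have := hee i α hα _ _ hxy
      rw [ee_apply, ee_apply, h3, h4, Function.update_eq_self] at this
      exact hr.trans (hr.symm hxy) this
    obtain ⟨c₀, hc₀⟩ := exists_not_mem ({x i, y i} : Finset Δ) (by
      have := Finset.card_le_two (a := x i) (b := y i); omega)
    simp only [Finset.mem_insert, Finset.mem_singleton, not_or] at hc₀
    intro c
    by_cases hc : c = x i
    · obtain ⟨α, hα, h3, h4⟩ := exists_alt_two (by omega) hc₀.2 hxi
      have := hee i α hα _ _ (h2 c₀ hc₀.1)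
      rw [ee_apply, ee_apply, h3, Function.update_eq_self, Function.update_self, h4,
        Function.update_idem] at this
      rwa [hc]
    · exact h2 c hc
  have h2 : ∀ w c, r w (Function.update w i c) := by
    intro w c
    obtain ⟨_, ⟨β, hβ, rfl⟩, h3⟩ := TT_trans h5 y w
    have := hi _ (h.1 ⟨β, hβ, rfl⟩) _ _ (h1 ((β i)⁻¹ c))
    rw [h3] at this
    convert this using 1
    ext l
    by_cases hl : l = i
    · subst hl; simp
    · simp [hl, ← h3]
  have h3 : ∀ j w c, r w (Function.update w j c) := by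
    intro j w c
    by_cases hj : i = j
    · exact hj ▸ h2 w c
    obtain ⟨g, hg, τ, -, h4⟩ := h.2 i j hj
    have := hi g hg _ _ (h2 (g⁻¹ w) ((τ j)⁻¹ c))
    convert this using 1
    · simp
    ext l
    rw [h4]
    by_cases hl : l = j
    · subst hl; simp
    · have : (swap i j).symm l ≠ i := by
        rw [Ne, Equiv.symm_apply_eq, swap_apply_left]; exact hl
      rw [Function.update_of_ne hl, Function.update_of_ne this, ← h4]; simp
  intro a b
  have key : ∀ s : Finset ι, r a (s.piecewise b a) := by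
    intro s
    induction s using Finset.induction_on with
    | empty => simpa using hr.refl a
    | insert j s _ ih => rw [Finset.piecewise_insert]; exact hr.trans ih (h3 _ _ _)
  simpa using key Finset.univ

theorem TT_le_alt (h5 : 5 ≤ Nat.card Δ) : TT ι Δ ≤ alternatingGroup (ι → Δ) := by
  rw [← TT_perf h5]
  exact (Subgroup.commutator_mono le_top le_top).trans alternatingGroup.commutator_perm_le

theorem card_le_card_pi [Nonempty ι] (h5 : 5 ≤ Nat.card Δ) : Nat.card Δ ≤ Nat.card (ι → Δ) :=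
  Nat.card_le_card_of_injective (fun c (_ : ι) => c) fun _ _ h =>
    congrFun h (Classical.arbitrary ι)

theorem Hyp.norm [Nonempty ι] (h5 : 5 ≤ Nat.card Δ) {Q : Subgroup (Perm (ι → Δ))} (h : Hyp Q)
    (hd : Q ≤ WW ι Δ ∨ alternatingGroup (ι → Δ) ≤ Q) (N : Subgroup (Perm (ι → Δ))) (hN : N ≤ Q)
    (hne : N ≠ ⊥) (hn : ∀ q ∈ Q, ∀ n ∈ N, q * n * q⁻¹ ∈ N) : TT ι Δ ≤ N := by
  rcases hd with hd | hd
  swap
  · exact (TT_le_alt h5).trans (alt_le_of_normalized (h5.trans (card_le_card_pi h5)) N hne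
      fun α hα => hn α (hd hα))
  obtain ⟨⟨n, hnN⟩, hn1⟩ := Subgroup.ne_bot_iff_exists_ne_one.mp hne
  have hn1' : n ≠ 1 := fun e => hn1 (Subtype.ext e)
  obtain ⟨t, ht, hc⟩ : ∃ t ∈ TT ι Δ, t * n * t⁻¹ * n⁻¹ ≠ 1 := by
    by_contra hc
    push Not at hc
    apply hn1'
    ext1 z
    refine TT_fix h5 z (n z) fun t ht htz => ?_
    have h1 : t * n = n * t := by
      rw [← mul_inv_eq_iff_eq_mul, ← mul_inv_eq_one]; exact hc t ht
    rw [← Perm.mul_apply, h1, Perm.mul_apply, htz]
  have h1 : t * n * t⁻¹ * n⁻¹ ∈ N := mul_mem (hn t (h.1 ht) n hnN) (inv_mem hnN)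
  have h2 : t * n * t⁻¹ * n⁻¹ ∈ TT ι Δ := by
    have := mul_mem ht (conj_TT (hd (hN hnN)) (inv_mem ht))
    simpa only [mul_assoc] using this
  obtain ⟨β, -, hβ⟩ := h2
  rw [← hβ] at hc h1
  obtain ⟨i, hi⟩ : ∃ i, β i ≠ 1 := by
    by_contra h3
    push Not at h3
    exact hc (by rw [show β = 1 from funext h3, map_one])
  have h3 : ∀ α ∈ alternatingGroup Δ, ee i α ∈ N := by
    intro α hα
    refine alt_le_of_normalized h5 (N.comap (bs.comp (MonoidHom.mulSingle (fun _ => Perm Δ) i)))
      ?_ ?_ hα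
    · intro hb
      apply hi
      apply eq_one_of_comm_alt (by omega)
      intro γ hγ
      have h4 : β i * γ * (β i)⁻¹ * γ⁻¹ ∈
          N.comap (bs.comp (MonoidHom.mulSingle (fun _ => Perm Δ) i)) := by
        change ee i _ ∈ N
        have h5 := conj_ee (w := bs β) (π := 1) (τ := β) (fun _ _ => rfl) i γ
        simp only [Perm.one_apply] at h5
        rw [ee_mul, ← h5, ee_inv]
        have := mul_mem h1 (hn _ (h.1 (ee_mem_TT i hγ)) _ (inv_mem h1))
        simpa only [mul_assoc] using this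
      rw [hb, Subgroup.mem_bot, mul_inv_eq_one, mul_inv_eq_iff_eq_mul] at h4
      exact h4
    · intro γ hγ n hn'
      change ee i _ ∈ N
      rw [ee_mul, ee_mul, ee_inv]
      exact hn _ (h.1 (ee_mem_TT i hγ)) _ hn'
  refine TT_le fun j α hα => ?_
  by_cases hj : i = j
  · exact hj ▸ h3 α hα
  obtain ⟨g, hg, τ, -, h4⟩ := h.2 i j hj
  have h5 := hn g hg _ (h3 ((τ j)⁻¹ * α * τ j)
    (by simpa using (alternatingGroup.normal).conj_mem _ hα (τ j)⁻¹))
  rw [conj_ee h4, swap_apply_left] at h5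
  simpa [mul_assoc] using h5

theorem hammingDist_split (x y : ι → Δ) (i : ι) : hammingDist x y =
    ((Finset.univ.erase i).filter fun l => x l ≠ y l).card + if x i ≠ y i then 1 else 0 := by
  rw [hammingDist]
  conv_lhs => rw [← Finset.insert_erase (Finset.mem_univ i), Finset.filter_insert]
  split_ifs with h
  · rw [Finset.card_insert_of_notMem (by simp)]
  · rfl

theorem hammingDist_update {x y : ι → Δ} {i : ι} {c : Δ} (hc : c ≠ x i) :
    hammingDist y (Function.update x i c) + 1 = hammingDist y x ↔ y i = c := by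
  rw [hammingDist_split y _ i, hammingDist_split y x i, Function.update_self]
  have : ((Finset.univ.erase i).filter fun l => y l ≠ Function.update x i c l) =
      (Finset.univ.erase i).filter fun l => y l ≠ x l :=
    Finset.filter_congr fun l hl => by rw [Function.update_of_ne (Finset.mem_erase.mp hl).1]
  rw [this]
  by_cases h : y i = c
  · have : y i ≠ x i := h ▸ hc
    simp [h, hc]
  · simp only [h, ne_eq, not_false_eq_true, if_true, iff_false]
    split_ifs <;> omega

/-- isometries of the Hamming space -/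
theorem mem_WW_of_dist [Nontrivial Δ] {g : Perm (ι → Δ)}
    (hg : ∀ x y, hammingDist (g x) (g y) = hammingDist x y) : g ∈ WW ι Δ := by
  have key : ∀ i c, ∃ j c', ∀ y, y i = c ↔ g y j = c' := by
    intro i c
    obtain ⟨b, hb⟩ := exists_ne c
    set x : ι → Δ := fun _ => b with hx
    have h1 : hammingDist (g (Function.update x i c)) (g x) = 1 := by
      rw [hg, ← (hammingDist_update (x := x) (y := Function.update x i c) (i := i) hb.symm).mpr
        (by simp)]
      simp
    obtain ⟨j, hj⟩ := Finset.card_eq_one.mp h1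
    have h2 : ∀ l, g (Function.update x i c) l ≠ g x l ↔ l = j := fun l => by
      rw [← Finset.mem_singleton, ← hj]; simp
    have h3 : g (Function.update x i c) =
        Function.update (g x) j (g (Function.update x i c) j) := by
      ext l
      by_cases hl : l = j
      · subst hl; simp
      · rw [Function.update_of_ne hl]
        by_contra e
        exact hl ((h2 l).mp e)
    refine ⟨j, g (Function.update x i c) j, fun y => ?_⟩
    rw [← hammingDist_update (x := x) hb.symm, ← hammingDist_update ((h2 j).mpr rfl), ← h3, hg, hg]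
  choose J C hJ using key
  obtain ⟨c₀, c₁, hc⟩ := exists_pair_ne Δ
  have hJc : ∀ i c, J i c = J i c₀ := by
    intro i c
    by_contra e
    set w : ι → Δ := Function.update (fun _ => C i c₀) (J i c) (C i c) with hw
    have e1 := (hJ i c (g⁻¹ w)).mpr (by simp [hw])
    have e2 := (hJ i c₀ (g⁻¹ w)).mpr (by simp [hw, Function.update_of_ne (Ne.symm e)])
    exact e (by rw [← e1, ← e2])
  have hJ' : ∀ i y, g y (J i c₀) = C i (y i) := fun i y => by
    rw [← hJc i (y i)]; exact (hJ i _ y).mp rfl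
  have hC : ∀ i, Function.Injective (C i) := by
    intro i c c' e
    have := (hJ i c' (fun _ => c)).mpr (by rw [hJc, hJ', e])
    exact this
  have hJi : Function.Injective fun i => J i c₀ := by
    intro i i' e
    by_contra hii
    have e1 := hJ' i (Function.update (fun _ => c₀) i c₁)
    have e2 := hJ' i' (Function.update (fun _ => c₀) i c₁)
    have e3 := hJ' i (fun _ => c₀)
    have e4 := hJ' i' (fun _ => c₀)
    simp only at e
    rw [Function.update_of_ne (Ne.symm hii)] at e2
    rw [Function.update_self, e, e2, ← e4, ← e, e3] at e1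
    exact hc (hC i e1)
  set π := Equiv.ofBijective _ hJi.bijective_of_finite with hπ
  refine ⟨π, fun l => Equiv.ofBijective _ (hC (π.symm l)).bijective_of_finite, fun f l => ?_⟩
  have := hJ' (π.symm l) f
  have e : J (π.symm l) c₀ = l := π.apply_symm_apply l
  rw [e] at this
  exact this

theorem card_fix_bs (τ : ι → Perm Δ) :
    (bs τ).supportᶜ.card = ∏ i, (τ i).supportᶜ.card := by
  rw [← Fintype.card_piFinset]
  congr 1
  ext f
  simp [Fintype.mem_piFinset, funext_iff]

theorem three_le_support {τ : Perm Δ} (h1 : τ ≠ 1) (h3 : τ ^ 3 = 1) : 3 ≤ τ.support.card := by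
  have h2 := two_le_card_support_of_ne_one h1
  by_contra h
  have h4 := (card_support_eq_two.mp (by omega : τ.support.card = 2)).orderOf
  have := orderOf_dvd_of_pow_eq_one h3
  rw [h4] at this
  omega

/-- elements of the wreath product of order three with many fixed points -/
theorem eq_ee_of_card (h5 : 5 ≤ Nat.card Δ) {v : Perm (ι → Δ)} (hv : v ∈ WW ι Δ) (h3 : v ^ 3 = 1)
    {i₀ : ι} {c : Perm Δ} (hc : c.IsThreeCycle) (hs : v.support.card = (ee i₀ c).support.card) :
    ∃ i, ∃ c' : Perm Δ, c'.IsThreeCycle ∧ v = ee i c' := by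
  rw [Nat.card_eq_fintype_card] at h5
  set m := Fintype.card Δ with hm
  set M := m ^ (Fintype.card ι - 1) with hM
  have hMpos : 0 < M := by positivity
  have hprod : ∀ i : ι, ∏ _l ∈ Finset.univ.erase i, m = M := fun i => by
    rw [Finset.prod_const, Finset.card_erase_of_mem (Finset.mem_univ _), Finset.card_univ]
  have h1 : v.supportᶜ.card = (m - 3) * M := by
    rw [Finset.card_compl, hs, ← Finset.card_compl, ee, card_fix_bs,
      ← Finset.mul_prod_erase _ _ (Finset.mem_univ i₀), ← hprod i₀]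
    congr 1
    · simp [Finset.card_compl, hc.card_support, hm]
    · refine Finset.prod_congr rfl fun l hl => ?_
      simp [Pi.mulSingle_eq_of_ne (Finset.mem_erase.mp hl).1, hm]
  obtain ⟨π, τ, h⟩ := hv
  by_cases hπ : π = 1
  swap
  · exfalso
    obtain ⟨i, hi⟩ : ∃ i, π.symm i ≠ i := by
      by_contra e
      push Not at e
      apply hπ
      ext i
      rw [← e (π i)]; simp
    have h2 := Finset.card_le_card_of_injOn (s := v.supportᶜ)
      (t := (Finset.univ : Finset ({l // l ≠ i} → Δ))) (fun f l => f l) (fun _ _ => by simp)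
      (fun f hf f' hf' e => by
        simp only [Finset.coe_compl, Set.mem_compl_iff, Finset.mem_coe, mem_support,
          not_not] at hf hf'
        have e1 : ∀ l, l ≠ i → f l = f' l := fun l hl => congrFun e ⟨l, hl⟩
        ext l
        by_cases hl : l = i
        · rw [hl, ← hf, ← hf', h, h, e1 _ hi]
        · exact e1 l hl)
    rw [h1, Finset.card_univ, Fintype.card_fun, Fintype.card_subtype_compl,
      Fintype.card_subtype_eq, ← hm, ← hM] at h2
    have : 2 * M ≤ (m - 3) * M := Nat.mul_le_mul_right _ (by omega)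
    omega
  have hv : v = bs τ := by ext f i; rw [h, hπ]; rfl
  have : Nonempty Δ := Fintype.card_pos_iff.mp (by omega)
  have h4 : ∀ l, τ l ^ 3 = 1 := fun l => by
    rw [hv, ← map_pow, ← map_one bs] at h3
    exact congrFun (bs_injective h3) l
  have hle : ∀ l, (τ l).supportᶜ.card ≤ m := fun l => Finset.card_le_univ _
  have hle' : ∀ l, τ l ≠ 1 → (τ l).supportᶜ.card ≤ m - 3 := fun l hl => by
    have := three_le_support hl (h4 l)
    rw [Finset.card_compl]; omega
  rw [hv, card_fix_bs] at h1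
  obtain ⟨i, hi⟩ : ∃ i, τ i ≠ 1 := by
    by_contra e
    push Not at e
    rw [← Finset.mul_prod_erase _ _ (Finset.mem_univ i₀)] at h1
    simp only [e, support_one, Finset.compl_empty, Finset.card_univ, ← hm, hprod] at h1
    have := Nat.eq_of_mul_eq_mul_right hMpos h1
    omega
  rw [← Finset.mul_prod_erase _ _ (Finset.mem_univ i)] at h1
  have h6 : ∀ l, l ≠ i → τ l = 1 := by
    intro l hl
    by_contra e
    have hl' : l ∈ Finset.univ.erase i := by simp [hl]
    have h7 : ∏ x ∈ Finset.univ.erase i, (τ x).supportᶜ.card < M := by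
      rw [← hprod i, ← Finset.mul_prod_erase _ _ hl', ← Finset.mul_prod_erase _ _ hl']
      refine Nat.mul_lt_mul_of_lt_of_le (by have := hle' l e; omega)
        (Finset.prod_le_prod' fun x _ => hle x) (Finset.prod_pos fun _ _ => by omega)
    have h8 := Nat.mul_lt_mul_of_le_of_lt (hle' i hi) h7 (by omega)
    omega
  refine ⟨i, τ i, ?_, ?_⟩
  · have h7 : ∏ x ∈ Finset.univ.erase i, (τ x).supportᶜ.card = M := by
      rw [← hprod i]
      exact Finset.prod_congr rfl fun l hl => by simp [h6 l (Finset.mem_erase.mp hl).1, hm]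
    rw [h7, Finset.card_compl] at h1
    have h8 := Nat.eq_of_mul_eq_mul_right hMpos h1
    have h9 := Finset.card_le_univ (τ i).support
    rw [← card_support_eq_three_iff]
    omega
  · rw [hv, ee]
    congr 1
    ext1 l
    by_cases hl : l = i
    · subst hl; simp
    · rw [Pi.mulSingle_eq_of_ne hl, h6 l hl]

/-- Gleason's lemma -/
theorem gleason_one {G S : Type*} [Group G] [MulAction G S] [Finite S] (H : Subgroup G)
    (h : ∀ γ : S, ∃ U ∈ H, U ^ 3 = 1 ∧ ∀ γ' : S, U • γ' = γ' ↔ γ' = γ) (γ γ' : S) :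
    ∃ k ∈ H, k • γ = γ' := by
  classical
  by_contra hc
  have : Fact (Nat.Prime 3) := ⟨by norm_num⟩
  have key : ∀ δ : S, (orbit H γ).ncard ≡ (orbit H γ ∩ {δ}).ncard [MOD 3] := by
    intro δ
    obtain ⟨U, hU, h3, h1⟩ := h δ
    have h2 := H1.Basic.card_modEq_of_invariant (p := 3) (Subgroup.zpowers U)
      (IsPGroup.of_card (n := if U = 1 then 0 else 1) (by
        rw [Nat.card_zpowers]
        split_ifs with e
        · simp [e]
        · rw [pow_one]; exact orderOf_eq_prime h3 e)) (orbit H γ)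
      (fun g hg x hx => mem_orbit_of_mem_orbit
        (⟨g, (Subgroup.zpowers_le.mpr hU) hg⟩ : H) hx)
    convert h2 using 3
    ext x
    rw [Set.mem_singleton_iff, ← h1, mem_fixedPoints]
    constructor
    · intro e g
      exact (Subgroup.zpowers_le (H := stabilizer G x)).mpr e g.2
    · intro e
      exact e ⟨U, Subgroup.mem_zpowers U⟩
  have h1 := key γ
  have h2 := key γ'
  have h3 : γ' ∉ orbit H γ := fun ⟨k, hk⟩ => hc ⟨k, k.2, hk⟩
  rw [Set.inter_singleton_eq_empty.mpr h3, Set.ncard_empty] at h2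
  rw [Set.inter_eq_right.mpr (Set.singleton_subset_iff.mpr (mem_orbit_self γ)),
    Set.ncard_singleton] at h1
  exact absurd (h1.symm.trans h2) (by decide)

end Cfsg.Agent.H8.PA
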