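import Mathlib
import Cfsg.Agent.H8.PA6

/-! Overgroups of the socle of the wreath product in product action. -/

set_option autoImplicit false

namespace Cfsg.Agent.H8.PA

open MulAction Equiv Equiv.Perm

section defs
variable {ι Δ : Type*}

/-- the element of the wreath product with given components -/
def wr (π : Perm ι) (τ : ι → Perm Δ) : Perm (ι → Δ) where
  toFun f i := τ i (f (π.symm i))
  invFun f i := (τ (π i))⁻¹ (f (π i))
  left_inv f := by ext i; simp
  right_inv f := by ext i; simp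

theorem wr_apply (π : Perm ι) (τ : ι → Perm Δ) (f : ι → Δ) (i : ι) :
    wr π τ f i = τ i (f (π.symm i)) := rfl

theorem mem_WW_of_unique (u : Unique ι) (σ : Perm (ι → Δ)) : σ ∈ WW ι Δ := by
  refine ⟨1, fun _ => (Equiv.funUnique _ Δ).permCongr σ, fun f i => ?_⟩
  have e : (Equiv.funUnique ι Δ).symm (f i) = f := by
    ext k; rw [Subsingleton.elim i k]; rfl
  change _ = σ ((Equiv.funUnique ι Δ).symm (f i)) default
  rw [e, Subsingleton.elim default i]

variable [DecidableEq ι] (i₀ : ι)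

/-- transport of permutations -/
def back : Perm (Δ × ({j // j ≠ i₀} → Δ)) ≃* Perm (ι → Δ) := (funSplitAt i₀ Δ).symm.permCongrHom

theorem back_same (g : Perm (Δ × ({j // j ≠ i₀} → Δ))) (f : ι → Δ) :
    back i₀ g f i₀ = (g (f i₀, fun l => f l)).1 := by
  simp [back, funSplitAt, piSplitAt]

theorem back_ne (g : Perm (Δ × ({j // j ≠ i₀} → Δ))) (f : ι → Δ) {j : ι} (h : j ≠ i₀) :
    back i₀ g f j = (g (f i₀, fun l => f l)).2 ⟨j, h⟩ := by
  simp [back, funSplitAt, piSplitAt, h]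

theorem symm_same (x : Δ × ({j // j ≠ i₀} → Δ)) : (funSplitAt i₀ Δ).symm x i₀ = x.1 := by
  simp [funSplitAt, piSplitAt]

theorem symm_ne (x : Δ × ({j // j ≠ i₀} → Δ)) (j : {j // j ≠ i₀}) :
    (funSplitAt i₀ Δ).symm x j = x.2 j := by
  simp [funSplitAt, piSplitAt, j.2]

theorem back_symm_apply (g : Perm (ι → Δ)) (x : Δ × ({j // j ≠ i₀} → Δ)) :
    (back i₀).symm g x = funSplitAt i₀ Δ (g ((funSplitAt i₀ Δ).symm x)) := rfl

theorem back_pc_one (α : Perm Δ) : back i₀ (pc α 1) = ee i₀ α := by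
  ext f j
  by_cases h : j = i₀
  · rw [h, back_same, ee_same]; rfl
  · rw [back_ne _ _ _ h, ee_ne h]; rfl

theorem back_pc_ee (j : {j // j ≠ i₀}) (α : Perm Δ) : back i₀ (pc 1 (ee j α)) = ee (j : ι) α := by
  ext f l
  by_cases h : l = i₀
  · rw [h, back_same, ee_ne j.2.symm]; rfl
  · rw [back_ne _ _ _ h]
    by_cases h' : l = j
    · have : (⟨l, h⟩ : {j // j ≠ i₀}) = j := Subtype.ext h'
      rw [this, h', ee_same]
      exact ee_same j α _
    · have : (⟨l, h⟩ : {j // j ≠ i₀}) ≠ j := fun e => h' (congrArg Subtype.val e)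
      rw [ee_ne h']
      exact ee_ne this α _

theorem back_pc_mem (τ : Perm Δ) {σ : Perm ({j // j ≠ i₀} → Δ)} (hσ : σ ∈ WW _ Δ) :
    back i₀ (pc τ σ) ∈ WW ι Δ := by
  obtain ⟨π, β, h⟩ := hσ
  refine ⟨Perm.ofSubtype π, fun l => if hl : l = i₀ then τ else β ⟨l, hl⟩, fun f l => ?_⟩
  have e : (Perm.ofSubtype π).symm l = Perm.ofSubtype π⁻¹ l := by rw [map_inv]; rfl
  rw [e]
  by_cases hl : l = i₀
  · rw [hl, back_same, Perm.ofSubtype_apply_of_not_mem _ (by simp)]; simp
  · rw [back_ne _ _ _ hl, Perm.ofSubtype_apply_of_mem (p := fun j => j ≠ i₀) _ hl]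
    simp [hl, h]

/-- the transported group -/
def tr (X : Subgroup (Perm (ι → Δ))) : Subgroup (Perm (Δ × ({j // j ≠ i₀} → Δ))) :=
  X.comap (back i₀).toMonoidHom

theorem mem_tr {X : Subgroup (Perm (ι → Δ))} {g : Perm (Δ × ({j // j ≠ i₀} → Δ))} :
    g ∈ tr i₀ X ↔ back i₀ g ∈ X := Iff.rfl

end defs

/-- the elements acting on the second factor only -/
def PP {Δ L : Type*} (X : Subgroup (Perm (Δ × L))) : Subgroup (Perm L) :=
  X.comap (MonoidHom.mk' (pc 1) fun _ _ => rfl)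

variable {ι Δ : Type*} [Fintype ι] [DecidableEq ι] [Fintype Δ] [DecidableEq Δ]
variable {X : Subgroup (Perm (ι → Δ))}

theorem Hyp.PP (h : Hyp X) (i₀ : ι) : Hyp (PP (tr i₀ X)) := by
  refine ⟨TT_le fun j α hα => ?_, fun i j hij => ?_⟩
  · change back i₀ (pc 1 (ee j α)) ∈ X
    rw [back_pc_ee]
    exact h.1 (ee_mem_TT _ hα)
  · obtain ⟨g, hg, τ, h1, h2⟩ := h.2 i j fun e => hij (Subtype.ext e)
    refine ⟨wr (swap i j) fun l => τ l, ?_, fun l => τ l, fun l hi hj =>
      h1 l (fun e => hi (Subtype.ext e)) (fun e => hj (Subtype.ext e)), fun _ _ => rfl⟩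
    change back i₀ (pc 1 _) ∈ X
    convert hg using 1
    ext f l
    rw [h2]
    by_cases hl : l = i₀
    · rw [hl, back_same, h1 _ i.2.symm j.2.symm, symm_swap,
        swap_apply_of_ne_of_ne i.2.symm j.2.symm]
      rfl
    · rw [back_ne _ _ _ hl, symm_swap]
      change τ l (f (swap i j ⟨l, hl⟩ : {j // j ≠ i₀})) = _
      congr 2
      simp only [swap_apply_def, Subtype.ext_iff]
      split_ifs <;> rfl

theorem Hyp.isPreprimitive (h5 : 5 ≤ Nat.card Δ) (h : Hyp X) : IsPreprimitive X (ι → Δ) :=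
  (h.prim h5).isPreprimitive fun x y => by
    obtain ⟨t, ht, h1⟩ := TT_trans h5 x y
    exact ⟨t, h.1 ht, h1⟩

theorem Hyp.st0 (h5 : 5 ≤ Nat.card Δ) (h : Hyp X) (hA : ¬ alternatingGroup (ι → Δ) ≤ X) (i₀ : ι) :
    St0 (tr i₀ X) (PA.PP (tr i₀ X)) where
  h5 := h5
  alt α hα := by rw [mem_tr, back_pc_one]; exact h.1 (ee_mem_TT _ hα)
  memP _ hσ := hσ
  prim := (h.PP i₀).prim h5
  trans x y := by
    obtain ⟨t, ht, h1⟩ := TT_trans h5 x y
    exact ⟨t, (h.PP i₀).1 ht, h1⟩
  no3 g hg h3 := by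
    by_contra h1
    refine hA (H3.SmallSupport.alt_le_of_support_le_three X (h.isPreprimitive h5) hg
      (fun e => h1 ((map_eq_one_iff _ (back i₀).injective).mp e)) (le_trans ?_ h3))
    apply Finset.card_le_card_of_injOn (funSplitAt i₀ Δ) _ (Equiv.injective _).injOn
    intro f hf
    simp only [Finset.mem_coe, mem_support] at hf ⊢
    intro e
    apply hf
    change (funSplitAt i₀ Δ).symm (g (funSplitAt i₀ Δ f)) = f
    rw [e, Equiv.symm_apply_apply]

theorem nontrivial_sub (h5 : 5 ≤ Nat.card Δ) {i j : ι} (hij : j ≠ i) :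
    Nontrivial ({j // j ≠ i} → Δ) := by
  have : Nonempty {j // j ≠ i} := ⟨⟨j, hij⟩⟩
  have : Nontrivial Δ := Finite.one_lt_card_iff_nontrivial.mp (by omega)
  infer_instance

theorem Hyp.eq_ee (h5 : 5 ≤ Nat.card Δ) (h : Hyp X) (hA : ¬ alternatingGroup (ι → Δ) ≤ X)
    {i j : ι} (hij : j ≠ i) {g : Perm (ι → Δ)} (hg : g ∈ X)
    (hl : ∀ f l, l ≠ i → g f l = f l) : ∃ τ, g = ee i τ := by
  have := nontrivial_sub h5 hij
  obtain ⟨τ, hτ⟩ := (h.st0 h5 hA i).lemK (g := (back i).symm g) (by simpa [mem_tr] using hg)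
    (fun x => by
      ext l
      rw [back_symm_apply, ← symm_ne i x l, ← hl ((funSplitAt i Δ).symm x) _ l.2]
      rfl)
  exact ⟨τ, by rw [← back_pc_one, ← hτ, MulEquiv.apply_symm_apply]⟩

theorem Hyp.st (h5 : 5 ≤ Nat.card Δ) (h : Hyp X) (hA : ¬ alternatingGroup (ι → Δ) ≤ X)
    {i₀ j₀ : ι} (hij : j₀ ≠ i₀)
    (ih : ∀ Q : Subgroup (Perm ({j // j ≠ i₀} → Δ)), Hyp Q → Q ≤ WW _ Δ ∨ alternatingGroup _ ≤ Q) :
    St (tr i₀ X) (TT _ Δ) (PA.PP (tr i₀ X)) (WW _ Δ) := by
  have hne : Nonempty {j // j ≠ i₀} := ⟨⟨j₀, hij⟩⟩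
  have hP := h.PP i₀
  obtain ⟨c₃, hc₃⟩ := exists_threeCycle (Δ := Δ) (by omega)
  refine ⟨h.st0 h5 hA i₀, card_le_card_pi h5, hP.1, TT_trans h5, ?_, TT_perf h5, TT_fix h5,
    fun Q hQ => (hP.mono hQ).norm h5 (ih Q (hP.mono hQ)), TT_exp h5, fun h' => ?_, ?_, ?_⟩
  · refine Prim.isPreprimitive (fun r hr hi => ?_) fun x y => ?_
    · rcases h.prim h5 (fun f f' => r (funSplitAt i₀ Δ f) (funSplitAt i₀ Δ f'))
        ⟨fun _ => hr.refl _, hr.symm, hr.trans⟩ (fun σ hσ f f' hf => by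
          have := hi ((back i₀).symm σ) (by simpa [mem_tr] using hσ) _ _ hf
          simpa only [back_symm_apply, Equiv.symm_apply_apply] using this) with h1 | h1
      · left
        intro x y hxy
        exact (funSplitAt i₀ Δ).symm.injective (h1 _ _ (by
          simpa only [Equiv.apply_symm_apply] using hxy))
      · right
        intro x y
        simpa only [Equiv.apply_symm_apply] using
          h1 ((funSplitAt i₀ Δ).symm x) ((funSplitAt i₀ Δ).symm y)
    · obtain ⟨t, ht, h1⟩ := TT_trans h5 ((funSplitAt i₀ Δ).symm x) ((funSplitAt i₀ Δ).symm y)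
      exact ⟨(back i₀).symm t, by simpa [mem_tr] using h.1 ht, by
        rw [back_symm_apply, h1, Equiv.apply_symm_apply]⟩
  · rw [Nat.card_fun, h']
    exact dvd_pow_self _ Nat.card_pos.ne'
  · intro d hd
    obtain ⟨g, hg, h1⟩ := hd _ (ee_mem_TT ⟨j₀, hij⟩ hc₃.mem_alternatingGroup)
    obtain ⟨τ, hτ⟩ := h.eq_ee h5 hA hij.symm ((mem_tr i₀).mp hg) (fun f l hl => by
      by_cases hl' : l = i₀
      · rw [hl', back_same, h1]
      · rw [back_ne _ _ _ hl', h1]
        split_ifs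
        · exact ee_ne (fun e => hl (congrArg Subtype.val e)) _ _
        · rfl)
    have : Nontrivial Δ := Finite.one_lt_card_iff_nontrivial.mp (by omega)
    obtain ⟨d', hd'⟩ := exists_ne d
    apply hc₃.ne_one
    ext c
    have e1 := congrArg (fun k : Perm (ι → Δ) => k (Function.update (fun _ => c) i₀ d) j₀) hτ
    have e2 := congrArg (fun k : Perm (ι → Δ) => k (Function.update (fun _ => c) i₀ d') j₀) hτ
    simp only [back_ne _ _ _ hij, h1, Function.update_self, ee_same, if_true, hd', if_false,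
      Function.update_of_ne hij] at e1 e2
    rw [e1, ← e2]; rfl
  · intro Q hQ
    by_cases hW : Q ≤ WW _ Δ
    · exact Or.inl fun q hq => ⟨hW hq, fun t ht => conj_TT (hW hq) ht⟩
    right
    obtain ⟨j, l, hjl⟩ : ∃ j l : {j // j ≠ i₀}, j ≠ l := by
      by_contra hc
      push Not at hc
      have : Subsingleton {j // j ≠ i₀} := ⟨hc⟩
      exact hW fun σ _ => mem_WW_of_unique (uniqueOfSubsingleton ⟨j₀, hij⟩) σ
    refine ⟨(ih Q (hP.mono hQ)).resolve_left hW, ?_, fun hall => ?_⟩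
    · have : Nontrivial {j // j ≠ i₀} := ⟨j, l, hjl⟩
      rw [Nat.card_fun]
      calc 9 ≤ 5 ^ 2 := by norm_num
        _ ≤ Nat.card Δ ^ 2 := Nat.pow_le_pow_left h5 _
        _ ≤ _ := Nat.pow_le_pow_right (by omega) (Finite.one_lt_card_iff_nontrivial.mpr this)
    · obtain ⟨a, -⟩ := exists_not_mem (∅ : Finset Δ) (by simp only [Finset.card_empty]; omega)
      obtain ⟨b, hb⟩ := exists_not_mem ({a} : Finset Δ) (by rw [Finset.card_singleton]; omega)
      obtain ⟨c, hc⟩ := exists_not_mem ({a, b} : Finset Δ) (by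
        have := Finset.card_le_two (a := a) (b := b); omega)
      simp only [Finset.mem_insert, Finset.mem_singleton, not_or] at hb hc
      set z : Δ → {j // j ≠ i₀} → Δ := fun p => Function.update (fun _ => a) l p with hz
      have hzi : Function.Injective z := fun p q e => by simpa [hz] using congrFun e l
      have hz' : ∀ p k, k ≠ l → z p k = a := fun p k hk => Function.update_of_ne hk _ _
      have hsw : ∀ p q w k, k ≠ l → swap (z p) (z q) w k = w k := by
        intro p q w k hk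
        rw [swap_apply_def]
        split_ifs with h1 h2
        · rw [h1, hz' _ _ hk, hz' _ _ hk]
        · rw [h2, hz' _ _ hk, hz' _ _ hk]
        · rfl
      have h3 := isThreeCycle_swap_mul_swap_same (hzi.ne (Ne.symm hb)) (hzi.ne (Ne.symm hc.1))
        (hzi.ne (Ne.symm hc.2))
      obtain ⟨τ, hτ⟩ := h.eq_ee h5 hA l.2.symm ((mem_tr i₀).mp (hall _ h3)) (fun f k hk => by
        by_cases hk' : k = i₀
        · rw [hk', back_same]; rfl
        · have : (⟨k, hk'⟩ : {j // j ≠ i₀}) ≠ l := fun e => hk (congrArg Subtype.val e)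
          rw [back_ne _ _ _ hk']
          exact (hsw _ _ _ _ this).trans (hsw _ _ _ _ this))
      have e1 := congrArg (fun k : Perm (ι → Δ) => k (fun _ => a) l) hτ
      have e2 := congrArg (fun k : Perm (ι → Δ) => k (Function.update (fun _ => a) j b) l) hτ
      have e3 : (fun _ : {j // j ≠ i₀} => a) = z a := by simp [hz]
      have hlj : (l : ι) ≠ j := fun e => hjl (Subtype.ext e).symm
      have e4 : ∀ p, (fun k : {j // j ≠ i₀} => Function.update (fun _ => a) (j : ι) b (k : ι)) ≠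
          z p := fun p e => by
        have := congrFun e j
        rw [hz' _ _ hjl, Function.update_self] at this
        exact hb this
      simp only [back_ne _ _ _ l.2, ee_same, pc_apply, Perm.mul_apply,
        Function.update_of_ne hlj] at e1 e2
      rw [swap_apply_of_ne_of_ne (e4 _) (e4 _), swap_apply_of_ne_of_ne (e4 _) (e4 _)] at e2
      simp only [Function.update_of_ne hlj] at e2
      rw [e3, swap_apply_left, swap_apply_of_ne_of_ne (hzi.ne hc.1) (hzi.ne hc.2), ← e2] at e1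
      exact hc.1 (by simpa [hz] using e1)

theorem Hyp.mem_of_comm (h5 : 5 ≤ Nat.card Δ) (h : Hyp X) (hA : ¬ alternatingGroup (ι → Δ) ≤ X)
    {i₀ j₀ : ι} (hij : j₀ ≠ i₀)
    (ih : ∀ Q : Subgroup (Perm ({j // j ≠ i₀} → Δ)), Hyp Q → Q ≤ WW _ Δ ∨ alternatingGroup _ ≤ Q)
    {c : Perm Δ} (hc : c.IsThreeCycle) {g : Perm (ι → Δ)} (hg : g ∈ X)
    (hcomm : g * ee i₀ c = ee i₀ c * g) : g ∈ WW ι Δ := by
  set g' := (back i₀).symm g with hg'
  have h1 : g' * pc c 1 = pc c 1 * g' := by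
    apply (back i₀).injective
    rw [map_mul, map_mul, back_pc_one, hg', MulEquiv.apply_symm_apply, hcomm]
  have key : ∀ k : Perm (Δ × ({j // j ≠ i₀} → Δ)), k * pc c 1 = pc c 1 * k →
      (∀ x, x.1 ∉ c.support → (k x).1 ∉ c.support) ∧
      ∀ x y, x.1 ∈ c.support → y.1 ∈ c.support → x.2 = y.2 → (k x).2 = (k y).2 := by
    intro k hk
    refine ⟨fun x hx => ?_, fun x y hx hy hxy => ?_⟩
    · rw [notMem_support] at hx ⊢
      have h2 : pc c 1 x = x := Prod.ext hx rfl
      have := congrArg (fun s : Perm _ => (s x).1) hk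
      simpa [Perm.mul_apply, h2] using this.symm
    · obtain ⟨n, hn⟩ := hc.isCycle.exists_pow_eq (mem_support.mp hx) (mem_support.mp hy)
      have h2 : y = (pc c 1 ^ n) x := by rw [pc_pow]; exact Prod.ext hn.symm (by simp [hxy])
      have h3 : k * pc c 1 ^ n = pc c 1 ^ n * k := (Commute.pow_right hk n).eq
      rw [h2, ← Perm.mul_apply, h3, pc_pow]
      simp [Perm.mul_apply]
  have k1 := key g' h1
  have k2 := key g'⁻¹ (Commute.inv_left h1).eq
  obtain ⟨τ, σ, hσ, h2⟩ := (h.st h5 hA hij ih).main hc.card_support (g := g')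
    ⟨by simpa [mem_tr, hg'] using hg,
      fun x => ⟨fun e => by_contra fun e' => k1.1 x e' e,
        fun e => by_contra fun e' => k2.1 _ e' (by simpa using e)⟩,
      fun x y hx hy => ⟨fun e => by
        have hx' : (g' x).1 ∈ c.support := by_contra fun e' => k2.1 _ e' (by simpa using hx)
        have hy' : (g' y).1 ∈ c.support := by_contra fun e' => k2.1 _ e' (by simpa using hy)
        simpa using k2.2 _ _ hx' hy' e, k1.2 x y hx hy⟩⟩
  have h3 : g = back i₀ (pc τ σ) := by rw [← h2, hg', MulEquiv.apply_symm_apply]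
  rw [h3]
  exact back_pc_mem i₀ τ hσ

omit [DecidableEq ι] [Fintype Δ] in
theorem dist_of_mem {w : Perm (ι → Δ)} (hw : w ∈ WW ι Δ) (x y : ι → Δ) :
    hammingDist (w x) (w y) = hammingDist x y := by
  obtain ⟨π, τ, h⟩ := hw
  exact Finset.card_equiv π.symm fun i => by simp [h]

theorem Hyp.le_WW (h5 : 5 ≤ Nat.card Δ) (h : Hyp X) {i₀ : ι}
    (hN : ∀ c : Perm Δ, c.IsThreeCycle → ∀ g ∈ X, g * ee i₀ c = ee i₀ c * g → g ∈ WW ι Δ) :
    X ≤ WW ι Δ := by
  have key : ∀ c : Perm Δ, c.IsThreeCycle → ∀ g ∈ X, g * ee i₀ c * g⁻¹ ∈ WW ι Δ → g ∈ WW ι Δ := by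
    intro c hc g hg hw
    obtain ⟨i, c', hc', h1⟩ := eq_ee_of_card h5 hw (by
      rw [conj_pow, ← ee_pow, ← hc.orderOf, pow_orderOf_eq_one, ee_one]; simp) hc
      card_support_conj
    obtain ⟨w, hwX, hwW, c'', hc'', h2⟩ : ∃ w ∈ X, w ∈ WW ι Δ ∧ ∃ c'' : Perm Δ, c''.IsThreeCycle ∧
        w * ee i c' * w⁻¹ = ee i₀ c'' := by
      by_cases hi : i = i₀
      · exact ⟨1, one_mem _, one_mem _, c', hc', by simp [hi]⟩
      · obtain ⟨w, hw, τ, -, h3⟩ := h.2 i i₀ hi
        refine ⟨w, hw, ⟨_, τ, h3⟩, τ i₀ * c' * (τ i₀)⁻¹, ?_, by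
          rw [conj_ee h3, swap_apply_left]⟩
        rw [← card_support_eq_three_iff, card_support_conj, hc'.card_support]
    obtain ⟨α, hα⟩ := isConj_iff.mp (alternatingGroup.isThreeCycle_isConj h5
      (σ := ⟨c'', hc''.mem_alternatingGroup⟩) (τ := ⟨c, hc.mem_alternatingGroup⟩) hc'' hc)
    have h3 : (α : Perm Δ) * c'' * (α : Perm Δ)⁻¹ = c := congrArg Subtype.val hα
    have h4 := hN c hc (ee i₀ α * w * g) (mul_mem (mul_mem (h.1 (ee_mem_TT _ α.2)) hwX) hg) (by
      rw [← mul_inv_eq_iff_eq_mul]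
      calc _ = ee i₀ (α : Perm Δ) * (w * (g * ee i₀ c * g⁻¹) * w⁻¹) * (ee i₀ (α : Perm Δ))⁻¹ := by
            group
        _ = _ := by rw [h1, h2, ← ee_inv, ← ee_mul, ← ee_mul, h3])
    have h6 := mul_mem (inv_mem (mul_mem (bs_mem_WW (Pi.mulSingle i₀ (α : Perm Δ))) hwW)) h4
    simpa [ee, mul_assoc] using h6
  have : Nontrivial Δ := Finite.one_lt_card_iff_nontrivial.mp (by omega)
  intro g hg
  rw [← inv_mem_iff]
  apply mem_WW_of_dist
  intro x y
  obtain ⟨k, hk, h1⟩ := gleason_one (S := X ⧸ (WW ι Δ).subgroupOf X)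
    (stabilizer X x ⊓ stabilizer X y) (fun γ => by
      obtain ⟨g, rfl⟩ := QuotientGroup.mk_surjective γ
      obtain ⟨c, hc, hx, hy⟩ : ∃ c : Perm Δ, c.IsThreeCycle ∧
          c ((g : Perm (ι → Δ))⁻¹ x i₀) = (g : Perm (ι → Δ))⁻¹ x i₀ ∧
          c ((g : Perm (ι → Δ))⁻¹ y i₀) = (g : Perm (ι → Δ))⁻¹ y i₀ := by
        generalize (g : Perm (ι → Δ))⁻¹ x i₀ = p
        generalize (g : Perm (ι → Δ))⁻¹ y i₀ = q
        have c2 := Finset.card_le_two (a := p) (b := q)
        obtain ⟨a, ha⟩ := exists_not_mem ({p, q} : Finset Δ) (by omega)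
        obtain ⟨b, hb⟩ := exists_not_mem (insert a {p, q} : Finset Δ) (by
          have := Finset.card_insert_le a ({p, q} : Finset Δ); omega)
        obtain ⟨c, hc⟩ := exists_not_mem (insert b (insert a {p, q}) : Finset Δ) (by
          have := Finset.card_insert_le a ({p, q} : Finset Δ)
          have := Finset.card_insert_le b (insert a {p, q} : Finset Δ); omega)
        simp only [Finset.mem_insert, Finset.mem_singleton, not_or] at ha hb hc
        refine ⟨_, isThreeCycle_swap_mul_swap_same (Ne.symm hb.1) (Ne.symm hc.2.1) (Ne.symm hc.1),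
          ?_, ?_⟩
        · rw [Perm.mul_apply, swap_apply_of_ne_of_ne (Ne.symm ha.1) (Ne.symm hc.2.2.1),
            swap_apply_of_ne_of_ne (Ne.symm ha.1) (Ne.symm hb.2.1)]
        · rw [Perm.mul_apply, swap_apply_of_ne_of_ne (Ne.symm ha.2) (Ne.symm hc.2.2.2),
            swap_apply_of_ne_of_ne (Ne.symm ha.2) (Ne.symm hb.2.2)]
      set u : X := ⟨ee i₀ c, h.1 (ee_mem_TT _ hc.mem_alternatingGroup)⟩ with hu
      refine ⟨g * u * g⁻¹, ⟨?_, ?_⟩, ?_, fun γ' => ?_⟩
      · change (g : Perm (ι → Δ)) (ee i₀ c ((g : Perm (ι → Δ))⁻¹ x)) = x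
        rw [ee_apply, hx, Function.update_eq_self]; simp
      · change (g : Perm (ι → Δ)) (ee i₀ c ((g : Perm (ι → Δ))⁻¹ y)) = y
        rw [ee_apply, hy, Function.update_eq_self]; simp
      · have : u ^ 3 = 1 := Subtype.ext (by
          change ee i₀ c ^ 3 = 1
          rw [← ee_pow, ← hc.orderOf, pow_orderOf_eq_one, ee_one])
        rw [conj_pow, this]; simp
      · obtain ⟨g', rfl⟩ := QuotientGroup.mk_surjective γ'
        change ((g * u * g⁻¹ * g' : X) : X ⧸ (WW ι Δ).subgroupOf X) = _ ↔ _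
        rw [eq_comm, QuotientGroup.eq, QuotientGroup.eq, Subgroup.mem_subgroupOf,
          Subgroup.mem_subgroupOf]
        constructor
        · intro e
          refine key c hc _ (g'⁻¹ * g).2 ?_
          simpa [hu, mul_assoc] using e
        · intro e
          have := mul_mem (mul_mem e (bs_mem_WW (Pi.mulSingle i₀ c))) (inv_mem e)
          simpa [hu, ee, mul_assoc] using this)
    ((⟨g, hg⟩ : X) : X ⧸ (WW ι Δ).subgroupOf X) ((1 : X) : X ⧸ (WW ι Δ).subgroupOf X)
  change ((k * ⟨g, hg⟩ : X) : X ⧸ (WW ι Δ).subgroupOf X) = _ at h1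
  rw [QuotientGroup.eq, Subgroup.mem_subgroupOf, mul_one] at h1
  have h2 := dist_of_mem h1 x y
  have hx : (k : Perm (ι → Δ))⁻¹ x = x := by rw [Perm.inv_eq_iff_eq]; exact hk.1.symm
  have hy : (k : Perm (ι → Δ))⁻¹ y = y := by rw [Perm.inv_eq_iff_eq]; exact hk.2.symm
  simpa [Perm.mul_apply, hx, hy] using h2

universe u in
theorem main_aux (h5 : 5 ≤ Nat.card Δ) (n : ℕ) : ∀ (ι : Type u) [Fintype ι] [DecidableEq ι],
    Fintype.card ι = n + 1 → ∀ X : Subgroup (Perm (ι → Δ)), Hyp X →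
      X ≤ WW ι Δ ∨ alternatingGroup (ι → Δ) ≤ X := by
  induction n with
  | zero =>
    intro ι _ _ hc X _
    left
    intro σ _
    obtain ⟨u⟩ := Fintype.card_eq_one_iff_nonempty_unique.mp hc
    exact mem_WW_of_unique u σ
  | succ n ih =>
    intro ι _ _ hc X h
    by_cases hA : alternatingGroup (ι → Δ) ≤ X
    · exact Or.inr hA
    left
    obtain ⟨j₀, i₀, hij⟩ := Fintype.exists_pair_of_one_lt_card (α := ι) (by omega)
    exact h.le_WW h5 (i₀ := i₀) fun c hc' g hg hcomm => h.mem_of_comm h5 hA hij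
      (ih _ (by rw [Fintype.card_subtype_compl, Fintype.card_subtype_eq, hc]; rfl)) hc' hg hcomm

/-- a group containing the socle and inducing all permutations of the coordinates lies in the
wreath product or contains the alternating group -/
theorem Hyp.dichotomy [Nonempty ι] (h5 : 5 ≤ Nat.card Δ) (h : Hyp X) :
    X ≤ WW ι Δ ∨ alternatingGroup (ι → Δ) ≤ X :=
  main_aux h5 (Fintype.card ι - 1) ι (by have := Fintype.card_pos (α := ι); omega) X h

end Cfsg.Agent.H8.PA
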