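import Mathlib
import Cfsg.Agent.H8.PA7

/-! Maximality of the wreath product in product action. -/

set_option autoImplicit false

namespace Cfsg.Agent.H8.PA

open MulAction Equiv Equiv.Perm

variable {ι Δ : Type*} [Fintype ι] [DecidableEq ι] [Fintype Δ] [DecidableEq Δ]

theorem sign_ee (i : ι) (α : Perm Δ) :
    sign (ee i α) = sign α ^ (Fintype.card Δ ^ (Fintype.card ι - 1)) := by
  rw [← back_pc_one]
  have : pc α (1 : Perm ({j // j ≠ i} → Δ)) = prodCongrLeft fun _ => α := rfl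
  refine (sign_permCongr _ _).trans ?_
  rw [this, sign_prodCongrLeft, Finset.prod_const, Finset.card_univ, Fintype.card_fun,
    Fintype.card_subtype_compl, Fintype.card_subtype_eq]

theorem sign_wr_swap {i j : ι} (hij : i ≠ j) :
    sign (wr (swap i j) (1 : ι → Perm Δ)) = (-1) ^ ((Fintype.card Δ ^ Fintype.card ι -
      Fintype.card Δ ^ (Fintype.card ι - 1)) / 2) := by
  rw [sign_of_pow_two_eq_one (by ext f l; simp [pow_two, wr_apply]), Fintype.card_fun]
  have e : Function.fixedPoints (wr (swap i j) (1 : ι → Perm Δ)) ≃ ({l // l ≠ i} → Δ) :=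
    { toFun := fun f l => f.1 l
      invFun := fun h => ⟨fun l => if hl : l = i then h ⟨j, hij.symm⟩ else h ⟨l, hl⟩, by
        ext l
        simp only [wr_apply, symm_swap, Pi.one_apply, Perm.one_apply, swap_apply_def]
        by_cases h1 : l = i
        · simp [h1, hij.symm]
        · by_cases h2 : l = j
          · simp [h2, hij.symm]
          · simp [h1, h2]⟩
      left_inv := fun f => by
        ext l
        have := congrFun f.2 i
        simp only [wr_apply, symm_swap, Pi.one_apply, Perm.one_apply, swap_apply_left] at this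
        by_cases h1 : l = i
        · simp [h1, this]
        · simp [h1]
      right_inv := fun h => by ext l; simp [l.2] }
  rw [Fintype.card_congr e, Fintype.card_fun, Fintype.card_subtype_compl, Fintype.card_subtype_eq]

theorem not_alt_le_WW (h5 : 5 ≤ Nat.card Δ) {i j : ι} (hij : i ≠ j) :
    ¬ alternatingGroup (ι → Δ) ≤ WW ι Δ := by
  intro h
  have : Nonempty ι := ⟨i⟩
  have : Nontrivial Δ := Finite.one_lt_card_iff_nontrivial.mp (by omega)
  obtain ⟨a, b, hab⟩ := exists_pair_ne Δ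
  obtain ⟨σ, hσ, h1, h2⟩ := exists_alt_pair (Δ := ι → Δ)
    (by have := card_le_card_pi (ι := ι) h5; omega) (x := fun _ => a)
    (y := Function.update (fun _ => a) i b) (x' := fun _ => a) (y' := fun _ => b)
    (fun e => hab (by simpa using congrFun e i)) (fun e => hab (congrFun e i))
  obtain ⟨π, τ, h3⟩ := h hσ
  obtain ⟨l, hl⟩ : ∃ l, π.symm l ≠ i := ⟨π j, by simpa using hij.symm⟩
  have e1 := congrFun h1 l
  have e2 := congrFun h2 l
  rw [h3] at e1 e2
  rw [Function.update_of_ne hl, e1] at e2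
  exact hab e2

omit [Fintype ι] [DecidableEq ι] in
theorem TT_le_WW : TT ι Δ ≤ WW ι Δ := by
  rintro _ ⟨τ, -, rfl⟩
  exact bs_mem_WW τ

theorem hyp_WW : Hyp (WW ι Δ) :=
  ⟨TT_le_WW, fun i j _ => ⟨wr (swap i j) 1, ⟨swap i j, 1, fun _ _ => rfl⟩, 1, fun _ _ _ => rfl,
    fun _ _ => rfl⟩⟩

theorem hyp_inf (h5 : 5 ≤ Nat.card Δ) (hk : 2 ≤ Fintype.card ι)
    (h : ¬ (Fintype.card ι = 2 ∧ Fintype.card Δ % 4 = 2)) :
    Hyp (WW ι Δ ⊓ alternatingGroup (ι → Δ)) := by
  refine ⟨le_inf TT_le_WW (TT_le_alt h5), fun i j hij => ?_⟩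
  by_cases hs : sign (wr (swap i j) (1 : ι → Perm Δ)) = 1
  · exact ⟨wr (swap i j) 1, ⟨⟨swap i j, 1, fun _ _ => rfl⟩, hs⟩, 1, fun _ _ _ => rfl, fun _ _ => rfl⟩
  have : Nontrivial Δ := Finite.one_lt_card_iff_nontrivial.mp (by omega)
  obtain ⟨a, b, hab⟩ := exists_pair_ne Δ
  have hodd : Odd (Fintype.card Δ) := by
    by_contra he
    rw [Nat.not_odd_iff_even] at he
    obtain ⟨r, hr⟩ := he
    apply hs
    rw [sign_wr_swap hij]
    apply Even.neg_one_pow
    obtain ⟨k, hk'⟩ : ∃ k, Fintype.card ι = k + 2 := ⟨_, (Nat.sub_add_cancel hk).symm⟩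
    rw [hk'] at h ⊢
    generalize Fintype.card Δ = m at *
    have e : (m ^ (k + 2) - m ^ (k + 2 - 1)) / 2 = m ^ k * r * (m - 1) := by
      have : m ^ (k + 2) - m ^ (k + 2 - 1) = m ^ k * r * (m - 1) * 2 := by
        rw [show k + 2 - 1 = k + 1 from rfl, pow_succ _ (k + 1), ← Nat.mul_sub_one, pow_succ]
        generalize m - 1 = s
        rw [hr]; ring
      rw [this, Nat.mul_div_cancel _ two_pos]
    rw [e]
    apply Even.mul_right
    rcases Nat.eq_zero_or_pos k with rfl | hk0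
    · apply Even.mul_left
      rw [Nat.even_iff]
      omega
    · exact Even.mul_right (Even.pow_of_ne_zero ⟨r, hr⟩ hk0.ne') _
  refine ⟨ee i (swap a b) * wr (swap i j) 1, ⟨mul_mem (bs_mem_WW _) ⟨swap i j, 1, fun _ _ => rfl⟩, ?_⟩,
    Pi.mulSingle i (swap a b), fun l hl _ => Pi.mulSingle_eq_of_ne hl _, fun _ _ => rfl⟩
  change _ ∈ alternatingGroup _
  rw [mem_alternatingGroup, Perm.sign_mul, sign_ee, sign_swap hab, Odd.neg_one_pow hodd.pow,
    (Int.units_eq_one_or _).resolve_left hs]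
  simp

theorem isCoatom_alt (h5 : 5 ≤ Nat.card Δ) (hk : 2 ≤ Fintype.card ι)
    (h : ¬ (Fintype.card ι = 2 ∧ Fintype.card Δ % 4 = 2)) :
    IsCoatom ((WW ι Δ).subgroupOf (alternatingGroup (ι → Δ))) := by
  obtain ⟨i, j, hij⟩ := Fintype.exists_pair_of_one_lt_card (α := ι) (by omega)
  have : Nonempty ι := ⟨i⟩
  refine ⟨fun e => not_alt_le_WW h5 hij (Subgroup.subgroupOf_eq_top.mp e), fun K hK => ?_⟩
  have h1 : Hyp (K.map (alternatingGroup (ι → Δ)).subtype) := (hyp_inf h5 hk h).mono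
    fun g hg => ⟨⟨g, hg.2⟩, hK.le hg.1, rfl⟩
  rcases h1.dichotomy h5 with h2 | h2
  · exact absurd (fun g hg => h2 ⟨g, hg, rfl⟩) hK.not_ge
  · rw [eq_top_iff]
    intro g _
    obtain ⟨k, hk, e⟩ := h2 g.2
    rwa [← (Subtype.ext e : k = g)]

theorem isCoatom_perm (h5 : 5 ≤ Nat.card Δ) (hk : 2 ≤ Fintype.card ι) {σ : Perm (ι → Δ)}
    (hσ : sign σ = -1) (hW : σ ∈ WW ι Δ) : IsCoatom (WW ι Δ) := by
  obtain ⟨i, j, hij⟩ := Fintype.exists_pair_of_one_lt_card (α := ι) (by omega)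
  have : Nonempty ι := ⟨i⟩
  refine ⟨fun e => not_alt_le_WW h5 hij (e ▸ le_top), fun K hK => ?_⟩
  rcases (hyp_WW.mono hK.le).dichotomy h5 with h2 | h2
  · exact absurd h2 hK.not_ge
  · rw [eq_top_iff]
    intro g _
    rcases Int.units_eq_one_or (sign g) with h | h
    · exact h2 h
    · have : g * σ ∈ K := h2 (by rw [mem_alternatingGroup, Perm.sign_mul, h, hσ]; simp)
      exact (K.mul_mem_cancel_right (hK.le hW)).mp this

end Cfsg.Agent.H8.PA
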