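import Cfsg.Agent.H4.Sz2
import Cfsg.Agent.H4.T8G
import Cfsg.Agent.H8.L3

/-! `Sz(8)` has a fixed vector on the adjoint module of `E₈(3)`. -/

set_option autoImplicit false
set_option linter.unusedSectionVars false

namespace Cfsg.Agent.H8.SzE

open Cfsg.Agent.H6.Suzuki Cfsg.Agent.H4.Sz Cfsg.Agent.H4.T8 Finset Polynomial Module

/-- A concrete field with eight elements. -/
inductive K8 | o | i | w1 | w2 | w3 | w4 | w5 | w6
  deriving DecidableEq

namespace K8

instance instFintypeK8 : Fintype K8 := ⟨{o, i, w1, w2, w3, w4, w5, w6}, fun x => by cases x <;> decide⟩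

/-- Addition table. -/
def add : K8 → K8 → K8
  | o, x => x
  | i, o => i | i, i => o | i, w1 => w3 | i, w2 => w6 | i, w3 => w1 | i, w4 => w5 | i, w5 => w4 | i, w6 => w2
  | w1, o => w1 | w1, i => w3 | w1, w1 => o | w1, w2 => w4 | w1, w3 => i | w1, w4 => w2 | w1, w5 => w6 | w1, w6 => w5
  | w2, o => w2 | w2, i => w6 | w2, w1 => w4 | w2, w2 => o | w2, w3 => w5 | w2, w4 => w1 | w2, w5 => w3 | w2, w6 => i
  | w3, o => w3 | w3, i => w1 | w3, w1 => i | w3, w2 => w5 | w3, w3 => o | w3, w4 => w6 | w3, w5 => w2 | w3, w6 => w4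
  | w4, o => w4 | w4, i => w5 | w4, w1 => w2 | w4, w2 => w1 | w4, w3 => w6 | w4, w4 => o | w4, w5 => i | w4, w6 => w3
  | w5, o => w5 | w5, i => w4 | w5, w1 => w6 | w5, w2 => w3 | w5, w3 => w2 | w5, w4 => i | w5, w5 => o | w5, w6 => w1
  | w6, o => w6 | w6, i => w2 | w6, w1 => w5 | w6, w2 => i | w6, w3 => w4 | w6, w4 => w3 | w6, w5 => w1 | w6, w6 => o

/-- Multiplication table. -/
def mul : K8 → K8 → K8
  | o, _ => o
  | i, x => x
  | w1, o => o | w1, i => w1 | w1, w1 => w2 | w1, w2 => w3 | w1, w3 => w4 | w1, w4 => w5 | w1, w5 => w6 | w1, w6 => i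
  | w2, o => o | w2, i => w2 | w2, w1 => w3 | w2, w2 => w4 | w2, w3 => w5 | w2, w4 => w6 | w2, w5 => i | w2, w6 => w1
  | w3, o => o | w3, i => w3 | w3, w1 => w4 | w3, w2 => w5 | w3, w3 => w6 | w3, w4 => i | w3, w5 => w1 | w3, w6 => w2
  | w4, o => o | w4, i => w4 | w4, w1 => w5 | w4, w2 => w6 | w4, w3 => i | w4, w4 => w1 | w4, w5 => w2 | w4, w6 => w3
  | w5, o => o | w5, i => w5 | w5, w1 => w6 | w5, w2 => i | w5, w3 => w1 | w5, w4 => w2 | w5, w5 => w3 | w5, w6 => w4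
  | w6, o => o | w6, i => w6 | w6, w1 => i | w6, w2 => w1 | w6, w3 => w2 | w6, w4 => w3 | w6, w5 => w4 | w6, w6 => w5

/-- Inverses. -/
def inv : K8 → K8
  | o => o | i => i | w1 => w6 | w2 => w5 | w3 => w4 | w4 => w3 | w5 => w2 | w6 => w1

instance instAddK8 : Add K8 := ⟨add⟩
instance instMulK8 : Mul K8 := ⟨mul⟩
instance instNegK8 : Neg K8 := ⟨id⟩
instance instInvK8 : Inv K8 := ⟨inv⟩
instance instZeroK8 : Zero K8 := ⟨o⟩
instance instOneK8 : One K8 := ⟨i⟩

instance instFieldK8 : Field K8 :=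
  Field.ofMinimalAxioms K8 (by decide +kernel) (by decide) (by decide) (by decide +kernel) (by decide +kernel)
    (by decide) (by decide) (by decide) (by decide +kernel) ⟨o, i, by decide⟩

end K8

section wt
variable {F : Type*} [Field F] [DecidableEq F]

/-- the weight of a trace -/
def c (t : F) : ℤ := if t = 0 then -96 else if t = 1 then -24 else if t ^ 3 + t + 1 = 0 then 36 else 12

/-- the sum of the weights -/
def S [Fintype F] : ℤ := ∑ a : F, ∑ b : F, ∑ k ∈ univ.erase (0 : F),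
  (c (k + k ^ 4 * k⁻¹ + k * (k ^ 4)⁻¹ + k⁻¹) + 64 * c (a ^ 4 * (k * (k ^ 4)⁻¹) + (a * b + b ^ 4 + a ^ 2 * a ^ 4) * k⁻¹))

theorem S8 : S (F := K8) = -3072 := by decide +kernel

theorem c_map (e : K8 ≃+* F) (t : K8) : c (e t) = c t := by
  have : (e t) ^ 3 + e t + 1 = e (t ^ 3 + t + 1) := by simp
  simp only [c, this, map_eq_zero, map_eq_one_iff e e.injective]

theorem S_eq [Fintype F] (hF : Fintype.card F = 8) : S (F := F) = -3072 := by
  have e : K8 ≃+* F := FiniteField.ringEquivOfCardEq (by rw [hF]; rfl)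
  rw [← S8, S, S, eq_comm]
  refine Fintype.sum_equiv e.toEquiv _ _ fun a => Fintype.sum_equiv e.toEquiv _ _ fun b =>
    sum_equiv e.toEquiv (by simp) fun k _ => ?_
  rw [← c_map e, ← c_map e (_ + _ * _)]
  simp

end wt

variable {F : Type*} [Field F] [CharP F 2] [Fintype F] {θ : F →+* F} (hθ : ∀ x, θ (θ x) = x ^ 2) (h4 : ∀ x, θ x = x ^ 4)
  (hF : Fintype.card F = 8)

include hF in
theorem tri (t : F) : t = 0 ∨ t = 1 ∨ t ^ 3 + t + 1 = 0 ∨ t ^ 3 + t ^ 2 + 1 = 0 := by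
  have := FiniteField.pow_card t
  rw [hF] at this
  have h : t * ((t - 1) * ((t ^ 3 + t + 1) * (t ^ 3 + t ^ 2 + 1))) = 0 := by grind
  simpa only [mul_eq_zero, sub_eq_zero] using h

theorem mat_pow (g : SzG θ) (k : ℕ) : mat θ (g ^ k) = mat θ g ^ k := by
  induction k with
  | zero => simp [mat_one]
  | succ k ih => rw [pow_succ, pow_succ, mat_mul, ih]

include h4 in
theorem pow_of (g : SzG θ) {k : ℕ} (q : F[X])
    (h : X ^ k - 1 = q * (X ^ 4 + C (tr g) * X ^ 3 + C (tr g) ^ 4 * X ^ 2 + C (tr g) * X + 1)) : g ^ k = 1 := by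
  have h1 := congrArg (· * mat θ g ^ 2) (sm_sq g)
  have h2 : mat θ g⁻¹ * mat θ g = 1 := by rw [← mat_mul, inv_mul_cancel, mat_one]
  have h3 : mat θ g * mat θ g⁻¹ = 1 := by rw [← mat_mul, mul_inv_cancel, mat_one]
  have h5 : sm g * mat θ g = mat θ g ^ 2 + 1 := by rw [sm, add_mul, h2, sq]
  have h6 : sm g * mat θ g = mat θ g * sm g := by rw [sm, add_mul, mul_add, h2, h3]
  have h7 : sm g * sm g * mat θ g ^ 2 = mat θ g ^ 4 + 1 := by
    rw [sq, mul_assoc, ← mul_assoc (sm g) (mat θ g), h6, ← mul_assoc, ← mul_assoc, mul_assoc (sm g * mat θ g), h5]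
    have := add_self (mat θ g ^ 2)
    linear_combination (norm := noncomm_ring) this
  simp only [h7, add_mul, smul_mul_assoc, one_mul, h4] at h1
  rw [sq, ← mul_assoc, h5] at h1
  apply mat_inj
  rw [mat_pow, mat_one, ← sub_eq_zero]
  have h8 := congrArg (aeval (mat θ g)) h
  rw [map_mul, ← C_pow] at h8
  simp only [map_sub, map_add, map_mul, map_pow, aeval_X, aeval_C, map_one, ← Algebra.smul_def] at h8
  rw [h8]
  refine mul_eq_zero_of_right _ ?_
  rw [← map_pow, ← Algebra.smul_def]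
  have := add_self (tr g • mat θ g ^ 3 + tr g ^ 4 • mat θ g ^ 2 + tr g • mat θ g)
  linear_combination (norm := (simp only [add_mul, smul_add, pow_succ, pow_zero, one_mul]; abel)) h1 + this

include h4 in
theorem cls (g : SzG θ) : (tr g = 0 → g ^ 4 = 1) ∧ (tr g = 1 → g ^ 5 = 1) ∧ (tr g ^ 3 + tr g + 1 = 0 → g ^ 7 = 1) ∧
    (tr g ^ 3 + tr g ^ 2 + 1 = 0 → g ^ 13 = 1) := by
  refine ⟨fun h => pow_of h4 g 1 ?_, fun h => pow_of h4 g (X + 1) ?_,
    fun h => pow_of h4 g (X ^ 3 + C (tr g) * X ^ 2 + C (tr g) * X + 1) ?_,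
    fun h => pow_of h4 g (X ^ 9 + C (tr g) * X ^ 8 + (1 + C (tr g)) * X ^ 7 + (1 + C (tr g) + C (tr g) ^ 2) * X ^ 6 +
      C (tr g) * X ^ 5 + C (tr g) * X ^ 4 + (1 + C (tr g) + C (tr g) ^ 2) * X ^ 3 + (1 + C (tr g)) * X ^ 2 + C (tr g) * X + 1) ?_⟩
  · rw [h, map_zero]; grind
  · rw [h, map_one]; grind
  all_goals
    have := congrArg C h
    simp only [map_add, map_pow, map_one, map_zero] at this
    generalize C (tr g) = t at this
    grind

theorem tr_eq (g : SzG θ) : tr g = (mat θ g).trace := by simp [tr, Matrix.trace, Fin.sum_univ_four]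

theorem tr_comm (g g' : SzG θ) : tr (g * g') = tr (g' * g) := by
  rw [tr_eq, tr_eq, mat_mul, mat_mul, Matrix.trace_mul_comm]

theorem tr_u (a b : F) : tr (u hθ a b) = 0 := by
  simp [tr, mat_u, uM]; grind

include hθ hF in
theorem cardG : Nat.card (SzG θ) = 29120 := by
  rw [(split hθ).card_G, show (split hθ).U = U hθ from rfl, show (split hθ).H = H hθ from rfl, card_U, card_H,
    Nat.card_eq_fintype_card, hF]
  rfl

include hF in
theorem cardU : Nat.card (U hθ) = 64 := by rw [card_U, Nat.card_eq_fintype_card, hF]; rfl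

include hθ h4 hF in
theorem sum_c [DecidableEq F] [Fintype (SzG θ)] : ∑ g : SzG θ, c (tr g) = -3072 := by
  classical
  let Ψ : F × F × Fˣ → B hθ := fun p => ⟨u hθ p.1 p.2.1 * h hθ p.2.2, mul_mem (U_le_B hθ (u_mem hθ _ _)) (h_mem_B hθ _)⟩
  have hB : Fintype.card (B hθ) = 448 := by
    rw [← Nat.card_eq_fintype_card, show B hθ = (split hθ).B from rfl, (split hθ).card_B, show (split hθ).U = U hθ from rfl,
      show (split hθ).H = H hθ from rfl, card_U, card_H, Nat.card_eq_fintype_card, hF]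
    rfl
  have hU : Fintype.card (U hθ) = 64 := by rw [← Nat.card_eq_fintype_card, cardU hθ hF]
  have hΨ : Function.Bijective Ψ := (Fintype.bijective_iff_surjective_and_card _).2 ⟨fun g => by
    obtain ⟨a, b, k, e⟩ := exists_uh' hθ g.2
    exact ⟨(a, b, k), Subtype.ext e.symm⟩, by simp [hB, hF, Fintype.card_units]⟩
  let Φ : B hθ ⊕ U hθ × B hθ → SzG θ := Sum.elim Subtype.val fun p => p.1 * n θ * p.2
  have hΦ : Function.Bijective Φ := (Fintype.bijective_iff_surjective_and_card _).2 ⟨fun g => by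
    rcases (split hθ).bruhat g with hg | ⟨x, hx, b, hb, rfl⟩
    · exact ⟨.inl ⟨g, hg⟩, rfl⟩
    · exact ⟨.inr (⟨x, hx⟩, ⟨b, hb⟩), rfl⟩, by
      rw [Fintype.card_sum, Fintype.card_prod, hB, hU, ← Nat.card_eq_fintype_card, cardG hθ hF]⟩
  rw [← hΦ.sum_comp, Fintype.sum_sum_type, Fintype.sum_prod_type]
  have h1 : ∀ x : U hθ, ∑ b : B hθ, c (tr (Φ (.inr (x, b)))) = ∑ b : B hθ, c (tr (n θ * b.1)) := fun x =>
    Fintype.sum_equiv (Equiv.mulRight ⟨x, U_le_B hθ x.2⟩) _ _ fun b => by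
      change c (tr (x.1 * n θ * b.1)) = c (tr (n θ * (b.1 * x.1)))
      rw [mul_assoc, tr_comm, mul_assoc]
  rw [sum_congr rfl fun x _ => h1 x, sum_const, card_univ, hU, smul_sum, ← sum_add_distrib, ← hΨ.sum_comp,
    Fintype.sum_prod_type, ← S_eq hF, S]
  refine sum_congr rfl fun a _ => ?_
  rw [Fintype.sum_prod_type]
  refine sum_congr rfl fun b _ => ?_
  rw [sum_subtype (univ.erase (0 : F)) (p := (· ≠ 0)) (by simp)]
  refine Fintype.sum_equiv unitsEquivNeZero _ _ fun k => ?_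
  rw [nsmul_eq_mul]
  change c (tr (u hθ a b * h hθ k)) + _ * c (tr (n θ * (u hθ a b * h hθ k))) = _
  congr 2
  · simp [tr, mat_mul, mat_u, mat_h, uM, hM, Matrix.mul_apply, Fin.sum_univ_four, h4, div_eq_mul_inv]
  · congr 1
    simp [tr, mat_mul, mat_u, mat_h, mat_n, uM, hM, J, Matrix.mul_apply, Fin.sum_univ_four, h4, div_eq_mul_inv]

variable {V : Type*} [AddCommGroup V] [Module (ZMod 3) V] [FiniteDimensional (ZMod 3) V]

theorem dm_sq (g : End (ZMod 3) V) : dm ⊤ (g * g) 1 = dm ⊤ g 1 + dm ⊤ g (-1) := by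
  have := dm_split (k := ZMod 3) (by decide) (U := (g * g).eigenspace 1) (z := g) (g := g * g) (fun v hv => by
    rw [End.mem_eigenspace_iff, one_smul] at hv ⊢
    exact ⟨congrArg g hv, hv⟩) (fun _ _ => rfl) 1
  rw [dm, inf_idem] at this
  rw [dm, top_inf_eq, this, dm, dm, dm, dm, top_inf_eq, top_inf_eq]
  congr 1 <;> refine congrArg (fun W : Submodule (ZMod 3) V => finrank (ZMod 3) W) (Submodule.ext fun v => ?_) <;>
    simp only [Submodule.mem_inf, End.mem_eigenspace_iff, End.mul_apply] <;>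
    exact ⟨fun h => h.1.2, fun h => ⟨⟨by simp [h], h⟩, by simp [h]⟩⟩

include hθ h4 hF in
theorem fixed (ρ : SzG θ →* End (ZMod 3) V) (h : Fac ρ) (h5 : ∀ x, x ^ 5 = 1 → 48 ≤ dm ⊤ (ρ x) 1)
    (h7 : ∀ x, x ^ 7 = 1 → 38 ≤ dm ⊤ (ρ x) 1) (h13 : ∀ x, x ^ 13 = 1 → 20 ≤ dm ⊤ (ρ x) 1) : ∃ v ≠ 0, ∀ g, ρ g v = v := by
  classical
  have : Fact (Nat.Prime 3) := ⟨Nat.prime_three⟩
  have := Fintype.ofFinite (SzG θ)
  have hG := cardG hθ hF
  obtain ⟨χ, -, -, h1, h2⟩ := L3.exists_chi (p := 3) (by rw [← Nat.card_eq_fintype_card, hG]; decide) ρ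
  replace h2 : ∀ g n, g ^ n = 1 → ¬ 3 ∣ n → ∑ i ∈ range n, χ (g ^ i) = n * dm ⊤ (ρ g) 1 := fun g n a b => by
    rw [h2 g n a b, dm, top_inf_eq]
  have h0 : χ 1 = 248 := by
    have := h2 1 1 (by simp) (by decide)
    rw [dm, map_one, show (⊤ : Submodule (ZMod 3) V) ⊓ End.eigenspace 1 1 = ⊤ from eq_top_iff.2 fun v _ => by simp,
      finrank_top, h.dim] at this
    simpa using this
  let E : List ℕ := [1, 1627, 849, 1763, 81, 747, 1429, 843, 1101, 447, 1089, 943]
  have h3 : ∀ e ∈ E, ∑ g, χ (g ^ e) = ∑ g, χ g := fun e he =>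
    Equiv.sum_comp (powCoprime (n := e) (by rw [hG]; revert e; decide)) χ
  have h6 : ∀ g, ∃ w : ℤ, (E.map fun e => χ (g ^ e)).sum = w ∧
      c (tr g) + (if g = 1 then 3072 else 0) + (if g = u hθ 1 0 then 1 else 0) ≤ w := fun g => by
    obtain ⟨c0, c1, c2, c3⟩ := cls h4 g
    have a0 : ∀ m, g ^ m = 1 → (E.map fun e => χ (g ^ e)) = (E.map (· % m)).map fun e => χ (g ^ e) := fun m hm => by
      rw [List.map_map]
      exact List.map_congr_left fun e _ => congrArg χ (pow_eq_pow_mod e hm)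
    by_cases t0 : tr g = 0
    · have a1 := h2 g 4 (c0 t0) (by decide)
      have a2 := h2 (g ^ 2) 2 (by rw [← pow_mul]; exact c0 t0) (by decide)
      have a3 := h.e2 g (by rw [show 8 = 4 * 2 from rfl, pow_mul, c0 t0, one_pow])
      rw [c0 t0, h.tau_one] at a3
      rw [map_pow, sq (ρ g), dm_sq] at a2
      refine ⟨12 * tau ⊤ (ρ g), ?_, ?_⟩
      · rw [a0 4 (c0 t0), tau]
        simp only [sum_range_succ, range_zero, sum_empty, pow_zero, pow_one] at a1 a2
        simp only [E, List.map_cons, List.map_nil, List.sum_cons, List.sum_nil, Nat.reduceMod, pow_one]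
        push_cast at a1 a2 ⊢
        linear_combination 6 * a1 - 6 * a2
      · rw [c, if_pos t0]
        have a4 : g = 1 → tau ⊤ (ρ g) = 248 := fun e => e ▸ h.tau_one
        have a5 : g = u hθ 1 0 → tau ⊤ (ρ (g ^ 2)) ≠ 248 := fun e => h.tau_ne (by
          rw [e, sq, u_sq]; exact z_ne hθ (by simp))
        simp only [L8, List.mem_cons, Prod.mk.injEq, List.not_mem_nil, or_false] at a3
        split_ifs with e1 e2 e2
        · exact absurd ((u_eq_one hθ).1 (e2.symm.trans e1)).1 one_ne_zero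
        · rw [a4 e1]; norm_num
        · have := a5 e2
          generalize tau ⊤ (ρ g) = x, tau ⊤ (ρ (g ^ 2)) = y at *
          omega
        · generalize tau ⊤ (ρ g) = x, tau ⊤ (ρ (g ^ 2)) = y at *
          omega
    rw [if_neg fun e => t0 (by rw [e, ← u_zero hθ, tr_u]), if_neg fun e => t0 (by rw [e, tr_u]), c, if_neg t0]
    split_ifs with t1 t2
    · have a1 := h2 g 5 (c1 t1) (by decide)
      have := h5 g (c1 t1)
      refine ⟨3 * (5 * dm ⊤ (ρ g) 1 - 248), ?_, by omega⟩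
      rw [a0 5 (c1 t1)]
      simp only [sum_range_succ, range_zero, sum_empty, pow_zero, h0] at a1
      simp only [E, List.map_cons, List.map_nil, List.sum_cons, List.sum_nil, Nat.reduceMod]
      push_cast at a1 ⊢
      linear_combination 3 * a1
    · have a1 := h2 g 7 (c2 t2) (by decide)
      have := h7 g (c2 t2)
      refine ⟨2 * (7 * dm ⊤ (ρ g) 1 - 248), ?_, by omega⟩
      rw [a0 7 (c2 t2)]
      simp only [sum_range_succ, range_zero, sum_empty, pow_zero, h0] at a1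
      simp only [E, List.map_cons, List.map_nil, List.sum_cons, List.sum_nil, Nat.reduceMod]
      push_cast at a1 ⊢
      linear_combination 2 * a1
    · have t3 := (((tri hF _).resolve_left t0).resolve_left t1).resolve_left t2
      have a1 := h2 g 13 (c3 t3) (by decide)
      have := h13 g (c3 t3)
      refine ⟨13 * dm ⊤ (ρ g) 1 - 248, ?_, by omega⟩
      rw [a0 13 (c3 t3)]
      simp only [sum_range_succ, range_zero, sum_empty, pow_zero, h0] at a1
      simp only [E, List.map_cons, List.map_nil, List.sum_cons, List.sum_nil, Nat.reduceMod]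
      push_cast at a1 ⊢
      linear_combination a1
  choose w hw1 hw2 using h6
  have h8 := sum_le_sum fun g (_ : g ∈ univ) => hw2 g
  rw [sum_add_distrib, sum_add_distrib, sum_c hθ h4 hF, sum_ite_eq', sum_ite_eq'] at h8
  have h9 : ((∑ g, w g : ℤ) : ℤ_[3]) = 12 * ∑ g, χ g := by
    rw [Int.cast_sum, ← sum_congr rfl fun g _ => hw1 g]
    simp only [E, List.map_cons, List.map_nil, List.sum_cons, List.sum_nil, sum_add_distrib]
    simp only [E, List.forall_mem_cons] at h3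
    simp only [h3, sum_const_zero]
    ring
  by_contra! e
  rw [h1, show L3.Fx ρ ⊤ = ⊥ from eq_bot_iff.2 fun v hv => by
    by_contra h0
    obtain ⟨g, hg⟩ := e v h0
    exact hg (hv g trivial), finrank_bot, Nat.cast_zero, mul_zero, mul_zero, Int.cast_eq_zero] at h9
  simp [h9] at h8

omit [CharP F 2] in
include hF in
theorem main (ρ : Lie.Sz F 4 →* End (ZMod 3) V) (h : Fac ρ) (h5 : ∀ x, x ^ 5 = 1 → 48 ≤ dm ⊤ (ρ x) 1)
    (h7 : ∀ x, x ^ 7 = 1 → 38 ≤ dm ⊤ (ρ x) 1) (h13 : ∀ x, x ^ 13 = 1 → 20 ≤ dm ⊤ (ρ x) 1) : ∃ v ≠ 0, ∀ g, ρ g v = v := by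
  have : CharP F 2 := charP_of_card (k := 3) hF
  have h4 : ∀ x : F, iterateFrobenius F 2 2 x = x ^ 4 := fun x => iterateFrobenius_def 2 2 x
  revert ρ
  rw [Sz_eq _ _ h4]
  exact fixed (tits_sq (m := 1) hF) h4 hF

end Cfsg.Agent.H8.SzE
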