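import Cfsg.Agent.H8.SzE
import Cfsg.Agent.H2.E8H

/-! Automorphisms and abelian subgroups of `Sz(8)`. -/

set_option autoImplicit false
set_option linter.unusedSectionVars false

namespace Cfsg.Agent.H8.SzE

open Cfsg.Agent.H6.Suzuki Cfsg.Agent.H4.Sz Finset

variable {F : Type*} [Field F] [CharP F 2] [Fintype F] {θ : F →+* F} (hθ : ∀ x, θ (θ x) = x ^ 2) (h4 : ∀ x, θ x = x ^ 4)
  (hF : Fintype.card F = 8)

theorem eq_one_of {G : Type*} [Group G] {g : G} {a b : ℕ} (ha : g ^ a = 1) (hb : g ^ b = 1) (h : a.Coprime b) : g = 1 :=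
  orderOf_eq_one_iff.1 (Nat.eq_one_of_dvd_coprimes h (orderOf_dvd_of_pow_eq_one ha) (orderOf_dvd_of_pow_eq_one hb))

include h4 hF in
theorem ord (g : SzG θ) : g ^ 4 = 1 ∨ g ^ 5 = 1 ∨ g ^ 7 = 1 ∨ g ^ 13 = 1 :=
  (tri hF (tr g)).imp (cls h4 g).1 (Or.imp (cls h4 g).2.1 (Or.imp (cls h4 g).2.2.1 (cls h4 g).2.2.2))

include hθ in
theorem tr_one : tr (1 : SzG θ) = 0 := by rw [← u_zero hθ, tr_u]

include hθ h4 hF in
theorem tr_five {g : SzG θ} (h0 : tr g ≠ 0) (h : g ^ 5 = 1) : tr g = 1 := by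
  have h1 : g ≠ 1 := fun e => h0 (e ▸ tr_one hθ)
  rcases (tri hF (tr g)).resolve_left h0 with e | e | e
  · exact e
  · exact absurd (eq_one_of h ((cls h4 g).2.2.1 e) (by decide)) h1
  · exact absurd (eq_one_of h ((cls h4 g).2.2.2 e) (by decide)) h1

include hθ h4 hF in
theorem tr_seven {g : SzG θ} (h0 : tr g ≠ 0) (h : g ^ 7 = 1) : tr g ^ 3 + tr g + 1 = 0 := by
  have h1 : g ≠ 1 := fun e => h0 (e ▸ tr_one hθ)
  rcases (tri hF (tr g)).resolve_left h0 with e | e | e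
  · exact absurd (eq_one_of h ((cls h4 g).2.1 e) (by decide)) h1
  · exact e
  · exact absurd (eq_one_of h ((cls h4 g).2.2.2 e) (by decide)) h1

theorem comm_z' {g : SzG θ} (e : g * z' hθ 1 = z' hθ 1 * g) : n θ * g * n θ ∈ U hθ :=
  mem_U_of_comm hθ one_ne_zero (by
    rw [← nn (u hθ 0 1), ← z']
    calc _ = n θ * g * (n θ * n θ) * z' hθ 1 * n θ := by group
      _ = n θ * (g * z' hθ 1) * n θ := by rw [n_mul_n]; group
      _ = n θ * z' hθ 1 * (n θ * n θ) * g * n θ := by rw [e, n_mul_n]; group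
      _ = _ := by group)

include hF in
theorem aut_eq_one (δ : MulAut (SzG θ)) (h1 : δ (u hθ 0 1) = u hθ 0 1) (h2 : δ (z' hθ 1) = z' hθ 1) {k : Fˣ} (hk : k ≠ 1)
    (h3 : δ (h hθ k) = h hθ k) : δ = 1 := by
  classical
  let K := δ.toMonoidHom.eqLocus (MonoidHom.id _)
  have mK : ∀ g, g ∈ K ↔ δ g = g := fun _ => Iff.rfl
  have hh : ∀ l, h hθ l ∈ K := fun l => by
    have : Fact (Nat.Prime 7) := ⟨by decide⟩
    obtain ⟨m, rfl⟩ : l ∈ Submonoid.powers k := mem_powers_iff_mem_zpowers.2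
      (mem_zpowers_of_prime_card (p := 7) (by rw [Nat.card_eq_fintype_card, Fintype.card_units, hF]) hk)
    induction m with
    | zero => simpa [h_one] using K.one_mem
    | succ m ih => exact (show h hθ (k ^ m) * h hθ k = h hθ (k ^ (m + 1)) from by rw [h_mul, pow_succ]) ▸ K.mul_mem ih h3
  have hz : ∀ c, u hθ 0 c ∈ K := fun c => by
    by_cases hc : c = 0
    · rw [hc, u_zero]; exact K.one_mem
    obtain ⟨l, rfl⟩ := exists_theta' (θ := θ) hc
    rw [← mul_one (θ l), ← h_z]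
    exact K.mul_mem (K.mul_mem (hh l) h1) (K.inv_mem (hh l))
  have hz' : ∀ c, z' hθ c ∈ K := fun c => by
    by_cases hc : c = 0
    · rw [hc, z', u_zero, mul_one, n_mul_n]; exact K.one_mem
    obtain ⟨l, rfl⟩ := exists_theta' (θ := θ) hc
    rw [← mul_one (θ l), ← h_z']
    exact K.mul_mem (K.mul_mem (hh _) h2) (K.inv_mem (hh _))
  have hn : n θ ∈ K := by simpa [h_one] using nh_mem hθ (K := K) h1 hz' 1
  have hw : u hθ 1 0 ∈ K := by
    have e1 := sz2_a hθ
    have e2 := congrArg δ e1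
    simp only [map_mul, h1, h2] at e2
    have e3 : δ (u hθ 1 0) ∈ U hθ := mem_U_of_comm hθ one_ne_zero (by rw [← h1, ← map_mul, ← map_mul, comm_z hθ (u_mem hθ _ _)])
    have e4 := uniq hθ ((U hθ).mul_mem ((U hθ).inv_mem (u_mem hθ 1 0)) e3) (U_le_B hθ (comm_z' hθ (by
      rw [mul_assoc, ← e2, ← mul_assoc, ← eq_mul_inv_iff_mul_eq.2 e1 |>.symm]; group)))
    exact (inv_mul_eq_one.1 e4).symm
  have hU : U hθ ≤ K := by
    rintro _ ⟨a, b, rfl⟩
    by_cases ha : a = 0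
    · exact ha ▸ hz b
    obtain ⟨l, hl⟩ := exists_lam hθ ha
    have h7 := K.mul_mem (K.mul_mem (hh l) hw) (K.inv_mem (hh l))
    rw [h_u, hl, mul_one, mul_zero] at h7
    simpa [u_mul] using K.mul_mem h7 (hz b)
  have hB : B hθ ≤ K := fun g hg => by
    obtain ⟨a, b, k, rfl⟩ := exists_uh' hθ hg
    exact K.mul_mem (hU (u_mem hθ a b)) (hh k)
  ext g : 1
  rcases (split hθ).bruhat g with hg | ⟨u, hu, b, hb, rfl⟩
  · exact hB hg
  · exact K.mul_mem (K.mul_mem (hU hu) hn) (hB hb)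

include h4 hF in
theorem aut_two (α : MulAut (SzG θ)) : ∃ s, α (u hθ 0 1) = s * u hθ 0 1 * s⁻¹ ∧ α (z' hθ 1) = s * z' hθ 1 * s⁻¹ := by
  obtain ⟨s, hs⟩ := exists_conj_z hθ (s := α (u hθ 0 1)) (by simpa using z_ne hθ one_ne_zero) (by rw [← map_mul, z_sq, map_one])
  obtain ⟨y, hy⟩ := exists_conj_z hθ (s := α (z' hθ 1)) (fun e => z'_notMem hθ one_ne_zero (by
    rw [(map_eq_one_iff _ α.injective).1 e]; exact one_mem _))
    (by rw [← map_mul, z'_sq, map_one])
  have h5 : γ hθ 1 ^ 5 = 1 := (cls h4 _).2.1 (by rw [tr_γ, map_one])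
  have h6 := congrArg α h5
  rw [map_pow, map_one, γ, map_mul, ← hs, ← hy] at h6
  have h7 : s⁻¹ * y ∉ B hθ := fun e => by
    obtain ⟨k, hk⟩ := B_z hθ e
    have e1 : α (u hθ 0 1 * z' hθ 1) = s * (u hθ 0 1 * u hθ 0 (θ k * 1)) * s⁻¹ := by rw [map_mul, ← hs, ← hy, ← hk]; group
    have e2 : γ hθ 1 ^ 2 = 1 := α.injective (by rw [map_pow, γ, e1, conj_pow, z_mul, sq, z_sq]; simp)
    have := tr_γ hθ 1
    rw [eq_one_of h5 e2 (by decide), tr_one hθ, map_one] at this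
    exact zero_ne_one this
  obtain ⟨w, hw, k, -, hk⟩ := conj_notMem hθ h7
  have e1 : y * u hθ 0 1 * y⁻¹ = s * w * z' hθ (θ k * 1) * (s * w)⁻¹ := by
    calc _ = s * (s⁻¹ * y * u hθ 0 1 * (s⁻¹ * y)⁻¹) * s⁻¹ := by group
      _ = _ := by rw [hk]; group
  have e2 : s * u hθ 0 1 * s⁻¹ = s * w * u hθ 0 1 * (s * w)⁻¹ := by
    nth_rewrite 1 [← conj_z hθ hw 1]; group
  have e3 : θ k * 1 = 1 := by
    obtain ⟨x, hx⟩ := isConj_iff.1 (conj_γ hθ 1 (c := θ k * 1) (by simp))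
    rw [e1, e2, conj_mul, ← hx, conj_pow, conj_pow, conj_eq_one_iff, conj_eq_one_iff] at h6
    have := tr_five hθ h4 hF (by rw [tr_γ]; simp) h6
    rw [tr_γ, one_mul] at this
    exact θ.injective (this.trans (map_one θ).symm)
  exact ⟨s * w, hs ▸ e2, by rw [← hy, e1, e3]⟩

include h4 hF in
theorem aut_h (β : MulAut (SzG θ)) (h1 : β (u hθ 0 1) = u hθ 0 1) (h2 : β (z' hθ 1) = z' hθ 1) {k : Fˣ}
    (hk : ((k : F) ^ 2) ^ 3 + k ^ 2 + 1 = 0) : ∃ l : Fˣ, ((l : F) ^ 2) ^ 3 + l ^ 2 + 1 = 0 ∧ β (h hθ k) = h hθ l := by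
  have e1 : β (h hθ k) ∈ B hθ := (split hθ).mem_B_of_conj (u_mem hθ 0 1) (z_ne hθ one_ne_zero)
    (mem_U_of_comm hθ one_ne_zero (by rw [← h1, ← map_inv, ← map_mul, ← map_mul, ← map_mul, ← map_mul, h_z,
      comm_z hθ (u_mem hθ _ _)]))
  have e2 : n θ * β (h hθ k) * n θ ∈ B hθ := (split hθ).mem_B_of_conj (u_mem hθ 0 1) (z_ne hθ one_ne_zero) (by
    have := comm_z' hθ (g := β (h hθ k) * z' hθ 1 * (β (h hθ k))⁻¹) (by
      have e := h_z' hθ k⁻¹ 1
      rw [inv_inv] at e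
      rw [← h2, ← map_inv, ← map_mul, ← map_mul, ← map_mul, ← map_mul, e, z'_comm])
    rw [z'] at this
    change _ ∈ U hθ
    convert this using 1
    rw [mul_inv_rev, mul_inv_rev, n_inv]; group)
  obtain ⟨a, b, l, e3⟩ := exists_uh' hθ e1
  have e4 : u hθ a b = 1 := uniq hθ (u_mem hθ a b) (by
    have := (B hθ).mul_mem e2 (h_mem_B hθ l)
    rwa [e3, mul_assoc, n_h, ← mul_assoc, mul_assoc (n θ), mul_assoc _ (h hθ l), h_mul, mul_inv_cancel,
      h_one, mul_one] at this)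
  rw [e4, one_mul] at e3
  refine ⟨l, ?_, e3⟩
  have e5 := congrArg β ((cls h4 (γ hθ (θ k))).2.2.1 (by rwa [tr_γ, hθ]))
  rw [map_pow, map_one, γ, map_mul, h2, ← mul_one (θ k), ← h_z, map_mul, map_mul, map_inv, e3, h1, h_z, mul_one, ← γ] at e5
  simpa only [tr_γ, hθ] using tr_seven hθ h4 hF (by rw [tr_γ]; simp) e5

include hθ h4 hF in
theorem card_aut : Nat.card (MulAut (SzG θ)) ≤ 29120 * 3 := by
  classical
  have e : K8 ≃+* F := FiniteField.ringEquivOfCardEq (by rw [hF]; rfl)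
  let P : F → Prop := fun l => (l ^ 2) ^ 3 + l ^ 2 + 1 = 0
  have hP : ∀ x, P (e x) ↔ (x ^ 2) ^ 3 + x ^ 2 + 1 = 0 := fun x => by
    rw [← map_eq_zero_iff e e.injective]; simp [P]
  have h0 : e .w1 ≠ 0 := by simpa using by decide
  have h1 : Units.mk0 _ h0 ≠ 1 := fun h => (show K8.w1 ≠ 1 by decide) (e.injective (by
    rw [map_one]; exact congrArg Units.val h))
  have key : ∀ α : MulAut (SzG θ), ∃ s, ∃ l : Fˣ, P l ∧ α (u hθ 0 1) = s * u hθ 0 1 * s⁻¹ ∧ α (z' hθ 1) = s * z' hθ 1 * s⁻¹ ∧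
      α (h hθ (Units.mk0 _ h0)) = s * h hθ l * s⁻¹ := fun α => by
    obtain ⟨s, e1, e2⟩ := aut_two hθ h4 hF α
    obtain ⟨l, e3, e4⟩ := aut_h hθ h4 hF ((MulAut.conj s)⁻¹ * α) (by simp [e1, mul_assoc]) (by simp [e2, mul_assoc])
      (k := Units.mk0 _ h0) ((hP _).2 (by decide))
    exact ⟨s, l, e3, e1, e2, by simp [← e4, mul_assoc]⟩
  choose s l hl k1 k2 k3 using key
  refine (Nat.card_le_card_of_injective (fun α => ((s α, ⟨l α, hl α⟩) : SzG θ × {x // P x})) fun α β h => ?_).trans ?_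
  · have e1 : s α = s β := congrArg Prod.fst h
    have e2 : l α = l β := Units.ext (congrArg (·.2.1) h)
    refine (inv_mul_eq_one.1 (aut_eq_one hθ hF _ ?_ ?_ h1 ?_)).symm <;> rw [MulAut.mul_apply, MulAut.inv_apply,
      MulEquiv.symm_apply_eq]
    · rw [k1, k1, e1]
    · rw [k2, k2, e1]
    · rw [k3, k3, e1, e2]
  · rw [Nat.card_prod, cardG hθ hF, ← Nat.card_congr (e.toEquiv.subtypeEquiv fun x => (hP x).symm), Nat.card_eq_fintype_card]
    decide +kernel

include hθ h4 hF in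
theorem abel (A : Subgroup (SzG θ)) [IsMulCommutative A] : Nat.card A ≤ 64 := by
  have h1 := A.card_subgroup_dvd_card
  rw [cardG hθ hF] at h1
  have h2 : ∀ p q, p.Prime → q.Prime → p.Coprime q → 13 < p * q ∨ p * q = 10 → p ∣ Nat.card A → ¬ q ∣ Nat.card A :=
    fun p q hp hq hc hd dp dq => by
    have := Fact.mk hp
    have := Fact.mk hq
    obtain ⟨x, hx⟩ := exists_prime_orderOf_dvd_card' p dp
    obtain ⟨y, hy⟩ := exists_prime_orderOf_dvd_card' q dq
    have h3 : orderOf (x * y : A).1 = p * q := by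
      rw [Subgroup.orderOf_coe, Commute.orderOf_mul_eq_mul_orderOf_of_coprime (mul_comm' x y) (by rwa [hx, hy]), hx, hy]
    rw [← h3] at hd
    rcases ord h4 hF (x * y : A).1 with e | e | e | e <;> have h5 := orderOf_dvd_of_pow_eq_one e <;>
      have := Nat.le_of_dvd (by decide) h5 <;> rcases hd with hd | hd <;> first | omega | (rw [hd] at h5; omega)
  have := h2 2 5 (by decide) (by decide) (by decide) (by decide)
  have := h2 2 7 (by decide) (by decide) (by decide) (by decide)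
  have := h2 2 13 (by decide) (by decide) (by decide) (by decide)
  have := h2 5 7 (by decide) (by decide) (by decide) (by decide)
  have := h2 5 13 (by decide) (by decide) (by decide) (by decide)
  have := h2 7 13 (by decide) (by decide) (by decide) (by decide)
  have h3 := Nat.mem_divisors.2 ⟨h1, by decide⟩
  have h5 : ∀ m ∈ Nat.divisors 29120, (2 ∣ m → ¬5 ∣ m) → (2 ∣ m → ¬7 ∣ m) → (2 ∣ m → ¬13 ∣ m) → (5 ∣ m → ¬7 ∣ m) →
    (5 ∣ m → ¬13 ∣ m) → (7 ∣ m → ¬13 ∣ m) → m ≤ 64 := by decide +kernel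
  apply h5 <;> assumption

omit [CharP F 2] in
include hF in
theorem sz {H : Type*} [Group H] [Finite H] (e : Nonempty (generalizedFittingSubgroup H ≃* Lie.Sz F 4)) :
    (generalizedFittingSubgroup H).index ∣ 6 ∧
      ∀ A : Subgroup H, IsMulCommutative A → ¬ 3 ∣ Nat.card A → Nat.card A < 256 := by
  have : CharP F 2 := charP_of_card (k := 3) hF
  have h4 : ∀ x : F, iterateFrobenius F 2 2 x = x ^ 4 := fun x => iterateFrobenius_def 2 2 x
  have hθ := tits_sq (p := 2) (m := 1) hF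
  rw [Sz_eq _ _ h4] at e
  obtain ⟨e⟩ := e
  have hN := H2.E8H.gfit_normal (H := H)
  set N := generalizedFittingSubgroup H with hNd
  have h1 : Function.Injective (MulAut.conjNormal (H := N)) := by
    rw [← MonoidHom.ker_eq_bot_iff]
    refine H2.E8H.eq_bot_of_inf inferInstance (eq_bot_iff.2 fun x hx => ?_)
    have h2 : ∀ g, e ⟨x, hx.2⟩ * g = g * e ⟨x, hx.2⟩ := fun g => by
      obtain ⟨g, rfl⟩ := e.surjective g
      have h3 := congrArg Subtype.val (DFunLike.congr_fun (MonoidHom.mem_ker.1 hx.1) g)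
      rw [← map_mul, ← map_mul]
      exact congrArg e (Subtype.ext (mul_inv_eq_iff_eq_mul.1 h3))
    simpa using uniq hθ (mem_U_of_comm hθ one_ne_zero (h2 _)) (U_le_B hθ (comm_z' hθ (h2 _)))
  have h2 : Nat.card H ≤ 29120 * 3 := by
    refine (Nat.card_le_card_of_injective _ h1).trans ?_
    rw [Nat.card_congr (MulAut.congr e).toEquiv]
    exact card_aut hθ h4 hF
  have h3 : Nat.card N = 29120 := by rw [Nat.card_congr e.toEquiv, cardG hθ hF]
  have h5 : N.index ≤ 3 := by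
    have := N.card_mul_index
    nlinarith
  refine ⟨?_, fun A hA _ => ?_⟩
  · have := N.index_ne_zero_of_finite
    generalize N.index = m at *
    interval_cases m <;> simp_all
  · have h6 := (N.subgroupOf A).card_mul_index
    have h7 : (N.subgroupOf A).index ≤ 3 := (Nat.le_of_dvd (Nat.pos_of_ne_zero N.index_ne_zero_of_finite)
      (N.relIndex_dvd_index_of_normal A)).trans h5
    let f : N.subgroupOf A →* SzG _ := e.toMonoidHom.comp ((A.subtype.comp (N.subgroupOf A).subtype).codRestrict N fun x => x.2)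
    have hf : Function.Injective f := fun x y h => Subtype.ext (Subtype.ext (congrArg (fun z : N => z.1) (e.injective h)))
    have h8 := abel hθ h4 hF f.range
    rw [← Nat.card_congr (MonoidHom.ofInjective hf).toEquiv] at h8
    nlinarith

end Cfsg.Agent.H8.SzE
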